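import Cfsg.Statements.S4956
import Cfsg.Agent.Lib.Ind.Basic
import Cfsg.Agent.Lib.Solv.Coprime
import Cfsg.Agent.Lib.Fit.Core

set_option autoImplicit false
open Cfsg

namespace Cfsg.Agent.S4956

open scoped IsMulCommutative commutatorElement

theorem count_pairs {X : Type*} [Group X] [Finite X] (V : Subgroup X) [hV : V.Normal]
    [IsMulCommutative V] (G : Subgroup X) (hcop : (Nat.card V).Coprime (Nat.card G))
    {g h : X} (hg : g ∈ G) (hh : h ∈ G) (hgh : Commute g h) :
    Nat.card {t : V × V // Commute ((t.1 : X) * g) (t.2 * h)} =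
      Nat.card V * Nat.card {v : V // Commute (v : X) g ∧ Commute (v : X) h} := by
  let δ : X → (V →* V) := fun x => MonoidHom.id V / (MulAut.conjNormal x).toMonoidHom
  have hδ : ∀ x (v : V), (δ x v : X) = ⁅(v : X), x⁆ := fun x v => by
    simp [δ, div_eq_mul_inv, commutatorElement_def, mul_assoc]
  let ψ : V × V →* V := (δ h).comp (MonoidHom.fst V V) / (δ g).comp (MonoidHom.snd V V)
  have hab : ∀ a ∈ V, ∀ b ∈ V, a * b = b * a := fun a ha b hb =>
    congrArg Subtype.val (mul_comm (⟨a, ha⟩ : V) ⟨b, hb⟩)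
  have h1 : Nat.card {t : V × V // Commute ((t.1 : X) * g) (t.2 * h)} = Nat.card ψ.ker := by
    refine Nat.card_congr (Equiv.subtypeEquivRight fun t => ?_)
    obtain ⟨a, b⟩ := t
    rw [MonoidHom.mem_ker]
    simp only [ψ, MonoidHom.div_apply, MonoidHom.comp_apply, MonoidHom.coe_fst, MonoidHom.coe_snd,
      div_eq_one, Subtype.ext_iff, hδ, commutatorElement_def]
    have e1 := hab _ (hV.conj_mem _ b.2 g) _ (hV.conj_mem _ a.2 h)
    have e2 := hgh.eq
    constructor
    · intro e
      calc (a : X) * h * (a : X)⁻¹ * h⁻¹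
          = (a * g * (b * h)) * (g * h)⁻¹ * ((h * a * h⁻¹) * (g * b * g⁻¹))⁻¹ := by group
        _ = (b * h * (a * g)) * (h * g)⁻¹ * ((g * b * g⁻¹) * (h * a * h⁻¹))⁻¹ := by
          rw [e.eq, e1, e2]
        _ = _ := by group
    · intro e
      calc (a : X) * g * (b * h)
          = (a * h * (a : X)⁻¹ * h⁻¹) * ((h * a * h⁻¹) * (g * b * g⁻¹)) * (g * h) := by group
        _ = (b * g * (b : X)⁻¹ * g⁻¹) * ((g * b * g⁻¹) * (h * a * h⁻¹)) * (h * g) := by
          rw [e, e1, e2]
        _ = _ := by group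
  let A := Subgroup.closure ({g, h} : Set X)
  have hAG : A ≤ G := (Subgroup.closure_le _).mpr (by rintro x (rfl | rfl) <;> assumption)
  have hAV : A ≤ Subgroup.normalizer (V : Set X) := by
    rw [Subgroup.normalizer_eq_top]; exact le_top
  have hcop' : (Nat.card A).Coprime (Nat.card V) :=
    (Nat.Coprime.coprime_dvd_right (Subgroup.card_dvd_of_le hAG) hcop).symm
  have h2 : ψ.range.map V.subtype = ⁅V, A⁆ := by
    apply le_antisymm
    · rintro _ ⟨_, ⟨⟨a, b⟩, rfl⟩, rfl⟩
      simp only [ψ, MonoidHom.div_apply, MonoidHom.comp_apply, MonoidHom.coe_fst, MonoidHom.coe_snd,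
        Subgroup.coe_subtype, Subgroup.coe_div, hδ]
      exact Subgroup.div_mem _
        (Subgroup.commutator_mem_commutator a.2 (Subgroup.subset_closure (by simp)))
        (Subgroup.commutator_mem_commutator b.2 (Subgroup.subset_closure (by simp)))
    · rw [Subgroup.commutator_le]
      intro v hv x hx
      induction hx using Subgroup.closure_induction generalizing v with
      | mem x hx =>
        rcases hx with rfl | rfl
        · refine ⟨_, ⟨(1, ⟨v, hv⟩⁻¹), rfl⟩, ?_⟩
          simp [ψ, hδ]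
        · refine ⟨_, ⟨(⟨v, hv⟩, 1), rfl⟩, ?_⟩
          simp [ψ, hδ]
      | one => simp
      | mul x y _ _ ihx ihy =>
        have e := hab _ (hV.conj_mem _ (hV.conj_mem _ (V.inv_mem hv) y) x) _
          (hV.conj_mem _ (V.inv_mem hv) y)
        have e' := hab _ (hV.conj_mem _ hv y) _ (hV.conj_mem _ (V.inv_mem hv) y)
        have : ⁅v, x * y⁆ = ⁅v, y⁆ * ⁅y * v * y⁻¹, x⁆ := by
          simp only [commutatorElement_def]; group
        rw [this]
        exact Subgroup.mul_mem _ (ihy v hv) (ihx _ (hV.conj_mem _ hv y))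
      | inv x _ ihx =>
        have : ⁅v, x⁻¹⁆ = ⁅x⁻¹ * v * x, x⁆⁻¹ := by
          simp only [commutatorElement_def]; group
        rw [this]
        exact Subgroup.inv_mem _ (ihx _ (by simpa using hV.conj_mem _ hv x⁻¹))
  have h3 : Nat.card {v : V // Commute (v : X) g ∧ Commute (v : X) h} =
      Nat.card ↥(V ⊓ Subgroup.centralizer (A : Set X)) := by
    have : ∀ v : X, v ∈ Subgroup.centralizer (A : Set X) ↔ Commute v g ∧ Commute v h := fun v => by
      rw [Subgroup.centralizer_closure, Subgroup.mem_centralizer_iff]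
      simp only [Set.mem_insert_iff, Set.mem_singleton_iff, forall_eq_or_imp, forall_eq]
      exact and_congr ⟨fun h => h.symm, fun h => h.eq.symm⟩ ⟨fun h => h.symm, fun h => h.eq.symm⟩
    exact Nat.card_congr ⟨fun v => ⟨v.1, v.1.2, (this _).mpr v.2⟩,
      fun v => ⟨⟨v.1, v.2.1⟩, (this _).mp v.2.2⟩, fun _ => rfl, fun _ => rfl⟩
  have h4 : Nat.card (⁅V, A⁆ : Subgroup X) * Nat.card ↥(V ⊓ Subgroup.centralizer (A : Set X)) =
      Nat.card V := by
    have e1 := Solv.commutator_sup_centralizer hAV hcop' (Or.inr (Solv.isSolvable_of_isMulCommutative V))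
    have e2 := Solv.centralizer_inf_commutator_eq_bot hAV hcop'
    have l1 := Solv.commutator_le_of_le_normalizer hAV
    have e3 := Fit.card_sup_mul_card_inf ((⁅V, A⁆ : Subgroup X).subgroupOf V)
      ((V ⊓ Subgroup.centralizer (A : Set X)).subgroupOf V)
    rw [← Subgroup.subgroupOf_sup l1 inf_le_left, e1, Subgroup.subgroupOf_self,
      Fit.card_subgroupOf_of_le l1, Fit.card_subgroupOf_of_le inf_le_left, Subgroup.subgroupOf,
      Subgroup.subgroupOf, ← Subgroup.comap_inf, inf_comm, e2, MonoidHom.comap_bot,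
      Subgroup.ker_subtype] at e3
    simpa using e3.symm
  have h5 : Nat.card ψ.ker * Nat.card ψ.range = Nat.card V * Nat.card V := by
    rw [← Subgroup.index_ker, Subgroup.card_mul_index, Nat.card_prod]
  rw [← h2, Subgroup.card_map_of_injective V.subtype_injective] at h4
  rw [h1, h3]
  refine Nat.eq_of_mul_eq_mul_right (Nat.card_pos (α := ψ.range)) ?_
  rw [h5, mul_assoc, mul_comm _ (Nat.card ψ.range), h4]

/-- Let X be a finite group, V an abelian normal subgroup of X (any two elements of V commute) and G a complement to V in X whose order is coprime to that of V. Let S be a set of representatives of the orbits of G on V under conjugation: S lies in V and every element of V is conjugate under G to exactly one member of S. Then the number of conjugacy classes of X equals the sum, over s in S, of the number of conjugacy classes of the centralizer of s in G. -/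
theorem result {X : Type*} [Group X] [Finite X] (V : Subgroup X) [V.Normal] (hab : ∀ a ∈ V, ∀ b ∈ V, a * b = b * a) (G : Subgroup X) (hGV : Subgroup.IsComplement' V G) (hcop : (Nat.card V).Coprime (Nat.card G)) (S : Finset X) (hSV : ∀ s ∈ S, s ∈ V) (hrep : ∀ v ∈ V, ∃! s, s ∈ S ∧ ∃ g ∈ G, g * v * g⁻¹ = s) : Nat.card (ConjClasses X) = ∑ s ∈ S, Nat.card (ConjClasses ↥(G ⊓ Subgroup.centralizer ({s} : Set X))) := by
  classical
  have := Fintype.ofFinite X
  haveI : IsMulCommutative V := ⟨⟨fun a b => Subtype.ext (hab _ a.2 _ b.2)⟩⟩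
  let c : X → ℕ := fun v => Nat.card {t : G × G // Commute t.1 t.2 ∧ Commute v t.1 ∧ Commute v t.2}
  have hc1 : ∀ v, c v = Nat.card (ConjClasses ↥(G ⊓ Subgroup.centralizer ({v} : Set X))) *
      Nat.card ↥(G ⊓ Subgroup.centralizer ({v} : Set X)) := fun v => by
    rw [← card_comm_eq_card_conjClasses_mul_card]
    have hm : ∀ x, x ∈ Subgroup.centralizer ({v} : Set X) ↔ Commute v x := fun x => by
      rw [Subgroup.mem_centralizer_singleton_iff]; exact ⟨fun h => h.symm, fun h => h.eq.symm⟩
    exact Nat.card_congr ⟨fun t => ⟨(⟨t.1.1, t.1.1.2, (hm _).mpr t.2.2.1⟩,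
      ⟨t.1.2, t.1.2.2, (hm _).mpr t.2.2.2⟩), Subtype.ext (congrArg Subtype.val t.2.1.eq :)⟩,
      fun t => ⟨(⟨t.1.1, t.1.1.2.1⟩, ⟨t.1.2, t.1.2.2.1⟩),
        Subtype.ext (congrArg Subtype.val t.2.eq :), (hm _).mp t.1.1.2.2, (hm _).mp t.1.2.2.2⟩,
      fun _ => rfl, fun _ => rfl⟩
  have hc2 : ∀ v, ∀ g ∈ G, c (g * v * g⁻¹) = c v := fun v g hg => by
    let e := MulAut.conj (⟨g, hg⟩ : G)
    have he : ∀ x : G, Commute (g * v * g⁻¹) (e x) ↔ Commute v x := fun x => by
      have := commute_map_iff (f := MulAut.conj g) (MulAut.conj g).injective (x := v) (y := x)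
      simpa [e] using this
    refine (Nat.card_congr ((Equiv.prodCongr e.toEquiv e.toEquiv).subtypeEquiv fun t => ?_)).symm
    simp only [Equiv.prodCongr_apply, Prod.map_fst, Prod.map_snd, MulEquiv.toEquiv_eq_coe,
      EquivLike.coe_coe, he, commute_map_iff e.injective]
  have h1 : Nat.card {t : X × X // Commute t.1 t.2} = Nat.card V * ∑ v : V, c v := by
    let e : ((G × G) × (V × V)) ≃ X × X :=
      (Equiv.prodProdProdComm _ _ _ _).trans (Equiv.prodCongr
        ((Equiv.prodComm _ _).trans (Equiv.ofBijective _ hGV))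
        ((Equiv.prodComm _ _).trans (Equiv.ofBijective _ hGV)))
    rw [← Nat.card_congr (e.subtypeEquiv (p := fun t => Commute ((t.2.1 : X) * t.1.1) (t.2.2 * t.1.2))
      fun t => Iff.rfl), Nat.card_congr (Equiv.subtypeProdEquivSigmaSubtype
        fun (t : G × G) (u : V × V) => Commute ((u.1 : X) * t.1) (u.2 * t.2)), Nat.card_sigma]
    have e2 : ∑ v : V, c v = ∑ t : G × G, Nat.card {v : V // Commute t.1 t.2 ∧
        Commute (v : X) t.1 ∧ Commute (v : X) t.2} := by
      simp only [c, Nat.card_eq_fintype_card, Fintype.card_subtype, Finset.card_filter]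
      exact Finset.sum_comm
    rw [e2, Finset.mul_sum]
    refine Finset.sum_congr rfl fun t _ => ?_
    by_cases ht : Commute t.1 t.2
    · simp only [ht, true_and]
      exact count_pairs V G hcop t.1.2 t.2.2 (congrArg Subtype.val ht.eq :)
    · simp only [ht, false_and, Nat.card_of_isEmpty, mul_zero]
      rw [Nat.card_eq_zero]
      refine Or.inl ⟨fun u => ht ?_⟩
      have h := congrArg (QuotientGroup.mk : X → X ⧸ V) u.2.eq
      simp only [QuotientGroup.mk_mul, (QuotientGroup.eq_one_iff _).mpr u.1.1.2,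
        (QuotientGroup.eq_one_iff _).mpr u.1.2.2, one_mul] at h
      rw [← QuotientGroup.mk_mul, ← QuotientGroup.mk_mul, QuotientGroup.eq] at h
      have h' := Subgroup.disjoint_def.mp hGV.disjoint h (((t.1 * t.2)⁻¹ * (t.2 * t.1)).2)
      exact Subtype.ext (inv_mul_eq_one.mp h')
  choose! r hr hr' using hrep
  have h2 : ∑ v : V, c v = ∑ s ∈ S, Nat.card G *
      Nat.card (ConjClasses ↥(G ⊓ Subgroup.centralizer ({s} : Set X))) := by
    rw [← Finset.sum_fiberwise_of_maps_to (s := Finset.univ) (t := S) (g := fun v : V => r v)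
      (fun v _ => (hr v v.2).1)]
    refine Finset.sum_congr rfl fun s hs => ?_
    rw [Finset.sum_congr rfl (g := fun _ => c s) fun v hv => by
      obtain ⟨g, hg, h⟩ := (hr v v.2).2
      rw [← (Finset.mem_filter.mp hv).2, ← h, hc2 _ _ hg]]
    rw [Finset.sum_const, smul_eq_mul, hc1, mul_comm (Nat.card (ConjClasses _)), ← mul_assoc]
    congr 1
    letI : MulAction G X := MulAction.compHom X (MulAut.conj.comp G.subtype)
    have hs1 : ∀ (g : G) (x : X), g • x = g * x * (g : X)⁻¹ := fun _ _ => rfl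
    have e1 : Nat.card (MulAction.stabilizer G s) =
        Nat.card ↥(G ⊓ Subgroup.centralizer ({s} : Set X)) := by
      rw [inf_comm, ← Fit.card_subgroupOf_eq]
      congr 2
      ext g
      rw [MulAction.mem_stabilizer_iff, hs1, Subgroup.mem_subgroupOf,
        Subgroup.mem_centralizer_singleton_iff, mul_inv_eq_iff_eq_mul]
    have e2 : (Finset.univ.filter fun v : V => r v = s).card = Nat.card (MulAction.orbit G s) := by
      rw [← Fintype.card_subtype, ← Nat.card_eq_fintype_card]
      refine Nat.card_congr ⟨fun v => ⟨v.1, ?_⟩, fun x => ⟨⟨x.1, ?_⟩, ?_⟩, fun _ => rfl, fun _ => rfl⟩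
      · obtain ⟨g, hg, h⟩ := (hr v.1 v.1.2).2
        refine ⟨⟨g, hg⟩⁻¹, ?_⟩
        simp only [hs1]
        rw [v.2] at h
        have h' : (v.1 : X) = g⁻¹ * s * g := by
          generalize (v.1 : X) = w at h
          rw [← h]; group
        simp [h']
      · obtain ⟨_, g, rfl⟩ := x
        exact (inferInstance : V.Normal).conj_mem _ (hSV s hs) g
      · obtain ⟨_, g, rfl⟩ := x
        refine (hr' _ ((inferInstance : V.Normal).conj_mem _ (hSV s hs) g) s
          ⟨hs, (g : X)⁻¹, G.inv_mem g.2, ?_⟩).symm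
        simp [mul_assoc]
    rw [e2, ← e1, Nat.card_coe_set_eq, ← MulAction.index_stabilizer, Subgroup.index_mul_card]
  rw [card_comm_eq_card_conjClasses_mul_card, h2, ← Finset.mul_sum, ← mul_assoc,
    hGV.card_mul_card, mul_comm] at h1
  exact Nat.eq_of_mul_eq_mul_left Nat.card_pos h1

end Cfsg.Agent.S4956
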