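import Cfsg.Statements.S0961
import Cfsg.Agent.Lib.Block.Grp
import Cfsg.Agent.Lib.Ind.Brauer
import Cfsg.Agent.Lib.Fit.Fitting

set_option autoImplicit false
open Cfsg

namespace Cfsg.Agent.S0961

open Cfsg.Agent.Block Cfsg.Agent.Char Cfsg.Agent.Tr


/-- Let χ be an irreducible character of the finite group G and let p ^ a be the largest power of the prime p dividing the order of G. Then the function equal to p ^ a * χ x at elements x of order prime to p and to 0 elsewhere is a generalized character (a difference of characters). -/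
theorem result {G : Type*} [Group G] [Finite G] (p : ℕ) [Fact p.Prime] (χ : Cfsg.IrrCharacter G) : Cfsg.IsGeneralizedCharacter G (fun x : G => if p ∣ orderOf x then 0 else ((p ^ (Nat.card G).factorization p : ℕ) : ℂ) * (χ : G → ℂ) x) := by
  classical
  refine Ind.brauer_characterization_nilpotent (fun g h => by
    rw [Block.orderOf_conj, isClass_irr χ]) fun E hE => ?_
  set L := pPrimeCore p E with hL
  have hp : p.Prime := Fact.out
  obtain ⟨k, hk⟩ : ∃ k, L.index = p ^ k := by
    refine ⟨_, Nat.eq_prime_pow_of_unique_prime_dvd Subgroup.index_ne_zero_of_finite ?_⟩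
    intro q hq hdvd
    by_contra hne
    haveI := Fact.mk hq
    obtain ⟨Q⟩ : Nonempty (Sylow q E) := inferInstance
    have h1 : (Q : Subgroup E) ≤ L :=
      Fit.le_pPrimeCore (Fit.isNilpotent_iff_sylow_normal.1 hE q inferInstance Q) (by
        obtain ⟨j, hj⟩ := Q.isPGroup'.exists_card_eq
        rw [hj]
        exact Nat.Coprime.pow_left _ ((Nat.coprime_primes hq hp).2 hne))
    exact Q.not_dvd_index (hdvd.trans (Subgroup.index_dvd_of_le h1))
  have hmem : ∀ g : E, g ∈ L ↔ ¬ p ∣ orderOf g := fun g =>
    ⟨fun h h' => Fit.not_dvd_card_pPrimeCore hp (h'.trans (Subgroup.orderOf_dvd_natCard _ h)),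
      fun h => Subgroup.zpowers_le.1 (Fit.le_of_coprime_index (by
        rw [Nat.card_zpowers, hk]
        exact Nat.Coprime.pow_right _ ((Nat.Prime.coprime_iff_not_dvd hp).2 h).symm))⟩
  have hle : k ≤ (Nat.card G).factorization p := by
    rw [← hp.pow_dvd_iff_le_factorization Nat.card_pos.ne', ← hk]
    exact L.index_dvd_card.trans (Subgroup.card_subgroup_dvd_card E)
  have h1 := isGen_natCast_smul (p ^ ((Nat.card G).factorization p - k)) (isGen_of_isChar
    (isChar_mul (isChar_comp (isChar_regChar (G := E ⧸ L)) (QuotientGroup.mk' L))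
      (isChar_restrict (isChar_irr χ) E)))
  convert h1 using 1
  funext g
  rw [Subgroup.orderOf_coe, Pi.smul_apply, Pi.mul_apply, smul_eq_mul]
  split_ifs with hg
  · rw [regChar_of_ne, zero_mul, mul_zero]
    rw [QuotientGroup.mk'_apply, Ne, QuotientGroup.eq_one_iff, hmem, not_not]
    exact hg
  · rw [QuotientGroup.mk'_apply, (QuotientGroup.eq_one_iff g).2 ((hmem g).2 hg), regChar_one,
      ← Subgroup.index_eq_card, hk, ← mul_assoc, ← Nat.cast_mul, ← pow_add,
      Nat.sub_add_cancel hle]

end Cfsg.Agent.S0961
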