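import Cfsg.Statements.S0970
import Cfsg.Agent.Lib.Block.Fong

set_option autoImplicit false
open Cfsg

namespace Cfsg.Agent.S0970

open Cfsg.Agent.Block Cfsg.Agent.Char Cfsg.Agent.Tr Subgroup


/-- Let N be a normal subgroup of the finite group G and fix a maximal ideal M of the algebraic integers containing the prime p. Let b be a block of N that is invariant under conjugation by G, and B a block of G covering b (some χ ∈ B has a constituent in b) whose defect is at least that of every block covering b. If P is a defect group of B, then p does not divide the index of P ⊔ N, the subgroup P ∩ N of N is a defect group of b, and the defect of B equals the defect of b plus the exponent of p in the index of N. -/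
theorem result {G : Type*} [Group G] [Fintype G] (p : ℕ) [Fact p.Prime] (M : Ideal Cfsg.AlgInt) (hM : Cfsg.IsPModular p M) (N : Subgroup G) [hN : N.Normal] [Fintype N] (b : Set (Cfsg.IrrCharacter N)) (hb : Cfsg.IsPBlock M b) (hinv : ∀ g : G, ∀ θ ∈ b, ∀ θ' : Cfsg.IrrCharacter N, (∀ n : N, (θ' : N → ℂ) n = (θ : N → ℂ) ⟨g * n * g⁻¹, hN.conj_mem n n.2 g⟩) → θ' ∈ b) (B : Set (Cfsg.IrrCharacter G)) (hB : Cfsg.IsPBlock M B) (hcov : ∃ χ ∈ B, ∃ θ ∈ b, Cfsg.classInner (fun n : N => (χ : G → ℂ) n) (θ : N → ℂ) ≠ 0) (hmax : ∀ B' : Set (Cfsg.IrrCharacter G), Cfsg.IsPBlock M B' → (∃ χ ∈ B', ∃ θ ∈ b, Cfsg.classInner (fun n : N => (χ : G → ℂ) n) (θ : N → ℂ) ≠ 0) → Cfsg.blockDefect p B' ≤ Cfsg.blockDefect p B) (P : Subgroup G) (hP : Cfsg.IsDefectGroup p M B P) : ¬ p ∣ (P ⊔ N).index ∧ Cfsg.IsDefectGroup p M b ((P ⊓ N).subgroupOf N) ∧ Cfsg.blockDefect p B = Cfsg.blockDefect p b + N.index.factorization p := by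
  haveI := hM.2.1
  haveI := charP_res hM
  have hst : Cover.Stable N b := fun g θ hθ => hinv g θ hθ _ fun _ => rfl
  have hsub : ∀ B' : Set (IrrCharacter G), IsPBlock M B' → ((∃ χ ∈ B', ∃ θ ∈ b,
      classInner (fun n : N => χ.1 (n : G)) θ.1 ≠ 0) ↔ B' ⊆ Cover.overSet N b) := by
    intro B' hB'
    constructor
    · rintro ⟨χ, hχ, θ, hθ, h⟩ ψ hψ
      exact Cover.overSet_block_closed N p hb ⟨θ, hθ, (Cover.over_iff N).2 h⟩
        (IsPBlock.sameBlock hB' hχ hψ)
    · intro h
      obtain ⟨χ, hχ⟩ := IsPBlock.nonempty hB'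
      obtain ⟨θ, hθ, h'⟩ := h hχ
      exact ⟨χ, hχ, θ, hθ, (Cover.over_iff N).1 h'⟩
  obtain ⟨c, hc, hS, hi⟩ := exists_common_defectClass hb hst hB ((hsub B hB).1 hcov)
    (fun B' hB' h => hmax B' hB' ((hsub B' hB').2 h)) hP
  have hD : IsDefectGroup p M b ((P ⊓ N).subgroupOf N) := by
    refine isDefectGroup_iff.2 ⟨c, hc, ?_⟩
    have h1 := hS.inf_of_le_normalizer (N := centralizer ({(c : G)} : Set G) ⊓ N) inf_le_left
      (fun x hx => ?_)
    · have h2 := h1.subgroupOf (K := N) inf_le_right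
      rw [← inf_assoc, inf_eq_left.2 hS.le, ← map_centralizer_singleton N c] at h2
      rwa [subgroupOf, subgroupOf, comap_map_eq_self_of_injective N.subtype_injective] at h2
    · rw [mem_normalizer_iff]
      intro y
      have h1 := mem_normalizer_iff.1 (le_normalizer (hS.le hx)) y
      simp only [SetLike.mem_coe, mem_inf] at h1 ⊢
      rw [h1, hN.mem_comm_iff (a := x * y), inv_mul_cancel_left]
  have h3 : blockDefect p B = blockDefect p b + N.index.factorization p := by
    have e1 := factorization_card_eq_add (p := p) (centralizer ({(c : G)} : Set G))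
    have e2 := factorization_card_eq_add (p := p) (centralizer ({c} : Set N))
    have e3 := factorization_card_eq_add (p := p) N
    have e4 := IsDefectClass.factorization_eq (p := p) hb hc
    have e5 := hS.card_eq_pow
    rw [IsDefectGroup.card_eq hB hP] at e5
    have e6 := Nat.pow_right_injective (Fact.out : p.Prime).two_le e5
    omega
  refine ⟨fun h => ?_, hD, h3⟩
  have e1 := IsDefectGroup.card_eq hb hD
  rw [Nat.card_congr (subgroupOfEquivOfLe (inf_le_right : P ⊓ N ≤ N)).toEquiv] at e1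
  have e2 := card_inf_mul_relIndex N P
  rw [inf_comm, e1, IsDefectGroup.card_eq hB hP, h3, pow_add] at e2
  have e3 := Nat.eq_of_mul_eq_mul_left (pow_pos (Fact.out : p.Prime).pos _) e2
  have e4 := relIndex_mul_index (le_sup_right : N ≤ P ⊔ N)
  rw [relIndex_sup_right, e3] at e4
  obtain ⟨m, hm⟩ := h
  have e5 : p ^ (N.index.factorization p + 1) ∣ N.index :=
    ⟨m, by rw [pow_succ, mul_assoc, ← hm, e4]⟩
  exact Nat.pow_succ_factorization_not_dvd index_ne_zero_of_finite Fact.out e5

end Cfsg.Agent.S0970
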