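import Cfsg.Statements.S4911
import Cfsg.Agent.Lib.Ind.PAct
import Cfsg.Agent.Lib.Solv.SZ

set_option autoImplicit false
open Cfsg

namespace Cfsg.Agent.S4911

open Cfsg.Agent.Char Cfsg.Agent.Ind
open scoped ComplexConjugate

/-- Let P and K be subgroups of a finite group with P a p-group normalizing K and K of order prime to p. Then the number of P-invariant real-valued irreducible complex characters of K equals the number of conjugacy classes of K that are real (closed under inversion) and P-invariant. Moreover, if every real-valued irreducible character of K is P-invariant, then every real element of K (one conjugate in K to its inverse) is conjugate in K to an element centralized by P. -/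
theorem result {G : Type*} [Group G] [Finite G] (p : ℕ) [Fact p.Prime] (P K : Subgroup G) (hP : IsPGroup p ↥P) (hK : ¬ p ∣ Nat.card ↥K) (hPK : P ≤ Subgroup.normalizer (K : Set G)) : Nat.card {θ : Cfsg.IrrCharacter ↥K // (∀ k : ↥K, ((θ : ↥K → ℂ) k).im = 0) ∧ (∀ x ∈ P, ∀ k k' : ↥K, (k' : G) = x * (k : G) * x⁻¹ → (θ : ↥K → ℂ) k' = (θ : ↥K → ℂ) k)} = Nat.card {c : ConjClasses ↥K // (∀ k : ↥K, ConjClasses.mk k = c → IsConj k k⁻¹) ∧ ∀ k : ↥K, ConjClasses.mk k = c → ∀ x ∈ P, ∀ k' : ↥K, (k' : G) = x * (k : G) * x⁻¹ → ConjClasses.mk k' = c} ∧ ((∀ θ : Cfsg.IrrCharacter ↥K, (∀ k : ↥K, ((θ : ↥K → ℂ) k).im = 0) → (∀ x ∈ P, ∀ k k' : ↥K, (k' : G) = x * (k : G) * x⁻¹ → (θ : ↥K → ℂ) k' = (θ : ↥K → ℂ) k)) → ∀ k : ↥K, IsConj k k⁻¹ → ∃ k' : ↥K, IsConj k k' ∧ ∀ x ∈ P, x * (k' : G) * x⁻¹ = (k' : G)) := by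
  classical
  let φ : P →* MulAut K := K.normalizerMonoidHom.comp (Subgroup.inclusion hPK)
  have hφ : ∀ (g : P) (k : K), (φ g k : G) = g * k * (g : G)⁻¹ := fun _ _ => rfl
  let τ : ConjClasses K → ConjClasses K := Quotient.map (fun k => k⁻¹) fun a b h => by
    obtain ⟨c, rfl⟩ := isConj_iff.mp h
    exact isConj_iff.mpr ⟨c, by group⟩
  have hτ : ∀ k, τ (ConjClasses.mk k) = ConjClasses.mk k⁻¹ := fun _ => rfl
  have h1 := card_fixed_irr_eq_of_pgroup hP hK φ irrConj τ (fun _ _ => rfl) (fun a C => by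
    obtain ⟨k, rfl⟩ := ConjClasses.mk_surjective C
    rw [aut_smul_mk, hτ, hτ, aut_smul_mk, map_inv]) (fun χ C => by
    obtain ⟨k, rfl⟩ := ConjClasses.mk_surjective C
    rw [hτ, chTab_mk, chTab_mk, irr_apply_inv]; rfl)
  have e1 : ∀ θ : IrrCharacter K, (∀ x ∈ P, ∀ k k' : ↥K, (k' : G) = x * (k : G) * x⁻¹ →
      (θ : ↥K → ℂ) k' = (θ : ↥K → ℂ) k) ↔ ∀ g, φ g • θ = θ := fun θ => by
    simp only [aut_smul_irr_eq_iff]
    exact ⟨fun h g k => h g g.2 k _ (hφ g k), fun h x hx k k' hk => by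
      rw [← h ⟨x, hx⟩ k, show k' = φ ⟨x, hx⟩ k from Subtype.ext hk]⟩
  have e2 : ∀ θ : IrrCharacter K, (∀ k : ↥K, ((θ : ↥K → ℂ) k).im = 0) ↔ irrConj θ = θ := fun θ => by
    rw [Subtype.ext_iff, funext_iff]
    exact forall_congr' fun k => Complex.conj_eq_iff_im.symm
  have e3 : ∀ c : ConjClasses K, (∀ k : ↥K, ConjClasses.mk k = c → IsConj k k⁻¹) ↔ τ c = c := fun c => by
    obtain ⟨k, rfl⟩ := ConjClasses.mk_surjective c
    constructor
    · intro h
      exact (ConjClasses.mk_eq_mk_iff_isConj.mpr (h k rfl)).symm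
    · intro h k' hk
      rw [← ConjClasses.mk_eq_mk_iff_isConj, ← hτ, hk, h]
  have e4 : ∀ c : ConjClasses K, (∀ k : ↥K, ConjClasses.mk k = c → ∀ x ∈ P, ∀ k' : ↥K,
      (k' : G) = x * (k : G) * x⁻¹ → ConjClasses.mk k' = c) ↔ ∀ g, φ g • c = c := fun c => by
    obtain ⟨k, rfl⟩ := ConjClasses.mk_surjective c
    constructor
    · intro h g
      exact h k rfl g g.2 _ (hφ g k)
    · intro h k' hk x hx k'' hk'
      rw [← h ⟨x, hx⟩, ← hk, aut_smul_mk]; congr 1; exact Subtype.ext hk'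
  simp only [e1, e2, e3, e4]
  refine ⟨by simpa only [and_comm] using h1, fun h k hk => ?_⟩
  have h2 := card_real_irr_eq (G := K)
  simp only [e2, e3] at h2
  rw [Nat.card_congr (Equiv.subtypeEquivRight (q := fun χ => irrConj χ = χ) fun χ =>
    ⟨fun h => h.2, fun h' => ⟨h χ h', h'⟩⟩), h2] at h1
  have h3 : {C | (∀ g, φ g • C = C) ∧ τ C = C} = {C | τ C = C} :=
    Set.eq_of_subset_of_ncard_le (fun _ h => h.2) h1.le
  have h4 : ∀ g, φ g • ConjClasses.mk k = ConjClasses.mk k := by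
    have : ConjClasses.mk k ∈ {C | τ C = C} := (ConjClasses.mk_eq_mk_iff_isConj.mpr hk).symm
    rw [← h3] at this
    exact this.1
  letI : MulAction P K := MulAction.compHom _ φ
  obtain ⟨y, hy, hy'⟩ := Solv.exists_fixed_of_pgroup (G := P) (X := K) (Q := ⊤)
    (hP.to_subgroup ⊤) {x | IsConj k x} (fun g _ y hy => by
      change IsConj k (φ g y)
      rw [← ConjClasses.mk_eq_mk_iff_isConj, ← aut_smul_mk, ← h4 g,
        ConjClasses.mk_eq_mk_iff_isConj.mpr hy]) (fun hd => hK (hd.trans (by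
      change Nat.card {x // IsConj k x} ∣ _
      rw [card_isConj_eq_index]
      exact Subgroup.index_dvd_card _)))
  exact ⟨y, hy, fun x hx => congrArg Subtype.val (hy' ⟨x, hx⟩ trivial)⟩

end Cfsg.Agent.S4911
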