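import Cfsg.Statements.S4912
import Cfsg.Agent.Lib.Ind.CycExt

set_option autoImplicit false
open Cfsg

namespace Cfsg.Agent.S4912

open Cfsg.Agent.Char Cfsg.Agent.Ind Subgroup
open scoped ComplexConjugate TensorProduct

theorem sum_eq_zero_of_inner {N V : Type*} [Group N] [Fintype N] [AddCommGroup V] [Module ℂ V]
    [FiniteDimensional ℂ V] (σ : Representation ℂ N V)
    (h : classInner σ.character (fun _ => 1) = 0) : ∑ n, σ n = 0 := by
  rw [inner_character_one_eq_finrank, Nat.cast_eq_zero, Submodule.finrank_eq_zero] at h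
  ext v
  have : (∑ n, σ n) v ∈ σ.invariants := fun g => by
    rw [← Module.End.mul_apply, Finset.mul_sum]
    simp only [← map_mul]
    congr 1
    exact Fintype.sum_equiv (Equiv.mulLeft g) _ _ fun _ => rfl
  rw [h] at this
  simpa using this

theorem sum_twist_eq_zero {N I : Type*} [Group N] [Fintype N] [Group I] (ι ι' : N →* I)
    {ψ : I → ℂ} (hψ : IsCharacter I ψ)
    (h : classInner (fun n => ψ (ι n) * ψ (ι' n)) (fun _ => 1) = 0) (a : I) :
    ∑ n, ψ (a * ι n * ι' n) = 0 := by
  obtain ⟨m, ρ, rfl⟩ := hψ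
  have := sum_eq_zero_of_inner (Representation.tprod (ρ.comp ι) (ρ.comp ι')) (by
    rw [← h]; congr 1; ext n; simp [Representation.character, LinearMap.trace_tensorProduct'])
  have e : ∀ n, ρ.character (a * ι n * ι' n) = LinearMap.trace ℂ _
      ((TensorProduct.comm ℂ _ _).toLinearMap * TensorProduct.map (ρ a) 1 *
        Representation.tprod (ρ.comp ι) (ρ.comp ι') n) := fun n => by
    rw [Representation.character, map_mul ρ, map_mul ρ, ← trace_comm_mul_map, mul_assoc (G := Module.End ℂ _) _ (TensorProduct.map _ _),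
      Representation.tprod_apply, ← TensorProduct.map_mul, one_mul]
    rfl
  simp only [e, ← map_sum, ← Finset.mul_sum, this, mul_zero, map_zero]

/-- Let G be a finite group with a non-abelian minimal normal subgroup N, and let φ be an irreducible complex character of N with stabilizer I in G such that φ extends to an irreducible character of I with Frobenius–Schur indicator +1. Put d = φ(1)·[G : I]. Then the number of linear characters of G with Frobenius–Schur indicator +1 is at most [G : I] times the number of irreducible characters of G of degree d with Frobenius–Schur indicator +1. -/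
theorem result {G : Type*} [Group G] [Finite G] (N : Subgroup G) (hN : N.Normal) (hN1 : N ≠ ⊥) (hmin : ∀ M : Subgroup G, M.Normal → M ≤ N → M = ⊥ ∨ M = N) (hna : ¬ IsMulCommutative ↥N) (φ : Cfsg.IrrCharacter ↥N) (I : Subgroup G) (hI : ∀ g : G, g ∈ I ↔ ∀ n n' : ↥N, (n' : G) = g * (n : G) * g⁻¹ → (φ : ↥N → ℂ) n' = (φ : ↥N → ℂ) n) (hNI : N ≤ I) (hext : ∃ ψ : Cfsg.IrrCharacter ↥I, (Nat.card ↥I : ℂ)⁻¹ * ∑ᶠ g : ↥I, (ψ : ↥I → ℂ) (g * g) = 1 ∧ ∀ n : ↥N, (ψ : ↥I → ℂ) (Subgroup.inclusion hNI n) = (φ : ↥N → ℂ) n) : Nat.card {χ : Cfsg.IrrCharacter G // Cfsg.charDegree (χ : G → ℂ) = 1 ∧ (Nat.card G : ℂ)⁻¹ * ∑ᶠ g : G, (χ : G → ℂ) (g * g) = 1} ≤ I.index * Nat.card {χ : Cfsg.IrrCharacter G // Cfsg.charDegree (χ : G → ℂ) = Cfsg.charDegree (φ : ↥N → ℂ) * I.index ∧ (Nat.card G : ℂ)⁻¹ * ∑ᶠ g : G, (χ : G → ℂ) (g * g) = 1} := by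
  classical
  have := Fintype.ofFinite G
  obtain rfl : I = inertia N φ := by
    ext g
    rw [hI, mem_inertia, funext_iff]
    exact ⟨fun h n => h n _ rfl, fun h n n' e => by
      rw [← h n, show n' = ⟨g * n * g⁻¹, hN.conj_mem n n.2 g⟩ from Subtype.ext e]; rfl⟩
  let I := inertia N (φ : N → ℂ)
  have hIdef : inertia N (φ : N → ℂ) = I := rfl
  obtain ⟨ψ, hψ1, hψ2⟩ : ∃ ψ : IrrCharacter I, (Nat.card I : ℂ)⁻¹ *
    ∑ᶠ g : I, (ψ : I → ℂ) (g * g) = 1 ∧
      ∀ n : N, (ψ : I → ℂ) (Subgroup.inclusion hNI n) = (φ : N → ℂ) n := hext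
  rw [hIdef]
  have hres : (fun n : N => (ψ : I → ℂ) ⟨n, hNI n.2⟩) = φ := funext hψ2
  have h0 : IsIrrCharacter G (indFun I ψ) := isIrr_indFun_inertia N φ.2 ψ.2 (by
    rw [hres, inner_self_of_isIrr φ.2]; exact one_ne_zero)
  let χ₀ : IrrCharacter G := ⟨_, h0⟩
  have hψφ : (ψ : I → ℂ) 1 = (φ : N → ℂ) 1 := hψ2 1
  have hdeg : (χ₀ : G → ℂ) 1 = (charDegree (φ : N → ℂ) * I.index : ℕ) := by
    push_cast
    rw [Block.cast_charDegree, mul_comm, ← hψφ]
    exact indFun_one I _
  simp only [finsum_eq_sum_of_fintype] at hψ1 ⊢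
  have hreal : ∀ χ : I → ℂ, IsIrrCharacter I χ → fsInd χ = 1 → ∀ g, conj (χ g) = χ g :=
    fun χ hχ h g => by
      rcases fsInd_trichotomy hχ with h' | h'
      · exact Complex.conj_eq_iff_im.mpr (h'.1 g)
      · exact absurd (h.symm.trans h'.2) one_ne_zero
  have hcI := card_ne_zero' I
  have hcG := card_ne_zero' G
  have hcN := card_ne_zero' N
  have hfs : (Nat.card G : ℂ)⁻¹ * ∑ g : G, (χ₀ : G → ℂ) (g * g) = 1 := by
    have e1 : ∀ x : G, ∑ g : G, extendByZero I ψ (x⁻¹ * (g * g) * x) =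
        ∑ g : G, extendByZero I ψ (g * g) := fun x =>
      Fintype.sum_equiv (MulAut.conj x⁻¹).toEquiv _ _ fun g => by simp [mul_assoc]
    have e2 : ∀ g, g ∉ I → ∑ n : N, extendByZero I ψ (n * g * (n * g)) = 0 := fun g hg => by
      have e3 : ∀ n : N, n * g * (n * g) = n * (g * n * g⁻¹) * (g * g) := fun n => by group
      by_cases hg2 : g * g ∈ I
      · have := sum_twist_eq_zero (inclusion hNI)
          ((inclusion hNI).comp (MulAut.conjNormal g).toMonoidHom) (isChar_irr ψ) (by
            have h1 := inner_eq_zero_of_isIrr φ.2 (isIrr_cjf N φ.2 g) fun e => hg e.symm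
            rw [← h1]
            simp only [classInner, map_one, mul_one, MonoidHom.comp_apply, hψ2, cjf_eq]
            congr 1
            refine Finset.sum_congr rfl fun n _ => ?_
            rw [← hψ2 (MulAut.conjNormal g n), hreal _ ψ.2 hψ1, hψ2]
            rfl) ⟨_, hg2⟩
        rw [← this]
        refine Finset.sum_congr rfl fun n _ => ?_
        rw [mul_assoc (⟨_, hg2⟩ : I), cf_mul_comm (isClass_irr ψ), ← ebz_coe I ψ, e3]
        rfl
      · refine Finset.sum_eq_zero fun n _ => ebz_of_not_mem I _ ?_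
        rwa [e3, I.mul_mem_cancel_left (hNI (N.mul_mem n.2 (hN.conj_mem _ n.2 g)))]
    let F : G → ℂ := fun g => if g ∈ I then 0 else extendByZero I ψ (g * g)
    have e4 : nAvg N F = 0 := by
      ext g
      simp only [nAvg, F, I.mul_mem_cancel_left (hNI (Subtype.prop _))]
      split_ifs with hg
      · simp
      · simp [e2 g hg]
    have e5 := inner_nAvg_left N F (fun _ => 1) fun _ _ _ => rfl
    rw [e4, Char.inner_zero_left, classInner, eq_comm, mul_eq_zero,
      or_iff_right (inv_ne_zero hcG)] at e5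
    have e6 : ∑ g : G, extendByZero I ψ (g * g) = ∑ g : I, (ψ : I → ℂ) (g * g) := by
      rw [← sum_ebz I (fun g : I => (ψ : I → ℂ) (g * g)), ← add_zero (∑ g : G, extendByZero I
        (fun g : I => (ψ : I → ℂ) (g * g)) g), ← e5, ← Finset.sum_add_distrib]
      refine Finset.sum_congr rfl fun g _ => ?_
      by_cases hg : g ∈ I
      · simp only [F, if_pos hg, zero_mul, add_zero]
        rw [ebz_of_mem I _ hg, ebz_of_mem I _ (I.mul_mem hg hg)]; rfl
      · simp only [F, if_neg hg, ebz_of_not_mem I _ hg, zero_add, map_one, mul_one]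
    simp only [χ₀, indFun_apply, ← Finset.mul_sum]
    rw [Finset.sum_comm]
    simp only [e1, e6, Finset.sum_const, Finset.card_univ, nsmul_eq_mul, ← Nat.card_eq_fintype_card]
    rw [← hψ1]
    field_simp
  have hNc : N ≤ commutator G := by
    rcases hmin ⁅N, N⁆ inferInstance (commutator_le_left _ _) with h | h
    · exact absurd (le_centralizer_iff_isMulCommutative.mp
        (commutator_eq_bot_iff_le_centralizer.mp h)) hna
    · rw [← h]; exact commutator_mono le_top le_top
  have he : classInner (fun n : N => (χ₀ : G → ℂ) n) φ = 1 := by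
    have h1 : classInner (fun n : N => (χ₀ : G → ℂ) n) φ ≠ 0 := by
      have h3 := isChar_comp (isChar_sub_of_inner_ne_zero
        (isChar_restrict (isChar_irr χ₀) I) ψ.2 (by
          rw [← frobenius' I _ (isClass_irr χ₀), inner_self_of_isIrr h0]; exact one_ne_zero))
        (inclusion hNI)
      simp only [Pi.sub_apply, hψ2] at h3
      exact inner_ne_zero_of_sub (isChar_irr φ) h3 (isChar_irr φ)
        (by rw [inner_self_of_isIrr φ.2]; exact one_ne_zero)
    have h2 := clifford_deg N h0 φ.2 h1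
    rw [indFun_one, hψφ, mul_assoc, eq_comm, mul_eq_right₀ (mul_ne_zero
      (by exact_mod_cast index_ne_zero_of_finite) (irr_apply_one_ne_zero φ))] at h2
    exact h2
  have hnorm : classInner (fun n : N => (χ₀ : G → ℂ) n) (fun n : N => (χ₀ : G → ℂ) n) = I.index := by
    have h1 := clifford_avg N h0 φ.2 (he ▸ one_ne_zero)
    rw [he, hIdef] at h1
    nth_rewrite 2 [show (fun n : N => (χ₀ : G → ℂ) n) = _ from h1]
    rw [Char.inner_smul_right, Char.inner_sum_right]
    simp only [inner_res_cjf N (isClass_irr χ₀), he, Finset.sum_const, Finset.card_univ,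
      nsmul_eq_mul, ← Nat.card_eq_fintype_card, ← I.index_mul_card, map_div₀, map_one,
      Complex.conj_natCast]
    push_cast
    field_simp
  have hlin : ∀ l : IrrCharacter G, charDegree (l : G → ℂ) = 1 → (l : G → ℂ) 1 = 1 := fun l h => by
    rw [← Block.cast_charDegree, h, Nat.cast_one]
  let T : {χ : IrrCharacter G // charDegree (χ : G → ℂ) = 1 ∧
      (Nat.card G : ℂ)⁻¹ * ∑ g : G, (χ : G → ℂ) (g * g) = 1} →
      {χ : IrrCharacter G // charDegree (χ : G → ℂ) = charDegree (φ : N → ℂ) * I.index ∧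
      (Nat.card G : ℂ)⁻¹ * ∑ g : G, (χ : G → ℂ) (g * g) = 1} := fun l =>
    ⟨⟨_, isIrr_mul_of_apply_one h0 (isChar_irr l.1) (hlin _ l.2.1)⟩,
      Block.charDegree_eq (by simpa [hlin _ l.2.1] using hdeg), by
      have : ∀ g, (l.1 : G → ℂ) (g * g) = 1 := fun g => by
        rcases fsInd_trichotomy l.1.2 with h' | h'
        · rw [map_mul_of_apply_one (isChar_irr _) (hlin _ l.2.1)]
          nth_rewrite 1 [← Complex.conj_eq_iff_im.mpr (h'.1 g)]
          rw [← irr_apply_inv, ← map_mul_of_apply_one (isChar_irr _) (hlin _ l.2.1),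
            inv_mul_cancel, hlin _ l.2.1]
        · exact absurd (l.2.2.symm.trans h'.2) one_ne_zero
      simpa only [Pi.mul_apply, this, mul_one] using hfs⟩
  have hker : ∀ l : IrrCharacter G, (l : G → ℂ) 1 = 1 → ∀ n ∈ N, (l : G → ℂ) n = (l : G → ℂ) 1 :=
    fun l h n hn => by
      obtain ⟨a, ha⟩ := exists_unitsHom_of_apply_one (isChar_irr l) h
      rw [ha]
      simp only [map_one, MonoidHom.mem_ker.mp (Abelianization.commutator_subset_ker a (hNc hn))]
  have hgen : ∀ {A B : Type _} [Fintype A] [Fintype B] (T : A → B) (n : ℕ),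
      (∀ b, ∀ s : Finset A, (∀ a ∈ s, T a = b) → s.card ≤ n) → Nat.card A ≤ n * Nat.card B := by
    intro A B _ _ T n h
    rw [Nat.card_eq_fintype_card, Nat.card_eq_fintype_card, ← Finset.card_univ, ← Finset.card_univ]
    exact Finset.card_le_mul_card_image_of_maps_to (fun _ _ => Finset.mem_univ _) _
      fun b _ => h b _ fun a ha => (Finset.mem_filter.mp ha).2
  refine hgen T _ fun χ₁ s hs => ?_
  rcases s.eq_empty_or_nonempty with rfl | ⟨l₀, hl₀⟩
  · simp
  replace hl₀ := hs l₀ hl₀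
  have h1 : (fun n : N => (χ₁.1 : G → ℂ) n) = fun n : N => (χ₀ : G → ℂ) n := by
    rw [← hl₀]
    ext n
    simp only [T, Pi.mul_apply, hker _ (hlin _ l₀.2.1) n n.2, hlin _ l₀.2.1, mul_one, χ₀]
  have h2 := inner_res_eq_sum N (χ₀ : G → ℂ) (χ₁.1 : G → ℂ)
  rw [h1, hnorm] at h2
  choose m hm using fun β : IrrCharacter (G ⧸ N) => exists_nat_inner
    (isChar_mul (isChar_comp (isChar_irr β) (QuotientGroup.mk' N)) (isChar_irr χ₀))
    (isChar_irr χ₁.1)
  have h3 : I.index = ∑ β, deg β * m β := by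
    have : (I.index : ℂ) = (∑ β, deg β * m β : ℕ) := by
      rw [h2]
      push_cast
      exact Finset.sum_congr rfl fun β _ => by rw [deg_spec, ← hm]; rfl
    exact_mod_cast this
  choose β hβ1 hβ2 using fun l : {χ : IrrCharacter G // charDegree (χ : G → ℂ) = 1 ∧
      (Nat.card G : ℂ)⁻¹ * ∑ g : G, (χ : G → ℂ) (g * g) = 1} =>
    exists_irr_quotient l.1.2 N (hker _ (hlin _ l.2.1))
  have hinj : Function.Injective fun l => (⟨β l, hβ1 l⟩ : IrrCharacter (G ⧸ N)) := fun a b e =>
    Subtype.ext (Subtype.ext (by rw [hβ2 a, hβ2 b, show β a = β b from congrArg Subtype.val e]))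
  refine le_of_le_of_eq ?_ h3.symm
  rw [← Finset.card_image_of_injective _ hinj, Finset.card_eq_sum_ones]
  refine le_trans (Finset.sum_le_sum fun γ hγ => ?_)
    (Finset.sum_le_sum_of_subset (Finset.subset_univ _))
  obtain ⟨l, hl, rfl⟩ := Finset.mem_image.mp hγ
  refine Nat.mul_pos (deg_pos _) (Nat.pos_of_ne_zero fun e => ?_)
  have h4 := hm ⟨β l, hβ1 l⟩
  rw [e, ← hs l hl] at h4
  have h5 := inner_self_of_isIrr (T l).1.2
  refine one_ne_zero (h5.symm.trans (Eq.trans ?_ (h4.trans Nat.cast_zero)))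
  congr 1
  simp only [T, hβ2 l]
  exact mul_comm _ _

end Cfsg.Agent.S4912
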