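import Cfsg.Statements.S4914
import Cfsg.Agent.Lib.Ind.Glaub2

set_option autoImplicit false
open Cfsg

namespace Cfsg.Agent.S4914

open Cfsg.Agent.Char Cfsg.Agent.Ind Cfsg.Agent.Block Subgroup
open scoped ComplexConjugate

attribute [local instance] subFin

theorem zmod_eq_iff {F : Type*} [Field F] (p : ℕ) [CharP F p] (a b : ℤ) :
    (a : F) = b ↔ (a : ZMod p) = b := by
  rw [CharP.intCast_eq_intCast F p, ZMod.intCast_eq_intCast_iff]

/-- Let P and K be subgroups of a finite group G with P a p-group normalizing K, and suppose K has a normal Sylow p-subgroup Q. Let C be the subgroup of those k ∈ K whose commutator with every element of P lies in Q (so that C/Q is the fixed-point subgroup of P on K/Q). Then there is a bijection f from the P-invariant irreducible complex characters of K onto the P-invariant irreducible complex characters of C such that, for every P-invariant irreducible character χ of K, the multiplicity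 of f(χ) in the restriction of χ to C is a natural number congruent to 1 or to −1 modulo p, every other P-invariant irreducible character of C occurs in that restriction with multiplicity divisible by p, and the degrees of χ and f(χ) are congruent modulo p up to sign. -/
theorem result {G : Type*} [Group G] [Finite G] (p : ℕ) [Fact p.Prime] (P K Q C : Subgroup G) (hP : IsPGroup p ↥P) (hPK : P ≤ Subgroup.normalizer (K : Set G)) (hQK : Q ≤ K) (hQn : ∀ k ∈ K, ∀ q ∈ Q, k * q * k⁻¹ ∈ Q) (hQp : ∃ a : ℕ, Nat.card ↥Q = p ^ a) (hQsyl : ¬ p ∣ Q.relIndex K) (hCK : C ≤ K) (hC : ∀ k : G, k ∈ C ↔ (k ∈ K ∧ ∀ x ∈ P, x * k * x⁻¹ * k⁻¹ ∈ Q)) : ∃ f : {χ : Cfsg.IrrCharacter ↥K // (∀ x ∈ P, ∀ k k' : ↥K, (k' : G) = x * (k : G) * x⁻¹ → (χ : ↥K → ℂ) k' = (χ : ↥K → ℂ) k)} → {ξ : Cfsg.IrrCharacter ↥C // (∀ x ∈ P, ∀ k k' : ↥C, (k' : G) = x * (k : G) * x⁻¹ → (ξ : ↥C → ℂ) k' = (ξ : ↥C → ℂ) k)}, Function.Bijective f ∧ ∀ χ, (∀ ξ : {ξ : Cfsg.IrrCharacter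 ↥C // (∀ x ∈ P, ∀ k k' : ↥C, (k' : G) = x * (k : G) * x⁻¹ → (ξ : ↥C → ℂ) k' = (ξ : ↥C → ℂ) k)}, ∃ m : ℕ, (Nat.card ↥C : ℂ)⁻¹ * ∑ᶠ c : ↥C, (χ.1 : ↥K → ℂ) (Subgroup.inclusion hCK c) * (starRingEnd ℂ) ((ξ.1 : ↥C → ℂ) c) = (m : ℂ) ∧ (ξ = f χ → ((m : ZMod p) = 1 ∨ (m : ZMod p) = -1)) ∧ (ξ ≠ f χ → p ∣ m)) ∧ ((Cfsg.charDegree ((f χ).1 : ↥C → ℂ) : ZMod p) = (Cfsg.charDegree (χ.1 : ↥K → ℂ) : ZMod p) ∨ (Cfsg.charDegree ((f χ).1 : ↥C → ℂ) : ZMod p) = -(Cfsg.charDegree (χ.1 : ↥K → ℂ) : ZMod p)) := by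
  classical
  obtain ⟨M, hM⟩ := exists_isPModular p
  haveI := hM.2.1
  haveI := charP_res hM
  have hKQ : K ≤ normalizer (Q : Set G) := fun k hk => Tr.mem_normalizer_of_forall (hQn k hk)
  have hQ : IsPGroup p Q := hQp.elim fun a ha => IsPGroup.of_card ha
  have hS : Tr.SylowIn p Q K := ⟨hQK, hQ, hQsyl⟩
  have hPQ : P ≤ normalizer (Q : Set G) := fun g hg => Tr.mem_normalizer_of_cj_le
    (hS.le_of_le_normalizer' (Tr.isPGroup_cj g hQ) (hS.cj_of_mem_normalizer (hPK hg)).le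
      ((hS.cj_of_mem_normalizer (hPK hg)).le.trans hKQ))
  have hPC := le_normalizer_relCent hPK hPQ le_normalizer hC
  obtain ⟨H1, H2⟩ := corr_pgroup (M := M) hQK hKQ hQsyl _ P rfl hP hPK hPQ C hCK hC
  choose f hf1 hf2 hf3 using H1
  have hne : ∀ a : Res M, a ^ 2 = 1 → a ≠ 0 := fun a h e => by simp [e] at h
  refine ⟨fun χ => ⟨f χ.1 χ.2, hf1 χ.1 χ.2⟩, ⟨fun χ χ' e => ?_, fun ξ => ?_⟩, fun χ => ⟨fun ξ => ?_, ?_⟩⟩
  · obtain ⟨χ₀, -, -, h⟩ := H2 _ (hf1 χ.1 χ.2)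
    have e' : f χ.1 χ.2 = f χ'.1 χ'.2 := congrArg Subtype.val e
    exact Subtype.ext ((h χ.1 χ.2 (hne _ (hf2 _ _))).trans
      (h χ'.1 χ'.2 (e' ▸ hne _ (hf2 _ _))).symm)
  · obtain ⟨χ₀, h1, h2, -⟩ := H2 ξ.1 ξ.2
    exact ⟨⟨χ₀, h1⟩, Subtype.ext (hf3 χ₀ h1 ξ.1 ξ.2 (hne _ h2)).symm⟩
  · obtain ⟨m, hm⟩ := exists_nat_inner (isChar_comp (isChar_irr χ.1) (inclusion hCK))
      (isChar_irr ξ.1)
    have hr : rm M hCK χ.1 ξ.1 = m := by rw [rm, hm, red_natCast]
    refine ⟨m, by rw [finsum_eq_sum_of_fintype]; exact hm, fun e => ?_, fun e => ?_⟩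
    · have := hf2 χ.1 χ.2
      rw [show f χ.1 χ.2 = ξ.1 from (congrArg Subtype.val e).symm, hr, sq_eq_one_iff] at this
      have h1 := zmod_eq_iff (F := Res M) p m 1
      have h2 := zmod_eq_iff (F := Res M) p m (-1)
      push_cast at h1 h2
      rwa [h1, h2] at this
    · by_contra hd
      exact e (Subtype.ext (hf3 χ.1 χ.2 ξ.1 ξ.2 (hr ▸ natCast_res_ne_zero hd)))
  · have := red_inner_eq (M := M) hP hPC (isGen_comp (isGen_of_isIrr χ.1.2) (inclusion hCK))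
      (isGen_of_isChar isChar_regChar) (fun x hx => InvBy.res hCK (χ.2 x hx)) (fun x _ k k' e => by
        by_cases h : k = 1
        · rw [show k' = k from Subtype.ext (by simp [e, h])]
        · rw [regChar_of_ne h, regChar_of_ne fun h' => h (Subtype.ext (by
            simpa [h', eq_comm] using e))]) (hf1 χ.1 χ.2) fun η hη h _ => hf3 χ.1 χ.2 η hη h
    rw [inner_regChar_right, inner_regChar_right, map_one, ← cast_charDegree, ← cast_charDegree,
      red_natCast, red_natCast] at this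
    have h0 := sq_eq_one_iff.mp (hf2 χ.1 χ.2)
    have h1 := zmod_eq_iff (F := Res M) p (charDegree (f χ.1 χ.2).1) (charDegree χ.1.1)
    have h2 := zmod_eq_iff (F := Res M) p (charDegree (f χ.1 χ.2).1) (-charDegree χ.1.1)
    push_cast at h1 h2
    simp only
    rw [← h1, ← h2, this]
    rcases h0 with h | h <;> rw [rm] at h <;> simp [h]

end Cfsg.Agent.S4914
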