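import Cfsg.Statements.S4916
import Cfsg.Agent.Lib.Cover.Quot

set_option autoImplicit false
open Cfsg

namespace Cfsg.Agent.S4916

/-- Let G be a finite group, p a prime and M a maximal ideal of the algebraic integers containing p. Then the principal character is the only irreducible character of degree prime to p in the principal p-block of G if and only if p does not divide the order of G. -/
theorem result {G : Type*} [Group G] [Finite G] (p : ℕ) [Fact p.Prime] (M : Ideal Cfsg.AlgInt) (hM : Cfsg.IsPModular p M) : (∀ χ : Cfsg.IrrCharacter G, χ ∈ Cfsg.principalBlock M G → ¬ p ∣ Cfsg.charDegree (χ : G → ℂ) → (χ : G → ℂ) = fun _ => (1 : ℂ)) ↔ ¬ p ∣ Nat.card G := by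
  classical
  haveI := hM.2.1
  haveI := Block.charP_res hM
  constructor
  · intro h hp'
    obtain ⟨x, hx⟩ := exists_prime_orderOf_dvd_card' p hp'
    have hS := Block.IsPBlock.idem_mem_SG p (Block.isPBlock_principalBlock (G := G) (M := M))
    have h0 := Block.weak_block_orthogonality (p := p) hS Block.not_dvd_orderOf_one
      (y := x) (by rw [hx])
    have h1 : ∑ χ : IrrCharacter G, (if χ ∈ principalBlock M G then
        χ.1 1 * (starRingEnd ℂ) (χ.1 x) else 0) - 1 ∈ Block.locIdeal M := by
      rw [← Finset.add_sum_erase _ _ (Finset.mem_univ (Char.irrOne G)),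
        if_pos Block.irrOne_mem_principalBlock]
      simp only [Char.irrOne_apply, map_one, mul_one, add_sub_cancel_left]
      refine sum_mem fun χ hχ => ?_
      split_ifs with h2
      · refine Block.mul_mem_locIdeal_right ?_ (Block.conj_irr_apply_mem_locRing _ _)
        rw [← Block.cast_charDegree, Block.natCast_mem_locIdeal_iff p]
        by_contra h3
        exact (Finset.mem_erase.1 hχ).1 (Subtype.ext (h χ h2 h3))
      · exact (Block.locIdeal M).zero_mem
    rw [h0, zero_sub, neg_mem_iff] at h1
    exact Block.one_notMem_locIdeal h1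
  · intro h χ hχ _
    refine Char.eq_one_of_forall_apply_eq χ.2 fun g => ?_
    exact Cover.ker_of_mem_principalBlock ⊤ p (by rwa [Subgroup.card_top]) hχ g trivial

end Cfsg.Agent.S4916
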