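import Cfsg.Statements.S4923
import Cfsg.Agent.Lib.TwoGrp.ValField

set_option autoImplicit false
open Cfsg

namespace Cfsg.Agent.S4923

open Cfsg.Agent.TwoGrp

open Subgroup ValField

/-- Let G be a finite group with Sylow 2-subgroup P of order 2^n ≥ 8, and let ζ be a primitive 2^(n−1)-th root of unity in ℂ. Then the commutator subgroup of P has index 4 in P if and only if there is an element g of P whose conjugacy class in G has even size and such that the field generated over ℚ by the values at g of all irreducible complex characters of G equals ℚ(ζ + ζ⁻¹) or ℚ(ζ − ζ⁻¹). -/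
theorem result {G : Type*} [Group G] [Finite G] (P : Sylow 2 G) (n : ℕ) (hn : 3 ≤ n) (hP : Nat.card P = 2 ^ n) (ζ : ℂ) (hζ : IsPrimitiveRoot ζ (2 ^ (n - 1))) :
    (commutator ↥P).index = 4 ↔
      ∃ g : G, g ∈ (P : Subgroup G) ∧ 2 ∣ (Subgroup.centralizer ({g} : Set G)).index ∧
        (IntermediateField.adjoin ℚ {z : ℂ | ∃ χ : Cfsg.IrrCharacter G, (χ : G → ℂ) g = z} = IntermediateField.adjoin ℚ ({ζ + ζ⁻¹} : Set ℂ) ∨
          IntermediateField.adjoin ℚ {z : ℂ | ∃ χ : Cfsg.IrrCharacter G, (χ : G → ℂ) g = z} = IntermediateField.adjoin ℚ ({ζ - ζ⁻¹} : Set ℂ)) := by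
  have hT : Fact (IsPGroup 2 (P : Subgroup G)) := ⟨P.isPGroup'⟩
  have hl : lg (⊤ : Subgroup (P : Subgroup G)) = n := lg_eq_of_card (by rw [card_top]; exact hP)
  have hpow : ∀ g ∈ (P : Subgroup G), g ^ 2 ^ n = 1 := fun g hg =>
    congrArg Subtype.val (hP ▸ pow_card_eq_one' (x := (⟨g, hg⟩ : (P : Subgroup G))))
  have hN : 2 ^ (n - 1) ∣ 2 ^ n := pow_dvd_pow 2 (by omega)
  have hh : ζ ^ 2 ^ (n - 2) = -1 :=
    (hζ.pow (by positivity) (by
      rw [show n - 1 = n - 2 + 1 by omega, pow_succ]) : IsPrimitiveRoot _ 2).eq_neg_one_of_two_right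
  have F0 := fun g hg => field_iff (c := 0) (ε := 1) (hpow g hg) (by omega) hζ hN (pow_zero _).symm
    (Or.inl rfl)
  have F1 := fun g hg => field_iff (c := 2 ^ (n - 2)) (ε := -1) (hpow g hg) (by omega) hζ hN
    hh.symm (Or.inr rfl)
  simp only [one_mul, neg_mul, ← sub_eq_add_neg] at F0 F1
  constructor
  · intro h
    obtain ⟨x, ho, hnc, k, c, hc, hk, ⟨y, hy⟩, hall⟩ := exists_gen hn hl h
    have ho' : orderOf (x : G) = 2 ^ (n - 1) := by rw [orderOf_coe, ho]
    have key : ∀ m : ℕ, Odd m → (IsConj (x : G) ((x : G) ^ m) ↔ m ≡ 1 [MOD 2 ^ (n - 1)] ∨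
        m + 1 ≡ c [MOD 2 ^ (n - 1)]) := fun m hm => by
      have hk' : (x : G) ^ (k + 1) = (x : G) ^ c := congrArg Subtype.val hk
      rw [← ho', ← pow_eq_pow_iff_modEq, ← pow_eq_pow_iff_modEq, pow_one, ← hk', pow_succ,
        pow_succ, mul_left_inj]
      have hnm : ∀ (g : G) (j : ℕ), g * x * g⁻¹ = (x : G) ^ j →
          g ∈ normalizer (zpowers (x : G) : Set G) := fun g j e =>
        mem_normalizer_fintype (S := (zpowers (x : G) : Set G)) (by
          rintro _ ⟨i, rfl⟩
          refine ⟨j * i, ?_⟩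
          simp only
          rw [← conj_zpow, e, zpow_mul, zpow_natCast])
      constructor
      · intro hc
        obtain ⟨g, hg⟩ := isConj_iff.1 hc
        obtain ⟨p, hp, e⟩ := exists_sylow_conj P ho' (fun p hp => by
          rcases hall ⟨p, hp⟩ with e | e
          · exact hnm p 1 ((congrArg Subtype.val e).trans (pow_one _).symm)
          · exact hnm p k (congrArg Subtype.val e)) (hnm g m hg)
        rw [← hg, e]
        exact (hall ⟨p, hp⟩).imp (congrArg Subtype.val) (congrArg Subtype.val)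
      · rintro (e | e)
        · rw [e]
        · rw [e]; exact isConj_iff.2 ⟨y, congrArg Subtype.val hy⟩
    refine ⟨x, x.2, ?_, ?_⟩
    · by_contra hodd
      obtain ⟨Q⟩ : Nonempty (Sylow 2 (centralizer ({(x : G)} : Set G))) := inferInstance
      obtain ⟨g, -, hg⟩ := exists_conj_mem_of_not_dvd (H := ⊤) (P := (P : Subgroup G))
        (R := (Q : Subgroup _).map (centralizer ({(x : G)} : Set G)).subtype)
        (Q.isPGroup'.map _) (by
          rw [relIndex_top_right, index_map_subtype]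
          exact fun h2 => (Nat.prime_two.dvd_mul.1 h2).elim Q.not_dvd_index hodd)
        P.isPGroup' le_top
      have hc' : ∀ p ∈ (P : Subgroup G), p * (g⁻¹ * x * g) = (g⁻¹ * x * g) * p := fun p hp => by
        have := mem_centralizer_singleton_iff.1 (map_subtype_le _ (hg p hp))
        calc p * (g⁻¹ * x * g) = g⁻¹ * (g * p * g⁻¹ * x) * g := by group
          _ = _ := by rw [this]; group
      have ho2 : orderOf (g⁻¹ * x * g) = 2 ^ (n - 1) := by
        rw [← ho']; exact (orderOf_eq_of_isConj (isConj_iff.2 ⟨g⁻¹, by group⟩)).symm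
      have hmem : g⁻¹ * x * g ∈ (P : Subgroup G) := by
        have h1 : IsPGroup 2 (zpowers (g⁻¹ * x * g)) :=
          isPGroup_zpowers_of_pow (k := n - 1) (by rw [← ho2, pow_orderOf_eq_one])
        have h2 := P.is_maximal' (h1.to_sup_of_normal_right' P.isPGroup' (zpowers_le.2
          (centralizer_le_normalizer _ fun p hp => hc' p hp))) le_sup_right
        exact h2.le (mem_sup_left (mem_zpowers _))
      refine hnc fun y => comm_of_central (x := ⟨_, hmem⟩) ?_ (fun z => Subtype.ext (hc' z z.2)) y x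
      rw [lg_zpowers_of (k := n - 1) (by rw [← ho2, ← orderOf_coe])]; omega
    · rcases hc with rfl | rfl
      · exact Or.inl ((F0 x x.2).2 key)
      · exact Or.inr ((F1 x x.2).2 key)
  · rintro ⟨g, hg, h2, h3⟩
    have hnc : ¬ ∀ y : (P : Subgroup G), Commute y ⟨g, hg⟩ := fun h => P.not_dvd_index
      (h2.trans (index_dvd_of_le fun y hy =>
        mem_centralizer_singleton_iff.2 (congrArg Subtype.val (h ⟨y, hy⟩))))
    have hcj : ∀ m : ℕ, IsConj (⟨g, hg⟩ : (P : Subgroup G)) (⟨g, hg⟩ ^ m) → IsConj g (g ^ m) :=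
      fun m h => (P : Subgroup G).subtype.map_isConj h
    rcases h3 with h3 | h3
    · exact index_eq_four hn hl hnc (Or.inl rfl) fun m hm h => ((F0 g hg).1 h3 m hm).1 (hcj m h)
    · exact index_eq_four hn hl hnc (Or.inr rfl) fun m hm h => ((F1 g hg).1 h3 m hm).1 (hcj m h)

end Cfsg.Agent.S4923
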