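import Cfsg.Statements.S4931
import Cfsg.Agent.Lib.Ind.Tate
import Cfsg.Agent.Lib.Ind.Avg
import Cfsg.Agent.Lib.Fit.Core
import Cfsg.Agent.Lib.Block.Omega

set_option autoImplicit false
open Cfsg

namespace Cfsg.Agent.S4931

open Cfsg.Agent.Char Cfsg.Agent.Ind Cfsg.Agent.Tr Subgroup
open scoped commutatorElement

theorem exists_ker {G : Type*} [Group G] [Finite G] (N : Subgroup G) (W : Subgroup N) [W.Normal]
    (h : ∀ β : IrrCharacter (N ⧸ W), ∃ χ : IrrCharacter G, ∀ x : N,
      (χ : G → ℂ) x = (β : N ⧸ W → ℂ) x) :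
    ∃ K : Subgroup G, K.Normal ∧ ∀ x : N, (x : G) ∈ K ↔ x ∈ W := by
  choose χ hχ using h
  refine ⟨⨅ β, charKer (isChar_irr (χ β)), Subgroup.normal_iInf_normal fun β => inferInstance,
    fun x => ?_⟩
  have h1 : ∀ β, (χ β : G → ℂ) 1 = (β : N ⧸ W → ℂ) 1 := fun β => hχ β 1
  simp only [mem_iInf, mem_charKer, hχ, h1]
  rw [← QuotientGroup.eq_one_iff]
  exact ⟨eq_one_of_forall_irr, fun h β => by rw [h]⟩

/-- Let G be a finite group, p a prime and P a Sylow p-subgroup of G with normalizer N. Then every irreducible complex character of N of degree not divisible by p is the restriction of an irreducible character of G if and only if there is a normal subgroup K of G with KN = G and K ∩ N = 1. -/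
theorem result {G : Type*} [Group G] [Finite G] (p : ℕ) [Fact p.Prime] (P : Sylow p G) :
    (∀ θ : Cfsg.IrrCharacter ↥(Subgroup.normalizer ((P : Subgroup G) : Set G)), ¬ p ∣ Cfsg.charDegree (θ : ↥(Subgroup.normalizer ((P : Subgroup G) : Set G)) → ℂ) →
        ∃ χ : Cfsg.IrrCharacter G, ∀ x : ↥(Subgroup.normalizer ((P : Subgroup G) : Set G)), (χ : G → ℂ) x = (θ : ↥(Subgroup.normalizer ((P : Subgroup G) : Set G)) → ℂ) x) ↔
      ∃ K : Subgroup G, K.Normal ∧ K ⊔ Subgroup.normalizer ((P : Subgroup G) : Set G) = ⊤ ∧ K ⊓ Subgroup.normalizer ((P : Subgroup G) : Set G) = ⊥ := by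
  classical
  set N := Subgroup.normalizer ((P : Subgroup G) : Set G) with hN
  have hp : p.Prime := Fact.out
  constructor
  · intro h
    have hPN : (P : Subgroup G) ≤ N := le_normalizer
    have hext : ∀ (W : Subgroup N) [W.Normal] (A : Subgroup (N ⧸ W)) [A.Normal],
        (∀ a ∈ A, ∀ b ∈ A, a * b = b * a) → ¬ p ∣ A.index →
        ∃ K : Subgroup G, K.Normal ∧ ∀ x : N, (x : G) ∈ K ↔ x ∈ W := by
      intro W _ A _ hA hi
      refine exists_ker N W fun β => h ⟨fun x => (β : N ⧸ W → ℂ) x,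
        isIrr_comp_of_surjective β.2 (QuotientGroup.mk' W) (QuotientGroup.mk'_surjective W)⟩ ?_
      rw [Block.charDegree_eq (n := deg β) (by exact deg_spec β)]
      exact fun hd => hi (hd.trans (ito β.2 A hA (deg_spec β)))
    let Q : Subgroup N := (P : Subgroup G).subgroupOf N
    haveI hQ : Q.Normal := normal_in_normalizer
    have hQi : ¬ p ∣ Q.index := (SylowIn.of_sylow_le P hPN).not_dvd
    obtain ⟨L, hLn, hL⟩ := hext Q ⊥ (by simp) (by rwa [index_bot])
    haveI := hQ.map _ (QuotientGroup.mk'_surjective ⁅Q, Q⁆)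
    obtain ⟨K, hKn, hK⟩ := hext ⁅Q, Q⁆ (Q.map (QuotientGroup.mk' _)) (by
      rintro _ ⟨a, ha, rfl⟩ _ ⟨b, hb, rfl⟩
      rw [← commutatorElement_eq_one_iff_mul_comm, ← map_commutatorElement]
      exact (QuotientGroup.eq_one_iff _).mpr (commutator_mem_commutator ha hb)) (by
      rw [index_map_eq _ (QuotientGroup.mk'_surjective _)
        (by rw [QuotientGroup.ker_mk']; exact commutator_le_left _ _)]
      exact hQi)
    have hPL : (P : Subgroup G) ≤ L := fun x hx => (hL ⟨x, hPN hx⟩).mpr hx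
    have hLN : ∀ x ∈ L, x ∈ N → x ∈ (P : Subgroup G) := fun x h1 h2 => (hL ⟨x, h2⟩).mp h1
    have hK' : ∀ x ∈ (P : Subgroup G), x ∈ K ↔ x ∈ ⁅(P : Subgroup G), (P : Subgroup G)⁆ :=
      fun x hx => by
        rw [hK ⟨x, hPN hx⟩, ← map_subgroupOf_eq_of_le hPN, ← map_commutator]
        exact (mem_map_iff_mem N.subtype_injective).symm
    have hS : SylowIn p (P : Subgroup G) L := SylowIn.of_sylow_le P hPL
    have hfus : ∀ x ∈ (P : Subgroup G), ∀ g ∈ L, g * x * g⁻¹ ∈ (P : Subgroup G) →
        g * x * g⁻¹ * x⁻¹ ∈ ⁅(P : Subgroup G), (P : Subgroup G)⁆ := by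
      intro x hx g hg hgx
      let π := QuotientGroup.mk' K
      have hcomm : ∀ y ∈ (P : Subgroup G), π y ∈ centralizer
          (((P : Subgroup G).map π : Subgroup (G ⧸ K)) : Set (G ⧸ K)) := fun y hy => by
        rintro _ ⟨a, ha, rfl⟩
        rw [← commutatorElement_eq_one_iff_mul_comm, ← map_commutatorElement]
        have := commutator_mem_commutator ha hy
        exact (QuotientGroup.eq_one_iff _).mpr ((hK' _ (by
          rw [commutatorElement_def]
          exact mul_mem (mul_mem (mul_mem ha hy) (inv_mem ha)) (inv_mem hy))).mpr this)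
      obtain ⟨_, ⟨n, hn, rfl⟩, hn1, hn2⟩ := (hS.map π).exists_normalizer_conj
        (mem_map_of_mem π hg) (hcomm x hx) (by simpa using hcomm _ hgx)
      have hT : SylowIn p (P : Subgroup G) (L ⊓ ((P : Subgroup G).map π).comap π) :=
        hS.mono (le_inf hPL (le_comap_map _ _)) inf_le_left
      obtain ⟨t, ht, y, hy, rfl⟩ := hT.frattini (x := n) (mem_normalizer_of_forall fun a ha =>
        ⟨hLn.conj_mem _ ha.1 _, by
          have := conj_mem_of_mem_normalizer hn1 (mem_comap.mp ha.2)
          rwa [← map_inv, ← map_mul, ← map_mul] at this⟩)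
      have hyP : y ∈ (P : Subgroup G) := hLN y (by simpa using L.mul_mem (L.inv_mem ht.1) hn) hy
      have h3 : π (t * y) ∈ (P : Subgroup G).map π := by
        rw [map_mul]; exact mul_mem ht.2 (mem_map_of_mem π hyP)
      rw [hcomm x hx _ h3, mul_inv_cancel_right] at hn2
      rw [← hK' _ (mul_mem hgx (inv_mem hx)), ← QuotientGroup.eq_one_iff]
      change π _ = 1
      simp only [map_mul, map_inv, ← hn2, mul_inv_cancel]
    have hT := tate hS.subgroupOf_top (by
      have e1 := commutator_inf_le_of_fusion hS.subgroupOf_top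
        (K := ⁅(P : Subgroup G).subgroupOf L, (P : Subgroup G).subgroupOf L⁆) (fun x hx g hgx => by
          rw [← mem_map_iff_mem L.subtype_injective, map_commutator, map_subgroupOf_eq_of_le hPL]
          exact hfus x hx g g.2 hgx)
      rw [← pResidual_sup_commutator_inf hS.subgroupOf_top] at e1
      exact fun x hx => e1 ⟨mem_sup_left hx.2, hx.1⟩)
    rw [hasNormalPComplement_subgroup_iff] at hT
    refine ⟨pResIn p L, ?_, ?_, ?_⟩
    · rw [← normalizer_eq_top_iff, eq_top_iff, ← L.normalizer_eq_top]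
      exact normalizer_le_normalizer_pResIn L
    · rw [eq_top_iff, ← Sylow.normalizer_sup_eq_top' P hPL]
      refine sup_le le_sup_right (hS.pResIn_sup.ge.trans ?_)
      exact sup_le le_sup_left (hPN.trans le_sup_right)
    · have := Fit.disjoint_of_isPGroup_of_coprime P.isPGroup'
        ((hp.coprime_iff_not_dvd).mpr hT).symm
      rw [eq_bot_iff]
      exact fun x hx => this.le_bot ⟨hLN x (pResIn_le L hx.1) hx.2, hx.1⟩
  · rintro ⟨K, hKn, h1, h2⟩ θ -
    have hc : K.IsComplement' N := isComplement'_of_disjoint_and_mul_eq_univ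
      (disjoint_iff.mpr h2) (by rw [← normal_mul, h1, coe_top])
    let π : G →* N := hc.symm.QuotientMulEquiv.toMonoidHom.comp (QuotientGroup.mk' K)
    have hπ : ∀ x : N, π x = x := fun x => hc.symm.QuotientMulEquiv.apply_symm_apply x
    exact ⟨⟨fun g => (θ : N → ℂ) (π g), isIrr_comp_of_surjective θ.2 π fun x => ⟨x, hπ x⟩⟩,
      fun x => by simp only [hπ]⟩

end Cfsg.Agent.S4931
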