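import Cfsg.Statements.S4937
import Cfsg.Agent.Lib.Block.Ext

set_option autoImplicit false
open Cfsg

namespace Cfsg.Agent.S4937

open Cfsg.Agent.Block Cfsg.Agent.Char Cfsg.Agent.Tr Subgroup


/-- Let G be a finite group, p a prime, M a maximal ideal of the algebraic integers containing p, N a normal subgroup of G and P a Sylow p-subgroup of N such that G = N·C_G(P). Let θ be an irreducible character in the principal p-block of N that is the restriction of some irreducible character of G. Then θ is the restriction of an irreducible character χ of G lying in the principal p-block of G such that, for every subgroup J of G containing N, the restriction of χ to J is an irreducible character of J lying in the principal p-block of J. -/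
theorem result {G : Type*} [Group G] [Finite G] (p : ℕ) [Fact p.Prime] (M : Ideal Cfsg.AlgInt) (hM : Cfsg.IsPModular p M) (N : Subgroup G) [N.Normal] (P : Sylow p ↥N)
    (hcov : N ⊔ Subgroup.centralizer (((P : Subgroup ↥N).map N.subtype : Subgroup G) : Set G) = ⊤)
    (θ : Cfsg.IrrCharacter ↥N) (hθ : θ ∈ Cfsg.principalBlock M ↥N)
    (hext : ∃ ψ : Cfsg.IrrCharacter G, ∀ x : ↥N, (ψ : G → ℂ) x = (θ : ↥N → ℂ) x) :
    ∃ χ : Cfsg.IrrCharacter G, χ ∈ Cfsg.principalBlock M G ∧ (∀ x : ↥N, (χ : G → ℂ) x = (θ : ↥N → ℂ) x) ∧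
      ∀ J : Subgroup G, N ≤ J → ∃ ξ : Cfsg.IrrCharacter ↥J, ξ ∈ Cfsg.principalBlock M ↥J ∧ ∀ y : ↥J, (ξ : ↥J → ℂ) y = (χ : G → ℂ) y := by
  haveI := hM.2.1
  haveI := charP_res hM
  obtain ⟨ψ, hψ⟩ := hext
  have hP := SylowIn.of_sylow P
  set Q := (P : Subgroup N).map N.subtype
  obtain ⟨χ, hχ, hom⟩ := exists_linear_red_om_eq (p := p) hψ hθ fun q => by
    obtain ⟨g, rfl⟩ := QuotientGroup.mk_surjective q
    have hg : g ∈ ((N ⊔ centralizer (Q : Set G) : Subgroup G) : Set G) := by rw [hcov]; trivial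
    rw [normal_mul] at hg
    obtain ⟨n, hn, c, hc, rfl⟩ := hg
    refine ⟨c, ?_, fun h => ?_⟩
    · simp only
      rw [QuotientGroup.mk_mul, (QuotientGroup.eq_one_iff n).2 hn, one_mul]
    · exact hP.not_dvd (h.trans
        (relIndex_dvd_of_le_left _ (le_centralizer_singleton_iff.2 hc)))
  have key : ∀ {J : Type u_1} [Group J] [Finite J] (f : J →* G)
      (hJ : N ≤ f.range) (ξ : IrrCharacter J), (∀ y, ξ.1 y = χ.1 (f y)) →
      ξ ∈ principalBlock M J := by
    intro J _ _ f hJ ξ hξ
    refine (sameBlock_iff_red (χ := irrOne J) (ψ := ξ)).2 fun y => ?_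
    have h1 : push ℂ f (classSum ℂ y) ∈ fixAlg ℂ N := by
      refine (Subalgebra.mem_centralizer_iff ℂ).2 ?_
      rintro _ ⟨h, hh, rfl⟩
      obtain ⟨j, rfl⟩ := hJ hh
      exact single_comm_push f (classSum_mem_cen y) j
    have h2 := hom _ h1 (push_mem_SG f (classSum_mem_SG y))
    rw [om_push, om_push, ← funext hξ, irr_om_classSum] at h2
    exact (congrArg (red M) (irr_om_classSum (irrOne J) y)).symm.trans h2.symm
  refine ⟨χ, key (MonoidHom.id G) (fun x _ => ⟨x, rfl⟩) χ fun _ => rfl, hχ,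
    fun J hJ => ?_⟩
  have h1 : IsIrrCharacter J fun y => χ.1 y :=
    isIrr_of_isIrr_comp (isChar_restrict (isChar_irr χ) J) (inclusion hJ)
      (by rw [show (fun x : N => χ.1 (inclusion hJ x : J)) = θ.1 from funext hχ]; exact θ.2)
  exact ⟨⟨_, h1⟩, key J.subtype (by simpa) _ fun _ => rfl, fun _ => rfl⟩

end Cfsg.Agent.S4937
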