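import Cfsg.Statements.S4949
import Cfsg.Agent.Lib.Sym.Sym6
import Cfsg.Agent.Lib.Sym.Sym7
import Cfsg.Agent.Lib.Block.Iso

set_option autoImplicit false
open Cfsg

namespace Cfsg.Agent.S4949

open Cfsg.Agent.Block Cfsg.Agent.Char Cfsg.Agent.Tr Cfsg.Agent.Sym Subgroup Equiv

section

variable {Ω : Type*} [Fintype Ω] [DecidableEq Ω] {p : ℕ} [hp : Fact p.Prime]

theorem index_le : (alternatingGroup Ω).index ≤ 2 := by
  rcases subsingleton_or_nontrivial Ω with h | h
  · exact alternatingGroup.index_eq_one.trans_le one_le_two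
  · exact alternatingGroup.index_eq_two.le

theorem fact_eq : (Nat.card (alternatingGroup Ω)).factorization p +
    (alternatingGroup Ω).index.factorization p = (Fintype.card Ω).factorial.factorization p := by
  rw [← factorization_card_eq_add, Nat.card_perm, Nat.card_eq_fintype_card (α := Ω)]

theorem fact_odd (h : p ≠ 2) {k : ℕ} (hk : k ≤ 2) : k.factorization p = 0 :=
  Nat.factorization_eq_zero_of_lt (hk.trans_lt (hp.out.two_le.lt_of_ne h.symm))

omit hp in
theorem deg_fact {χ : IrrCharacter (Perm Ω)} {θ : IrrCharacter (alternatingGroup Ω)}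
    (h : Cover.Over _ χ θ) : ∃ k ≤ 2, (charDegree χ.1).factorization p =
      k.factorization p + (charDegree θ.1).factorization p := by
  obtain ⟨k, h1, h2⟩ := exists_deg h
  exact ⟨k, h2.trans index_le, by rw [h1, Nat.factorization_mul (left_ne_zero_of_mul
    (h1 ▸ charDegree_ne_zero χ)) (charDegree_ne_zero θ), Finsupp.add_apply]⟩

theorem deg_eq {χ : IrrCharacter (Perm Ω)} {θ : IrrCharacter (alternatingGroup Ω)}
    (h : Cover.Over _ χ θ) {g : Perm Ω} (hg : Perm.sign g = -1) (h0 : χ.1 g ≠ 0) :
    charDegree θ.1 = charDegree χ.1 := by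
  have h1 := Ind.isIrr_res_of_ne_zero (N := alternatingGroup Ω) (x := g) (eq_top_iff' _ |>.2 fun y => by
    rcases Int.units_eq_one_or (Perm.sign y) with e | e
    · exact mem_sup_left e
    · simpa using mul_mem (mem_sup_left (T := zpowers g) (Perm.mem_alternatingGroup.2
        (by simp [e, hg] : Perm.sign (y * g⁻¹) = 1))) (mem_sup_right (mem_zpowers g)))
    (one_mem _) (by rwa [one_mul])
  rw [← eq_of_inner_ne_zero h1 θ.2 ((Cover.over_iff _).1 h)]
  exact charDegree_eq (cast_charDegree χ).symm

theorem exists_model {D : Subgroup (alternatingGroup Ω)} {T : Finset Ω}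
    (h : ∀ d ∈ D, d.1.support ⊆ T) :
    ∃ Q : Subgroup (Perm T), Q ≤ alternatingGroup T ∧ Nonempty (Q ≃* D) := by
  have h1 : D ≤ (alternatingGroup.ofSubtype T).range := fun d hd =>
    (alternatingGroup.mem_range_ofSubtype_iff T d).2 (h d hd)
  exact ⟨(D.comap (alternatingGroup.ofSubtype T)).map (alternatingGroup T).subtype,
    map_subtype_le _, ⟨(equivMapOfInjective _ _ (subtype_injective _)).symm.trans
      ((equivMapOfInjective _ _ alternatingGroup.ofSubtype_injective).trans
        (MulEquiv.subgroupCongr (map_comap_eq_self h1)))⟩⟩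

variable {M : Ideal AlgInt} [hM : M.IsMaximal] [CharP (Res M) p] {m : ℕ} {b : Fin m → ℕ}
  {B : Set (IrrCharacter (alternatingGroup Ω))} {D : Subgroup (alternatingGroup Ω)}
  {χ : IrrCharacter (Perm Ω)} {θ : IrrCharacter (alternatingGroup Ω)}

theorem transfer (hB : IsPBlock M B) (hθ : θ ∈ B) (h : Cover.Over _ χ θ) (hb : Lab χ b)
    (hm : 2 * Fintype.card Ω ≤ m) {b' : Fin m → ℕ} (he : Eqv p b b') :
    ∃ χ' : IrrCharacter (Perm Ω), Lab χ' b' ∧ ∃ θ' ∈ B, Cover.Over _ χ' θ' := by
  obtain ⟨χ', h1⟩ := exists_irr hm he.1 (he.2.2.trans hb.sum)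
  exact ⟨χ', h1, Cover.overSet_block_closed _ p hB ⟨θ, hθ, h⟩ (hb.sameBlock hm h1 he)⟩

theorem model (hB : IsPBlock M B) (hD : IsDefectGroup p M B D) (hθ : θ ∈ B) (h : Cover.Over _ χ θ)
    (hb : Lab χ b) (hm : 2 * Fintype.card Ω ≤ m) : ∃ T : Finset Ω, ∃ f < p,
      Fintype.card T = p * wt p b + f ∧ ∃ Q : Subgroup (Perm T), Q ≤ alternatingGroup T ∧
        Nonempty (Q ≃* D) ∧ blockDefect p B ≤ (Nat.card (alternatingGroup T)).factorization p ∧
          (Nat.card (alternatingGroup T)).factorization p +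
            (alternatingGroup T).index.factorization p = V p (wt p b) := by
  obtain ⟨T, ⟨f, h1, h2⟩, h3⟩ := hb.exists_supp hm h hB hθ hD
  obtain ⟨Q, h4, ⟨e⟩⟩ := exists_model h3
  refine ⟨T, f, h1, (Fintype.card_coe T).trans h2, Q, h4, ⟨e⟩,
    (hp.out.pow_dvd_iff_le_factorization Nat.card_pos.ne').1 ?_, by
      rw [fact_eq, Fintype.card_coe, h2, factorial_mul_add hp.out _ h1]⟩
  rw [← IsDefectGroup.card_eq hB hD, ← Nat.card_congr e.toEquiv]
  exact card_dvd_of_le h4

end

/-- Let n be a natural number, p a prime, M a maximal ideal of the algebraic integers containing p, B a p-block of the alternating group of degree n and D a defect group of B. Then either B contains an irreducible character of height 1 and D has an irreducible complex character of degree p, or every irreducible character of B has height zero and D is commutative (so the least positive height in B and the least positive exponent of a character degree of D are both 1 or both absent). -/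
theorem result (n : ℕ) (p : ℕ) [Fact p.Prime] (M : Ideal Cfsg.AlgInt) (hM : Cfsg.IsPModular p M) (B : Set (Cfsg.IrrCharacter ↥(alternatingGroup (Fin n)))) (hB : Cfsg.IsPBlock M B) (D : Subgroup ↥(alternatingGroup (Fin n))) (hD : Cfsg.IsDefectGroup p M B D) :
    ((∃ χ : Cfsg.IrrCharacter ↥(alternatingGroup (Fin n)), χ ∈ B ∧ Cfsg.blockHeight p B (χ : ↥(alternatingGroup (Fin n)) → ℂ) = 1) ∧ (∃ φ : Cfsg.IrrCharacter ↥D, Cfsg.charDegree (φ : ↥D → ℂ) = p)) ∨
    ((∀ χ : Cfsg.IrrCharacter ↥(alternatingGroup (Fin n)), χ ∈ B → Cfsg.blockHeight p B (χ : ↥(alternatingGroup (Fin n)) → ℂ) = 0) ∧ IsMulCommutative D) := by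
  haveI := hM.2.1; haveI := charP_res hM
  have hp : p.Prime := Fact.out
  have hm : 2 * Fintype.card (Fin n) ≤ 2 * n + 3 := by simp
  have hl : ∀ θ : IrrCharacter (alternatingGroup (Fin n)), ∃ χ, Cover.Over _ χ θ ∧
      ∃ b : Fin (2 * n + 3) → ℕ, Lab χ b := fun θ =>
    (Cover.exists_over _ θ).imp fun χ h => ⟨h, exists_lab hm χ⟩
  have hA := fact_eq (Ω := Fin n) (p := p)
  by_cases hc : ∃ θ ∈ B, ∃ χ, Cover.Over _ χ θ ∧ ∃ b : Fin (2 * n + 3) → ℕ, Lab χ b ∧
    p ≤ wt p b ∧ (p = 2 → 3 ≤ wt p b)
  · obtain ⟨θ, hθ, χ, h, b, hb, h1, h2⟩ := hc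
    obtain ⟨T, f, -, h3, Q, h4, ⟨e⟩, h5, h6⟩ := model hB hD hθ h hb hm
    have h7 : p ^ 2 ≤ Fintype.card T := by
      rw [h3, sq]; exact (Nat.mul_le_mul_left p h1).trans (Nat.le_add_right _ _)
    have h8 : 1 < Fintype.card T := (Nat.one_lt_pow two_ne_zero hp.one_lt).trans_le h7
    have := Fintype.one_lt_card_iff_nontrivial.1 h8
    have := Fintype.one_lt_card_iff_nontrivial.1 (h8.trans_le (Fintype.card_subtype_le _))
    rw [alternatingGroup.index_eq_two] at hA h6
    obtain ⟨b1, h9, h10⟩ := exists_max hp hb.inj hb.sum (by simp; omega)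
    obtain ⟨χ1, h11, θ1, h12, h13⟩ := transfer hB hθ h hb hm h9
    obtain ⟨k1, -, h14⟩ := deg_fact (p := p) h13
    have h15 := h11.factorization hp
    have h16 := le_blockDefect_add (p := p) h12
    obtain ⟨b2, h17, h18, h19⟩ := exists_one hp hb.inj hb.sum (by simp; omega) h1 h2
    obtain ⟨χ2, h20, θ2, h21, h22⟩ := transfer hB hθ h hb hm h17
    have h23 := h20.factorization hp
    have h24 := factorization_charDegree_eq (p := p) h21
    have h25 : (charDegree θ2.1).factorization p = (charDegree χ2.1).factorization p := by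
      by_cases h26 : p = 2
      · obtain ⟨μ, h27, h28, h29, h30⟩ := h19 h26
        subst h26
        have h31 := mul_wt_le two_pos hb.inj hb.sum
        obtain ⟨g, hg⟩ := (Perm.exists_with_cycleType_iff (Fin n)).2 ⟨h28.trans_le h31, h27⟩
        rw [deg_eq h22 (g := g) (by rw [Perm.sign_of_cycleType, hg, h28,
          ((even_two_mul _).add_odd h29).neg_one_pow]) fun e => ?_]
        rw [h20.eq_zero_iff, Perm.parts_partition, ← Perm.sum_cycleType, hg, h28] at e
        refine h30 _ (cf_one_ne (inj_core two_pos h17.1) ?_) e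
        rw [sum_core_eq two_pos h17.1 h20.sum, ← wt_add (t := 0) two_pos hb.inj h17.1 h17.2.1 h17.2.2,
          add_zero]
      · obtain ⟨k, h27, h28⟩ := deg_fact (p := p) h22
        rw [h28, fact_odd h26 h27, zero_add]
    refine .inl ⟨⟨θ2, h21, by omega⟩, ?_⟩
    have h26 : Nat.card Q = p ^ (Nat.card (alternatingGroup T)).factorization p := by
      rw [Nat.card_congr e.toEquiv, IsDefectGroup.card_eq hB hD]
      congr 1
      omega
    obtain ⟨φ, hφ⟩ := exists_deg_of_sylow (p := p) (Q := Q) ⟨h4, .of_card h26, fun h27 => by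
      have h28 := card_mul_relIndex h4
      have h29 := (hp.pow_dvd_iff_le_factorization Nat.card_pos.ne').1
        (h28 ▸ h26 ▸ pow_succ p _ ▸ Nat.mul_dvd_mul_left _ h27)
      omega⟩ h7 fun h27 => by have := h2 h27; subst h27; omega
    exact ⟨irrComp e.symm φ, (charDegree_irrComp _ _).trans hφ⟩
  · push Not at hc
    obtain ⟨θ, hθ⟩ := IsPBlock.nonempty hB
    obtain ⟨χ, h, b, hb⟩ := hl θ
    obtain ⟨T, f, h1, h3, Q, h4, ⟨e⟩, h5, h6⟩ := model hB hD hθ h hb hm
    have h7 := hc θ hθ χ h b hb
    by_cases h2 : p = 2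
    · subst h2
      have h8 : blockDefect 2 B ≤ 2 := by
        rcases lt_or_ge (wt 2 b) 2 with h8 | h8
        · rw [V_of_lt hp h8] at h6; omega
        · have h9 := (h7 h8).2
          have := Fintype.one_lt_card_iff_nontrivial.1 (by omega : 1 < Fintype.card T)
          rw [alternatingGroup.index_eq_two, hp.factorization_self, h8.antisymm' (by omega),
            V_succ hp, V_of_lt hp one_lt_two, hp.factorization_self] at h6
          omega
      refine .inr ⟨fun θ hθ => by_contra fun h9 => ?_, ?_⟩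
      · have := height_add_two_le hB hθ h9
        omega
      · have h9 := IsDefectGroup.card_eq hB hD
        generalize blockDefect 2 B = d at h8 h9
        interval_cases d
        · have := (Nat.card_eq_one_iff_unique.1 h9).1
          exact ⟨⟨fun a b => Subsingleton.elim _ _⟩⟩
        · have := isCyclic_of_prime_card h9
          infer_instance
        · exact IsPGroup.isMulCommutative_of_card_eq_prime_sq h9
    · refine .inr ⟨fun θ hθ => ?_, ⟨⟨fun x y => e.symm.injective ?_⟩⟩⟩
      · obtain ⟨χ, h, b, hb⟩ := hl θ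
        obtain ⟨T, f, h1, h3, Q, h4, ⟨e⟩, h5, h6⟩ := model hB hD hθ h hb hm
        have h8 : wt p b < p := by_contra fun h8 => h2 (hc θ hθ χ h b hb (not_lt.1 h8)).1
        obtain ⟨k, -, h9⟩ := deg_fact (p := p) h
        have h10 := hb.factorization hp
        have h11 := factorization_charDegree_eq (p := p) hθ
        rw [dfc_of_lt hp.pos hb.inj h8] at h10
        rw [V_of_lt hp h8] at h6
        rw [fact_odd h2 index_le] at hA
        omega
      · have h8 : wt p b + 1 ≤ p := by_contra fun h8 => h2 (h7 (by omega)).1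
        have := Nat.mul_le_mul_left p h8
        rw [map_mul, map_mul]
        exact comm_of_card_lt ((IsDefectGroup.isPGroup hD).of_equiv e.symm)
          (by rw [h3, sq]; rw [mul_add] at this; omega) _ _

end Cfsg.Agent.S4949
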