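import Cfsg.Statements.S4969
import Cfsg.Agent.Lib.Ind.PermLemma

set_option autoImplicit false
open Cfsg

namespace Cfsg.Agent.S4969

open Cfsg.Agent.Char Cfsg.Agent.Ind

/-- Let G be a finite group with k conjugacy classes, g ∈ G, and N > 0. Then the sum over the irreducible complex characters χ of G with χ(1) ≥ N of |χ(g)|/χ(1) is at most √(k · #C_G(g)) / N. -/
theorem result {G : Type*} [Group G] [Finite G] (g : G) (N : ℝ) (hN : 0 < N) :
    ∑ᶠ χ : Cfsg.IrrCharacter G, (if N ≤ ‖(χ : G → ℂ) 1‖ then ‖(χ : G → ℂ) g‖ / ‖(χ : G → ℂ) 1‖ else 0) ≤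
      Real.sqrt ((Nat.card (ConjClasses G) : ℝ) * (Nat.card ↥(Subgroup.centralizer ({g} : Set G)) : ℝ)) / N := by
  classical
  rw [finsum_eq_sum_of_fintype]
  have h1 := sum_irr_mul_conj_of_isConj (IsConj.refl g)
  simp only [Complex.mul_conj, Complex.normSq_eq_norm_sq] at h1
  have h2 : ∑ χ : IrrCharacter G, ‖(χ : G → ℂ) g‖ ^ 2 =
      (Nat.card (Subgroup.centralizer ({g} : Set G)) : ℝ) := by exact_mod_cast h1
  have h3 : ∑ χ : IrrCharacter G, ‖(χ : G → ℂ) g‖ ≤ Real.sqrt ((Nat.card (ConjClasses G) : ℝ) *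
      (Nat.card (Subgroup.centralizer ({g} : Set G)) : ℝ)) := by
    apply Real.le_sqrt_of_sq_le
    rw [← h2, ← card_irr_eq_card_conjClasses, Nat.card_eq_fintype_card]
    exact sq_sum_le_card_mul_sum_sq
  refine le_trans ?_ (div_le_div_of_nonneg_right h3 hN.le)
  rw [Finset.sum_div]
  refine Finset.sum_le_sum fun χ _ => ?_
  split_ifs with h
  · exact div_le_div_of_nonneg_left (norm_nonneg _) hN h
  · positivity

end Cfsg.Agent.S4969
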