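import Cfsg.Statements.S4989
import Cfsg.Agent.Lib.Ind.Avg

set_option autoImplicit false
open Cfsg

namespace Cfsg.Agent.S4989

open Cfsg.Agent.Char Cfsg.Agent.Ind

/-- Let H be a subgroup of the finite group G and χ an irreducible complex character of G. Then the inner product of the restriction of χ to H with itself, (1/#H)·Σ_{h ∈ H} |χ(h)|², is at most 1 + #(Z ∖ H)/#H, where Z is the set of zeros of χ in G. -/
theorem result {G : Type*} [Group G] [Finite G] (H : Subgroup G) (χ : Cfsg.IrrCharacter G) : (Nat.card ↥H : ℝ)⁻¹ * ∑ᶠ h : ↥H, ‖(χ : G → ℂ) h‖ ^ 2 ≤ 1 + (Set.ncard ({x : G | (χ : G → ℂ) x = 0} \ (H : Set G)) : ℝ) / (Nat.card ↥H : ℝ) := by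
  classical
  have := Fintype.ofFinite G
  have hχ := isChar_irr χ
  set f := (χ : G → ℂ) with hf
  let s : Finset G := Finset.univ.filter fun x => x ∉ H ∧ f x ≠ 0
  let z : Finset G := Finset.univ.filter fun x => x ∉ H ∧ f x = 0
  let t : Finset G := Finset.univ.filter fun x => x ∈ H
  have h1 := card_le_sum_of_gal s f (fun x _ => isIntegral_of_isChar hχ x)
    (fun x hx => (Finset.mem_filter.mp hx).2.2) (fun τ => by
      obtain ⟨m, hm, hτ⟩ := exists_char_pow_of_ringHom G τ.toRingHom
      have h1 : ∀ g, τ (f g) = f (g ^ m) := hτ f (isGen_of_isChar hχ)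
      simp only [h1]
      refine Finset.prod_equiv (powCoprime hm.symm) (fun g => ?_) (fun g _ => by simp)
      simp only [s, Finset.mem_filter, Finset.mem_univ, true_and, powCoprime_apply, ← h1,
        map_ne_zero]
      refine and_congr_left fun _ => not_congr ⟨fun h => H.pow_mem h m, fun h => ?_⟩
      have h2 : g ∈ Subgroup.zpowers (g ^ m) := mem_zpowers_pow_iff.mpr
        (Nat.Coprime.coprime_dvd_right (orderOf_dvd_natCard g) hm)
      exact (Subgroup.zpowers_le.mpr h) h2)
  have h4 := sum_mul_conj_of_isIrr χ.2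
  simp only [Complex.mul_conj, Complex.normSq_eq_norm_sq] at h4
  have h5 : ∑ g, ‖f g‖ ^ 2 = (Nat.card G : ℝ) := by exact_mod_cast h4
  have h6 : ∑ g ∈ t, ‖f g‖ ^ 2 + ∑ g ∈ s, ‖f g‖ ^ 2 ≤ ∑ g, ‖f g‖ ^ 2 := by
    rw [← Finset.sum_union (by
      rw [Finset.disjoint_filter]; tauto)]
    exact Finset.sum_le_sum_of_subset_of_nonneg (Finset.subset_univ _) fun _ _ _ => by positivity
  have h7 : (Nat.card G : ℝ) ≤ t.card + s.card + z.card := by
    have : (Finset.univ : Finset G) ⊆ t ∪ s ∪ z := fun x _ => by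
      simp only [t, s, z, Finset.mem_union, Finset.mem_filter, Finset.mem_univ, true_and]
      tauto
    have h := (Finset.card_le_card this).trans ((Finset.card_union_le _ _).trans
      (Nat.add_le_add_right (Finset.card_union_le _ _) _))
    rw [Finset.card_univ, ← Nat.card_eq_fintype_card] at h
    exact_mod_cast h
  have h8 : t.card = Nat.card H := by
    rw [Nat.card_eq_fintype_card, Fintype.card_subtype]
  have h9 : Set.ncard ({x : G | f x = 0} \ (H : Set G)) = z.card := by
    rw [← Set.ncard_coe_finset]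
    congr 1
    ext x
    simp [z, and_comm]
  have h10 : ∑ᶠ h : H, ‖f h‖ ^ 2 = ∑ g ∈ t, ‖f g‖ ^ 2 := by
    rw [finsum_eq_sum_of_fintype]
    exact (Finset.sum_subtype t (by simp [t]) (fun g => ‖f g‖ ^ 2)).symm
  have hpos : (0 : ℝ) < Nat.card H := by exact_mod_cast Nat.card_pos
  rw [h9, h10, inv_mul_le_iff₀ hpos, mul_add, mul_div_cancel₀ _ hpos.ne', ← h8]
  linarith

end Cfsg.Agent.S4989
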