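import Cfsg.Statements.S4993
import Cfsg.Agent.Lib.Prim.Main
import Cfsg.Agent.Lib.FT.Main

set_option autoImplicit false
open Cfsg

namespace Cfsg.Agent.S4993

/-- Let G be a group of odd order whose order has exactly two prime divisors and whose quotient by its Fitting subgroup is nilpotent (G is metanilpotent), and let χ be a primitive irreducible complex character of G (not induced from a character of any proper subgroup). Then χ(1) divides the size of some conjugacy class of G. -/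
theorem result {G : Type*} [Group G] [Fintype G] (hodd : Odd (Nat.card G)) (h2 : (Nat.card G).primeFactors.card = 2) [hF : (Cfsg.fittingSubgroup G).Normal] (hmeta : Group.IsNilpotent (G ⧸ Cfsg.fittingSubgroup G)) (χ : Cfsg.IrrCharacter G) (hprim : ¬ ∃ (H : Subgroup G), H ≠ ⊤ ∧ ∃ θ : ↥H → ℂ, Cfsg.IsCharacter ↥H θ ∧ Cfsg.indFun H θ = (χ : G → ℂ)) : ∃ g : G, Cfsg.charDegree (χ : G → ℂ) ∣ (Subgroup.centralizer ({g} : Set G)).index := by
  have hχ := FT.mem_Irr_top.2 χ.2
  obtain ⟨m, m0, hm⟩ := FT.irr1_degree hχ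
  let f := QuotientGroup.mk' (fittingSubgroup G)
  have key : ∀ p : ℕ, p.Prime → ∃ g, ∀ r, FT.PiElt {p} r → m.factorization p ≤
      (Subgroup.centralizer ({r * g} : Set G)).index.factorization p := fun p hp => by
    haveI := Fact.mk hp
    obtain ⟨g, hg⟩ := Prim.main (p := p) (R := (FT.core {p} ⊤).comap f) (FT.oddOrder G hodd) hχ
      hprim ⟨le_top, FT.norms_of_conj_mem fun a _ y hy => by
        simpa using (FT.memJ_norm ((FT.pcore_normal {p} ⊤).nz (Subgroup.mem_top (f a)))).2 hy⟩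
      (fun a ha => (FT.p_elt_exp.1 (FT.mem_pcore_p_elt ha)).imp fun k hk => by
        rw [FT.Fitting_top, ← QuotientGroup.eq_one_iff]; exact (map_pow f a _).trans hk) hm
    exact ⟨g, fun r hr => hg r ((FT.mem_nilpotent_pcore inferInstance (Subgroup.mem_top _)).2
      (hr.map f))⟩
  obtain ⟨p, q, pq, e⟩ := Finset.card_eq_two.1 h2
  have e' : ∀ r, r.Prime → r ∣ Nat.card G → r = p ∨ r = q := fun r h1 h2 => by
    simpa using e.le (Nat.mem_primeFactors.2 ⟨h1, h2, Nat.card_pos.ne'⟩)
  obtain ⟨g, hg⟩ := key p (Nat.prime_of_mem_primeFactors (e.ge (by simp)))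
  obtain ⟨k, hk⟩ := key q (Nat.prime_of_mem_primeFactors (e.ge (by simp)))
  have h1 := hg _ (FT.p_elt_constt {p} (k * g⁻¹))
  have h2 := hk (FT.piPart {p}ᶜ (k * g⁻¹))⁻¹ (FT.PiElt.inv fun r hr hd =>
    (e' r hr (hd.trans (orderOf_dvd_natCard _))).resolve_left (FT.p_elt_constt {p}ᶜ _ r hr hd))
  rw [show (FT.piPart {p}ᶜ (k * g⁻¹))⁻¹ * k = FT.piPart {p} (k * g⁻¹) * g by
    rw [inv_mul_eq_iff_eq_mul, ← mul_assoc, FT.consttC', inv_mul_cancel_right]] at h2
  refine ⟨FT.piPart {p} (k * g⁻¹) * g, ?_⟩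
  simp only [charDegree, hm, Complex.natCast_re, Nat.floor_natCast]
  refine (Nat.factorization_prime_le_iff_dvd m0.ne' Subgroup.index_ne_zero_of_finite).1
    fun r hr => ?_
  by_cases hd : r ∣ m
  · obtain rfl | rfl := e' r hr (hd.trans (by simpa using FT.dvd_irr1_cardG hχ hm)) <;> assumption
  · simp [Nat.factorization_eq_zero_of_not_dvd hd]

end Cfsg.Agent.S4993
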