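import Cfsg.Statements.S4996
import Cfsg.Agent.Lib.Ind.Avg

set_option autoImplicit false
open Cfsg

namespace Cfsg.Agent.S4996

open Cfsg.Agent.Char Cfsg.Agent.Ind
open scoped ComplexConjugate

/-- Let N be a normal subgroup of the finite group G and χ an irreducible complex character of G. Then the restriction of χ to N is not irreducible if and only if χ vanishes on some whole coset Nx of N in G. -/
theorem result {G : Type*} [Group G] [Finite G] (N : Subgroup G) [N.Normal] (χ : Cfsg.IrrCharacter G) : ¬ Cfsg.IsIrrCharacter ↥N (fun n : ↥N => (χ : G → ℂ) n) ↔ ∃ x : G, ∀ n : ↥N, (χ : G → ℂ) ((n : G) * x) = 0 := by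
  classical
  have := Fintype.ofFinite G
  have := Fintype.ofFinite N
  have hχ := isChar_irr χ
  set f := (χ : G → ℂ) with hf
  let η := nAvg N (fun g => f g * conj (f g))
  have hη : IsCharacter G η := isChar_nAvg N (isChar_mul hχ (isChar_conj hχ))
  have hη1 : η 1 = classInner (fun n : N => f n) (fun n : N => f n) := nAvg_one_eq N f f
  let a : G → ℝ := fun g => (Nat.card N : ℝ)⁻¹ * ∑ n : N, ‖f (n * g)‖ ^ 2
  have ha : ∀ g, η g = a g := nAvg_normSq N f
  have ha0 : ∀ g, 0 ≤ a g := fun g => by positivity
  have hpos : (0 : ℝ) < Nat.card N := by exact_mod_cast Nat.card_pos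
  have hz : ∀ g, η g = 0 ↔ ∀ n : N, f (n * g) = 0 := fun g => by
    rw [ha, Complex.ofReal_eq_zero, mul_eq_zero, or_iff_right (inv_pos.mpr hpos).ne',
      Finset.sum_eq_zero_iff_of_nonneg fun _ _ => by positivity]
    simp
  rw [isIrr_iff_inner_self, and_iff_right (isChar_restrict hχ N), ← hη1]
  simp only [← hz]
  constructor
  · intro h1
    by_contra h
    push Not at h
    have h2 := one_le_prod_of_gal Finset.univ η (fun x _ => isIntegral_of_isChar hη x)
      (fun x _ => h x) (fun τ => by
        obtain ⟨m, hm, hτ⟩ := exists_char_pow_of_ringHom G τ.toRingHom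
        have h1 : ∀ g, τ (η g) = η (g ^ m) := hτ η (isGen_of_isChar hη)
        simp only [h1]
        exact Fintype.prod_equiv (powCoprime hm.symm) _ _ (fun g => by simp))
    have h3 : ∀ g, ‖η g‖ = a g := fun g => by
      rw [ha, Complex.norm_real, Real.norm_of_nonneg (ha0 g)]
    simp only [h3] at h2
    rw [Finset.prod_pow] at h2
    have h4 : 1 ≤ ∏ g, a g := by
      have := Finset.prod_nonneg (s := Finset.univ) fun g _ => ha0 g
      nlinarith
    have h5 : classInner η (fun _ => 1) = 1 := by
      rw [inner_nAvg_left N _ _ (fun _ _ _ => rfl)]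
      simpa [classInner] using inner_self_of_isIrr χ.2
    have h6 : ∑ g, a g = Nat.card G := by
      simp only [classInner, ha, map_one, mul_one] at h5
      rw [inv_mul_eq_one₀ (card_ne_zero' G)] at h5
      exact_mod_cast h5.symm
    have h7 := eq_one_of_one_le_prod Finset.univ a (fun g _ => by
      rw [← h3]; exact norm_pos_iff.mpr (h g)) h4 (by
      rw [h6, Finset.card_univ, Nat.card_eq_fintype_card]) 1 (Finset.mem_univ _)
    exact h1 (by rw [ha, h7, Complex.ofReal_one])
  · rintro ⟨x, hx⟩ h1
    obtain ⟨lam, hl⟩ := exists_unitsHom_of_apply_one hη h1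
    rw [hl] at hx
    exact (lam x).ne_zero hx

end Cfsg.Agent.S4996
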