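import Cfsg.Statements.S5001
import Cfsg.Agent.Lib.Block.Lin

set_option autoImplicit false
open Cfsg

namespace Cfsg.Agent.S5001

open Cfsg.Agent.Block Cfsg.Agent.Char Cfsg.Agent.Tr Subgroup


/-- Let p be a prime, G a finite group and B a p-block of G (relative to a maximal ideal M of the algebraic integers containing p) with defect group D. Let Z be a central p-subgroup of G contained in D and λ a linear character of Z (a homomorphism to the nonzero complex numbers). Say an irreducible character χ of G lies over λ when χ(z) = χ(1)λ(z) for all z ∈ Z. If some irreducible character in B lying over λ has height zero, then λ extends to a linear character of D. -/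
theorem result {G : Type*} [Group G] [Finite G] (p : ℕ) [Fact p.Prime] (M : Ideal Cfsg.AlgInt) (hM : Cfsg.IsPModular p M) (B : Set (Cfsg.IrrCharacter G)) (hB : Cfsg.IsPBlock M B) (D : Subgroup G) (hD : Cfsg.IsDefectGroup p M B D) (Z : Subgroup G) (hZc : Z ≤ Subgroup.center G) (hZp : IsPGroup p ↥Z) (hZD : Z ≤ D) (lam : ↥Z →* ℂˣ) (χ : Cfsg.IrrCharacter G) (hχ : χ ∈ B) (hover : (∀ z : ↥Z, (χ : G → ℂ) z = (χ : G → ℂ) 1 * (lam z : ℂ))) (h0 : Cfsg.blockHeight p B (χ : G → ℂ) = 0) : (∃ μ : ↥D →* ℂˣ, ∀ z : ↥Z, μ ⟨(z : G), hZD z.2⟩ = lam z) := by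
  haveI := hM.2.1
  haveI := charP_res hM
  haveI := Fintype.ofFinite D
  haveI := Fintype.ofFinite Z
  obtain ⟨μ, hμ⟩ := IsDefectGroup.exists_linear hB hD hχ h0
  have h1 := inner_comp_ne_zero (isChar_restrict (isChar_irr χ) D) (isIrr_unitsHom μ) hμ
    (inclusion hZD) (isChar_of_isIrr (isIrr_unitsHom (μ.comp (inclusion hZD))))
    (by
      have := inner_self_of_isIrr (isIrr_unitsHom (μ.comp (inclusion hZD)))
      exact this.trans_ne one_ne_zero)
  have h2 : (fun z : Z => χ.1 (inclusion hZD z : D)) = χ.1 1 • fun z => (lam z : ℂ) :=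
    funext hover
  rw [h2, Char.inner_smul_left] at h1
  have h3 := eq_of_inner_ne_zero (isIrr_unitsHom lam) (isIrr_unitsHom (μ.comp (inclusion hZD)))
    (right_ne_zero_of_mul h1)
  exact ⟨μ, fun z => Units.ext (congrFun h3 z).symm⟩

end Cfsg.Agent.S5001
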