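import Cfsg.Statements.S5011
import Cfsg.Agent.Lib.Ind.PermLemma

set_option autoImplicit false
open Cfsg

namespace Cfsg.Agent.S5011

open Cfsg.Agent.Char Cfsg.Agent.Ind

/-- Let G be a finite non-abelian simple group and ρ an irreducible complex representation of G on a space of dimension greater than one (irreducible in the sense that the only subspaces invariant under every ρ(x) are 0 and the whole space). Then for every non-identity element g of G, the centralizer of g does not act irreducibly: there is a non-zero proper subspace invariant under ρ(c) for every c commuting with g. -/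
theorem result {G : Type*} [Group G] [Finite G] [IsSimpleGroup G]
    (hG : ¬ IsMulCommutative G) {V : Type*} [AddCommGroup V] [Module ℂ V] [FiniteDimensional ℂ V]
    (ρ : Representation ℂ G V)
    (hirr : ∀ W : Submodule ℂ V, (∀ x : G, ∀ v ∈ W, ρ x v ∈ W) → W = ⊥ ∨ W = ⊤)
    (hdim : 1 < Module.finrank ℂ V) (g : G) (hg : g ≠ 1) :
    ∃ W : Submodule ℂ V, W ≠ ⊥ ∧ W ≠ ⊤ ∧ ∀ c ∈ Subgroup.centralizer ({g} : Set G), ∀ v ∈ W, ρ c v ∈ W := by
  by_contra hW
  push Not at hW
  have : Nontrivial V := Module.nontrivial_of_finrank_pos (R := ℂ) (by omega)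
  let C := Subgroup.centralizer ({g} : Set G)
  have hC : Representation.IsIrreducible (ρ.comp C.subtype : Representation ℂ C V) := by
    rw [Char.isIrreducible_iff]
    refine ⟨this, fun U hU => ?_⟩
    by_contra h
    push Not at h
    obtain ⟨c, hc, v, hv, hcv⟩ := hW U h.1 h.2
    exact hcv (hU ⟨c, hc⟩ v hv)
  obtain ⟨c, hc⟩ := exists_eq_smul_of_comm (ρ.comp C.subtype : Representation ℂ C V) (ρ g)
    (fun x => by
      change ρ g * ρ x = ρ x * ρ g
      rw [← map_mul, ← map_mul, Subgroup.mem_centralizer_singleton_iff.mp x.2])
  rcases (inferInstance : (MonoidHom.ker ρ).Normal).eq_bot_or_eq_top with h | h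
  · have hinj : Function.Injective ρ := (MonoidHom.ker_eq_bot_iff _).mp h
    have hz : g ∈ Subgroup.center G := by
      rw [Subgroup.mem_center_iff]
      intro x
      apply hinj
      rw [map_mul, map_mul, hc]
      simp
    rcases (inferInstance : (Subgroup.center G).Normal).eq_bot_or_eq_top with h' | h'
    · exact hg (by simpa [h'] using hz)
    · refine hG ⟨⟨fun a b => ?_⟩⟩
      have : b ∈ Subgroup.center G := h' ▸ Subgroup.mem_top b
      exact Subgroup.mem_center_iff.mp this a
  · obtain ⟨v, hv⟩ := exists_ne (0 : V)
    rcases hirr (Submodule.span ℂ {v}) (fun x w hw => by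
      have : x ∈ MonoidHom.ker ρ := h ▸ Subgroup.mem_top x
      rw [MonoidHom.mem_ker] at this
      rw [this]; exact hw) with h' | h'
    · exact hv (by simpa using h')
    · have h1 := finrank_span_singleton (K := ℂ) hv
      rw [h', finrank_top] at h1
      omega

end Cfsg.Agent.S5011
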