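import Cfsg.Statements.S5012
import Cfsg.Agent.Lib.Chev.Cl4
import Cfsg.Agent.Lib.Chev.ClSz
import Cfsg.Agent.Lib.Chev.CG2
import Cfsg.Agent.Lib.Chev.CF4
import Cfsg.Agent.Lib.Chev.CE6
import Cfsg.Agent.Lib.Chev.CE7
import Cfsg.Agent.Lib.Chev.CE8
import Cfsg.Agent.Lib.Chev.WE6
import Cfsg.Agent.Lib.Chev.WD4
import Cfsg.Agent.Lib.Chev.WF4
import Cfsg.Agent.Lib.Chev.WG2

set_option autoImplicit false
open Cfsg

namespace Cfsg.Agent.S5012

open Cfsg.Agent.Chev Cfsg.Agent.Chev.Cl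

theorem charP_of_card {F : Type} [Field F] [Fintype F] {p n : ℕ} [Fact p.Prime]
    (h : Fintype.card F = p ^ (n + 1)) : CharP F p :=
  (CharP.charP_iff_prime_eq_zero Fact.out).2 (pow_eq_zero_iff n.succ_ne_zero |>.1 (by
    rw [← Nat.cast_pow, ← h, FiniteField.cast_card_eq_zero]))

theorem exists_pow_eq {F : Type} [Field F] [Fintype F] (p : ℕ) [Fact p.Prime] [CharP F p]
    {q n : ℕ} (h : Fintype.card F = q ^ (n + 1)) : ∃ θ : F →+* F, ∀ x, θ x = x ^ q := by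
  obtain ⟨m, hp, hm⟩ := FiniteField.card F p
  obtain ⟨k, -, rfl⟩ := (Nat.dvd_prime_pow hp).1 (hm.symm.trans h ▸ dvd_pow_self q n.succ_ne_zero)
  exact ⟨iterateFrobenius F p k, fun x => rfl⟩

theorem bt {G : Type*} [Group G] [Finite G] (p : ℕ) [Fact p.Prime] (hG : Cfsg.IsLieTypeChar p G) :
    BTin p (⊤ : Subgroup G) := by
  rcases hG with ⟨F, _, _, _, n, -, -, ⟨e⟩⟩ | ⟨F, _, _, _, m, -, -, ⟨e⟩⟩ |
    ⟨F, _, _, _, n, q, hq, -, -, ⟨e⟩⟩ | ⟨F, _, _, _, m, hm, hF, ⟨e⟩⟩ | ⟨F, _, _, _, m, hm, ⟨e⟩⟩ |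
    ⟨F, _, _, _, m, a, b, hm, hab, ⟨e⟩⟩ |
    ⟨F, _, _, _, ⟨-, ⟨e⟩⟩ | ⟨⟨e⟩⟩ | ⟨⟨e⟩⟩ | ⟨⟨e⟩⟩ | ⟨⟨e⟩⟩⟩ |
    ⟨F, _, _, _, q, -, ⟨hq, ⟨e⟩⟩ | ⟨hq, ⟨e⟩⟩⟩ | ⟨rfl, F, _, _, m, -, hF, ⟨e⟩⟩ |
    ⟨rfl, F, _, _, m, -, hF, ⟨e⟩⟩ | ⟨rfl, F, _, _, m, -, hF, ⟨e⟩⟩
  · exact (bt_PSL F p n).of_equiv e
  · exact (bt_PSp F p m).of_equiv e
  · exact (bt_PSU F p n q hq).of_equiv e
  · refine (bt_odd F p (fun h => ?_) (by omega)).of_equiv e
    obtain ⟨k, hk⟩ := hF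
    have := FiniteField.cast_card_eq_zero F
    rw [hk] at this
    simp [h] at this
  · exact (bt_plus F p (by omega)).of_equiv e
  · exact (bt_minus F p (by omega) a b hab).of_equiv e
  · exact (btG2 F p).of_equiv_sub e
  · exact (btF4 F p).of_equiv_sub e
  · exact (btE6 F p).of_equiv_sub e
  · exact (btE7 F p).of_equiv_sub e
  · exact (btE8 F p).of_equiv_sub e
  · obtain ⟨θ, hθ⟩ := exists_pow_eq p hq
    exact (bt2E6 F p q θ hθ fun x => by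
      rw [hθ, hθ, ← pow_mul, ← sq, ← hq, FiniteField.pow_card]).of_equiv_sub e
  · obtain ⟨θ, hθ⟩ := exists_pow_eq p hq
    exact (bt3D4 F p q θ hθ fun x => by
      rw [hθ, hθ, hθ, ← pow_mul, ← pow_mul, ← pow_three, ← hq, FiniteField.pow_card]).of_equiv_sub e
  · haveI := charP_of_card hF
    exact (bt_Sz (iterateFrobenius F 2 (m + 1)) fun _ => rfl).of_equiv e
  · haveI := charP_of_card hF
    exact (bt2F4 F (2 ^ m) (iterateFrobenius F 2 m) (fun _ => rfl) fun x => by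
      rw [iterateFrobenius_def, iterateFrobenius_def, ← pow_mul, ← pow_mul, ← pow_succ, ← pow_add,
        ← add_assoc, ← two_mul, ← hF, FiniteField.pow_card]).of_equiv_sub e
  · haveI := charP_of_card hF
    exact (bt2G2 F (3 ^ m) (iterateFrobenius F 3 m) (fun _ => rfl) fun x => by
      rw [iterateFrobenius_def, iterateFrobenius_def, ← pow_mul, ← pow_mul, ← pow_succ, ← pow_add,
        ← add_assoc, ← two_mul, ← hF, FiniteField.pow_card]).of_equiv_sub e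

/-- Let G be a finite simple group of Lie type in characteristic p. Then every p-block of G has defect zero or full defect: its defect is 0 or the exponent of p in the order of G (its defect groups are trivial or Sylow p-subgroups). -/
theorem result {G : Type*} [Group G] [Finite G] (p : ℕ) [Fact p.Prime] (hG : Cfsg.IsLieTypeChar p G) (M : Ideal Cfsg.AlgInt) (hM : Cfsg.IsPModular p M) (B : Set (Cfsg.IrrCharacter G)) (hB : Cfsg.IsPBlock M B) : Cfsg.blockDefect p B = 0 ∨ Cfsg.blockDefect p B = (Nat.card G).factorization p :=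
  blocks_of_BT p (bt p hG) M hM B hB

end Cfsg.Agent.S5012
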