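import Cfsg.Statements.S5125
import Cfsg.Agent.Lib.Fus.Normal

set_option autoImplicit false
open Cfsg

namespace Cfsg.Agent.S5125

open Cfsg.Agent.Fus Cfsg.FusionSystem

/-- Let F be a saturated fusion system over a finite p-group S and Q a subgroup strongly closed in F. If Q has a subgroup Q₁ that is normal in F, with Q/Q₁ abelian and Aut_F(Q₁) a p-group, then Q is normal in F. -/
theorem result {Ω : Type*} [Group Ω] {S : Subgroup Ω} [Finite S] (p : ℕ) [Fact p.Prime] (hS : IsPGroup p S) (F : Cfsg.FusionSystem S) (hF : F.IsSaturated p) (Q Q₁ : Subgroup Ω) (hQ : F.StronglyClosed Q) (hQ₁Q : Q₁ ≤ Q) (hQ₁ : F.IsNormal Q₁) (hab : ⁅Q, Q⁆ ≤ Q₁) (hAut : IsPGroup p ↥(F.autGroup Q₁)) : F.IsNormal Q := by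
  refine isNormal_of_sc_of_le_fcr hS hF hQ fun P _ hc hr => ?_
  have h1 := le_of_isNormal_of_centric_radical hS hQ₁ hc hr
  refine le_of_conjAut_mem_autCore hS hc hr hQ.1 (hc.1.trans (Fus2.sc_le_normalizer hQ))
    fun g hg hN => ?_
  refine conjAut_mem_autCore_of_chain hS hc.1 hQ (fun j => if j = 0 then Q₁ else Q) 1
    (fun i hi => by simpa [Nat.lt_one_iff.1 hi] using hQ₁Q) (by simp) (fun β hβ i _ x hx hxi => ?_)
    (fun β hβ _ => ?_) hg hN fun i hi x _ hxi => ?_
  · by_cases h : i = 0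
    · simp only [h, if_true] at hxi ⊢
      exact afn_mem_of_sc hc.1 hβ (Fus2.sc_of_isNormal hQ₁) hx hxi
    · simp only [h, if_false] at hxi ⊢
      exact afn_mem_of_sc hc.1 hβ hQ hx hxi
  · have := finite_of_le hc.1
    obtain ⟨α, hα⟩ := exists_extends_of_mapsTo h1 (β := β) fun x => by
      rw [← Fus2.afn_apply]
      exact afn_mem_of_sc hc.1 hβ (Fus2.sc_of_isNormal hQ₁) (h1 x.2) x.2
    obtain ⟨k, hk⟩ := hAut ⟨α, hα.mem_autGroup hc.1 hβ⟩
    refine ⟨k, fun x hx hx1 => ?_⟩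
    simp only [if_true] at hx1
    have hk' : α ^ p ^ k = 1 := congrArg Subtype.val hk
    have := hα.pow (p ^ k) ⟨x, hx1⟩
    rw [hk'] at this
    rw [Fus2.afn_apply _ hx]
    exact this
  · simp only [Nat.lt_one_iff.1 hi, if_true, zero_add, one_ne_zero, if_false] at hxi ⊢
    exact hab (Subgroup.commutator_mem_commutator (Q.inv_mem hxi) hg)

end Cfsg.Agent.S5125
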