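import Cfsg.Statements.S5126
import Cfsg.Agent.Lib.Asch.Model

set_option autoImplicit false
open Cfsg

namespace Cfsg.Agent.S5126

open Cfsg Cfsg.FusionSystem Cfsg.Agent Cfsg.Agent.Fus2

/-- In a saturated fusion system over a finite p-group S, the normalizer system of a fully normalized, centric, radical subgroup R is constrained, and in every model of that normalizer system the largest normal p-subgroup is the image of R. -/
theorem result {Ω : Type*} [Group Ω] {S : Subgroup Ω} [Finite S] (p : ℕ) [Fact p.Prime] (hS : IsPGroup p S) (F : Cfsg.FusionSystem S) (hF : F.IsSaturated p) (R : Subgroup Ω) (hRn : F.IsFullyNormalized R) (hRc : F.IsCentric R) (hRr : F.IsRadical p R) (E : Cfsg.FusionSystem (Cfsg.FusionSystem.normalizerIn S R)) (hE : F.IsNormalizerSystem R E) {G : Type*} [Group G] (ι : ↥(Cfsg.FusionSystem.normalizerIn S R) →* G) : E.IsConstrained p ∧ (E.IsModel p G ι → (Cfsg.pCore p G : Subgroup G) = (R.subgroupOf (Cfsg.FusionSystem.normalizerIn S R)).map ι) := by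
  have hn := isNormal_normalizer hE hRc.1
  have hc : centralizerIn (normalizerIn S R) R ≤ R :=
    (Fus.centralizerIn_mono (Fus.normalizerIn_le R) R).trans (Fus.IsCentric_centralizerIn_le hRc)
  refine ⟨⟨normalizer_saturated hS hF hRn hE, R, hn, Asch.centric_of_normal hn hc⟩, fun hG => ?_⟩
  have hr : E.IsRadical p R := by
    have hS' : IsPGroup p (normalizerIn S R) := hS.to_le (Fus.normalizerIn_le R)
    rw [Fus.isRadical_iff hS' hn.1, Fus.autCore, autGroup_normalizer_self hE hRc.1]
    exact (Fus.isRadical_iff hS hRc.1).1 hRr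
  have h1 : E.core = R := le_antisymm (Fus.le_of_isNormal_of_centric_radical
    (hS.to_le (Fus.normalizerIn_le R)) (isNormal_core E) (Asch.centric_of_normal hn hc) hr)
    (le_core hn)
  rw [← Asch.model_img_core hG, h1, map_subgroupOf_eq_img _ hn.1]

end Cfsg.Agent.S5126
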