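import Cfsg.Statements.S5138
import Cfsg.Agent.Lib.Fus2.CProd2

set_option autoImplicit false
open Cfsg

namespace Cfsg.Agent.S5138


/-- Let F be a saturated fusion system over a finite p-group S and E₁, E₂ normal subsystems over T₁, T₂ with [T₁, T₂] = 1. Then there is a normal subsystem of F over T₁T₂ which, if moreover T₁ ∩ T₂ lies in the centre of E₁ and in the centre of E₂, is a central product of E₁ and E₂ (the factor system of a direct product of E₁ and E₂ modulo a subgroup of its centre meeting both factors trivially). -/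
theorem result {Ω : Type*} [Group Ω] {S : Subgroup Ω} [Finite S] (p : ℕ) [Fact p.Prime] (hS : IsPGroup p S) (F : Cfsg.FusionSystem S) (hF : F.IsSaturated p) {T₁ T₂ : Subgroup Ω} (E₁ : Cfsg.FusionSystem T₁) (E₂ : Cfsg.FusionSystem T₂) (hE₁ : E₁.IsNormalIn F p) (hE₂ : E₂.IsNormalIn F p) (hc : ⁅T₁, T₂⁆ = ⊥) : ∃ D : Cfsg.FusionSystem (T₁ ⊔ T₂), D.IsNormalIn F p ∧ (T₁ ⊓ T₂ ≤ E₁.center → T₁ ⊓ T₂ ≤ E₂.center → Cfsg.FusionSystem.IsCentralProductOf E₁ E₂ D) := by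
  have h₁ := Asch.isNormalIn_iff.1 hE₁
  have h₂ := Asch.isNormalIn_iff.1 hE₂
  have := Fus2.finite_of_le h₁.le
  have := Fus2.finite_of_le h₂.le
  have hc' : ∀ x ∈ T₁, ∀ y ∈ T₂, x * y = y * x := fun x hx y hy => by
    have := hc.le (Subgroup.commutator_mem_commutator hx hy)
    rwa [Subgroup.mem_bot, commutatorElement_eq_one_iff_mul_comm] at this
  have key : ∀ (E₁ : Cfsg.FusionSystem T₁) (E₂ : Cfsg.FusionSystem T₂), Asch.Nor p E₁ F →
      Asch.Nor p E₂ F → E₁.IsCentral (T₁ ⊓ T₂) → E₂.IsCentral (T₁ ⊓ T₂) →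
      ∃ D : Cfsg.FusionSystem (T₁ ⊔ T₂), D.IsNormalIn F p ∧
        Cfsg.FusionSystem.IsCentralProductOf E₁ E₂ D := fun E₁ E₂ h₁ h₂ c₁ c₂ => by
    obtain ⟨D, hD⟩ := Fus2.CPre.exists_cp ⟨hc', c₁, c₂⟩
    exact ⟨D, Asch.isNormalIn_iff.2 (hD.nor hS h₁ h₂), Fus2.isCentralProductOf_iff.2 hD⟩
  by_cases h : T₁ ⊓ T₂ ≤ E₁.center ∧ T₁ ⊓ T₂ ≤ E₂.center
  · obtain ⟨D, hD, hD'⟩ := key E₁ E₂ h₁ h₂ (Fus2.isCentral_mono (Fus2.isCentral_center _) h.1)
      (Fus2.isCentral_mono (Fus2.isCentral_center _) h.2)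
    exact ⟨D, hD, fun _ _ => hD'⟩
  · have hn := Fus.isNormal_of_sc_of_comm hS hF (Fus2.sc_inf h₁.sc h₂.sc)
      fun x hx y hy => hc' x hx.1 y hy.2
    obtain ⟨C₁, n₁, c₁⟩ := Fus2.exists_nor_isCentral hS h₁ hn inf_le_left
      fun x hx y hy => (hc' x hx y hy.2).symm
    obtain ⟨C₂, n₂, c₂⟩ := Fus2.exists_nor_isCentral hS h₂ hn inf_le_right
      fun x hx y hy => hc' y hy.1 x hx
    obtain ⟨D, hD, -⟩ := key C₁ C₂ n₁ n₂ c₁ c₂
    exact ⟨D, hD, fun a b => absurd ⟨a, b⟩ h⟩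

end Cfsg.Agent.S5138
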