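import Cfsg.Statements.S5143
import Cfsg.Agent.Lib.Asch.Prod2

set_option autoImplicit false
open Cfsg

namespace Cfsg.Agent.S5143

open Cfsg.FusionSystem Cfsg.Agent.Fus2 Cfsg.Agent.Asch

/-- Let F be a saturated fusion system over a finite p-group S, E a normal subsystem over T, and R a subgroup with T ≤ R ≤ S. Then there is exactly one saturated subsystem D of F over R (exactly one family of map sets) whose p-residual subsystem is that of E: the hyperfocal subgroups of D and E coincide and the p-residual subsystems of D and of E have the same maps. -/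
theorem result {Ω : Type*} [Group Ω] {S : Subgroup Ω} [Finite S] (p : ℕ) [Fact p.Prime] (hS : IsPGroup p S) (F : Cfsg.FusionSystem S) (hF : F.IsSaturated p) {T : Subgroup Ω} (E : Cfsg.FusionSystem T) (hE : E.IsNormalIn F p) (R : Subgroup Ω) (hTR : T ≤ R) (hRS : R ≤ S) : ∃ D : Cfsg.FusionSystem R, (D.IsSaturated p ∧ D.IsSubsystemOf F ∧ D.hyperfocalSubgroup p = E.hyperfocalSubgroup p ∧ ∀ (D₁ : Cfsg.FusionSystem (D.hyperfocalSubgroup p)) (E₁ : Cfsg.FusionSystem (E.hyperfocalSubgroup p)), D.IsPResidual p D₁ → E.IsPResidual p E₁ → ∀ P : Subgroup Ω, D₁.Hom P = E₁.Hom P) ∧ ∀ D' : Cfsg.FusionSystem R, D'.IsSaturated p → D'.IsSubsystemOf F → D'.hyperfocalSubgroup p = E.hyperfocalSubgroup p → (∀ (D₁ : Cfsg.FusionSystem (D'.hyperfocalSubgroup p)) (E₁ : Cfsg.FusionSystem (E.hyperfocalSubgroup p)), D'.IsPResidual p D₁ → E.IsPResidual p E₁ → ∀ P : Subgroup Ω, D₁.Hom P = E₁.Hom P) → ∀ P : Subgroup Ω, D'.Hom P = D.Hom P := by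
  have h := Asch.isNormalIn_iff.1 hE
  have := finite_of_le h.le
  have := finite_of_le hRS
  have hT := Fus.isPGroup_of_le hS h.le
  have hR := Fus.isPGroup_of_le hS hRS
  obtain ⟨E₀, hE₀⟩ := exists_pResidual hT h.satE
  have h₀ := h.pResidual hS hE₀
  have hle : E.hyperfocalSubgroup p ≤ R := (hyp_le E p).trans hTR
  obtain ⟨D, ⟨hD, hDF, hi⟩, hu⟩ := h₀.exists_prod hS hRS hle
  have e1 : D.hyperfocalSubgroup p = E.hyperfocalSubgroup p :=
    (hyp_eq_of_pPowerIndex hR hD hi).symm.trans (hyp_eq_of_pPowerIndex hT h.satE hE₀.2)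
  refine ⟨D, ⟨hD, hDF, e1, fun D₁ E₁ h1 h2 => ?_⟩, fun D' hD' hDF' e' h' P => ?_⟩
  · exact (same_of_pPowerIndex hR h1.1 hE₀.1 h1.2 hi e1).trans
      (same_of_pPowerIndex hT hE₀.1 h2.1 hE₀.2 h2.2 rfl)
  · obtain ⟨D₁, hD₁⟩ := exists_pResidual hR hD'
    have hs : Same D₁ E₀ := h' D₁ E₀ hD₁ hE₀
    have : E₀.HasPPowerIndexIn D' p :=
      hs.rec' (C := fun X => X.HasPPowerIndexIn D' p) hD₁.2
    rw [hu D' hD' hDF' this]

end Cfsg.Agent.S5143
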