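import Cfsg.Statements.S5152
import Cfsg.Agent.Lib.Fus2.CharP

set_option autoImplicit false
open Cfsg

namespace Cfsg.Agent.S5152


/-- Dichotomy for saturated fusion systems: a saturated fusion system over a finite p-group is of characteristic p-type (the normalizer system of every nontrivial fully normalized subgroup is constrained) or of component type (the centralizer system of some fully normalized subgroup of order p has a component). -/
theorem result {Ω : Type*} [Group Ω] {S : Subgroup Ω} [Finite S] (p : ℕ) [Fact p.Prime] (hS : IsPGroup p S) (F : Cfsg.FusionSystem S) (hF : F.IsSaturated p) : F.IsOfCharacteristicPType p ∨ F.IsOfComponentType p := by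
  refine or_iff_not_imp_right.2 fun h U hne hU E hE => ?_
  have hC := Fus2.isNK_nkSystem F hU.1 ⊥ _ rfl
  refine (Fus2.IsNK.constrained_iff hS hF hU (Fus2.isNormalizerSystem_iff.1 hE) le_rfl
    (Fus2.isNormal_normalizer hE hU.1) hC).2 (Fus2.IsNK.isConstrained_of_order_p hS hF
      (fun X hX hc => ?_) (Fus.sat_centralized hS hF hU) hne hC)
  have hD := Fus2.isCentralizerSystem_centralizerSystem F hX.1
  exact (Fus2.isConstrained_iff_no_component (Fus.isPGroup_of_le hS (Fus.centralizerIn_le _))
    (Fus2.centralizer_saturated hS hF (Fus.sat_centralized hS hF hX) hD)).2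
      fun hc' => h ⟨X, hc, hX, _, hD, hc'⟩

end Cfsg.Agent.S5152
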