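import Cfsg.Statements.S5153
import Cfsg.Agent.Lib.Fus2.Inv
import Cfsg.Agent.Lib.Fus.Centric

set_option autoImplicit false
open Cfsg

namespace Cfsg.Agent.S5153

theorem aux {Ω : Type*} [Group Ω] {p : ℕ} {T S : Subgroup Ω} {E : Cfsg.FusionSystem T}
    {F : Cfsg.FusionSystem S} (hE : E.IsSubnormalIn F p) : ∀ [Finite S] [Fact p.Prime],
    IsPGroup p S → F.IsSaturated p → ∀ P, P ≤ T → F.IsFullyNormalized P →
      E.IsFullyNormalized P := by
  induction hE with
  | refl F p => exact fun _ _ P _ hP => hP
  | @step U S E D F p hED hD ih =>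
    intro _ _ hS hF P hPT hP
    have hi := Fus2.invM_of_isNormalIn hD
    have := Fus2.finite_of_le hi.le
    exact ih (Fus.isPGroup_of_le hS hi.le) hD.1.1 P hPT
      (Fus.isFullyNormalized_sub_of_sc hS hF hi.sc hi.isSubsystemOf
        (hPT.trans (Fus2.le_of_isSubsystemOf (Fus2.subnormal_isSubsystemOf hED))) hP)


/-- Let F be a saturated fusion system over a finite p-group S and E a subnormal subsystem of F over T. Then every subgroup of T that is fully normalized in F is fully normalized in E. -/
theorem result {Ω : Type*} [Group Ω] {S : Subgroup Ω} [Finite S] (p : ℕ) [Fact p.Prime] (hS : IsPGroup p S) (F : Cfsg.FusionSystem S) (hF : F.IsSaturated p) {T : Subgroup Ω} (E : Cfsg.FusionSystem T) (hE : E.IsSubnormalIn F p) (P : Subgroup Ω) (hPT : P ≤ T) (hP : F.IsFullyNormalized P) : E.IsFullyNormalized P := by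
  exact aux hE hS hF P hPT hP

end Cfsg.Agent.S5153
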