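import Cfsg.Statements.S5176
import Cfsg.Agent.Lib.WQ.CaseB

set_option autoImplicit false
universe u
open Cfsg

namespace Cfsg.Agent.S5176

/-- The fusion-system form of the standard form problem for SL(2, q), q odd. Let F be a simple saturated fusion system over a finite 2-group S and let R ≤ S be generalized quaternion of order at least 16. Suppose R is weakly closed in S with respect to F, and R is strongly closed in the centralizer system C_F(⟨y⟩) for every involution y of C_S(R). Then either F is the 2-fusion system of PSL(3, q) or of G₂(q) for some odd q (realized by an injective homomorphism of S onto a Sylow 2-subgroup), or S contains a quasi-dihedral subgroup that is strongly closed in F. -/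
theorem result {Ω : Type u} [Group Ω] {S : Subgroup Ω} [Finite S] (hS : IsPGroup 2 S)
    (F : Cfsg.FusionSystem S) (hF : F.IsSimple 2)
    (R : Subgroup Ω) (hRS : R ≤ S) (k : ℕ) (hk : 2 ≤ k) (eR : ↥R ≃* QuaternionGroup (2 ^ k))
    (hW : F.WeaklyClosed R)
    (hC : ∀ y ∈ Cfsg.FusionSystem.centralizerIn S R, orderOf y = 2 →
      ∀ C : Cfsg.FusionSystem (Cfsg.FusionSystem.centralizerIn S (Subgroup.zpowers y)),
        F.IsCentralizerSystem (Subgroup.zpowers y) C → C.StronglyClosed R) :
    (∃ (K : Type) (_ : Field K) (_ : Fintype K), Odd (Fintype.card K) ∧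
        ((∃ ι : ↥S →* Matrix.ProjectiveSpecialLinearGroup (Fin 3) K, F.IsRealizedBy ι ∧
            ∃ T : Sylow 2 (Matrix.ProjectiveSpecialLinearGroup (Fin 3) K),
              (T : Subgroup (Matrix.ProjectiveSpecialLinearGroup (Fin 3) K)) = ι.range) ∨
         (∃ ι : ↥S →* ↥(Cfsg.Lie.G2 K), F.IsRealizedBy ι ∧
            ∃ T : Sylow 2 ↥(Cfsg.Lie.G2 K), (T : Subgroup ↥(Cfsg.Lie.G2 K)) = ι.range))) ∨
      ∃ P : Subgroup Ω, P ≤ S ∧ Cfsg.IsQuasiDihedral ↥P ∧ F.StronglyClosed P := by
  obtain ⟨X⟩ := WQ.exists_ctx hS hF.1 hRS hk eR hW hC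
  exact X.main hF

end Cfsg.Agent.S5176
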