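import Cfsg.Statements.S5196
import Cfsg.Agent.Lib.ZJ.Agemo

set_option autoImplicit false
universe u
open Cfsg

namespace Cfsg.Agent.S5196

/-- Let p be an odd prime and W a positive characteristic p-functor: W assigns to every finite p-group Q (in a fixed universe) a subgroup W(Q), nontrivial when Q is, carried to W(R) by every isomorphism Q ≅ R; assume also Z(Q) ≤ W(Q) for every finite p-group Q. Suppose W satisfies the local condition: for every finite group G with Sylow p-subgroup P, O_p(G) ∩ Z(G) = O_p(G) ∩ Z(N_G(W(P))). Then W controls weak closure of elements in every saturated fusion system F over a finite p-group S: the centre of the normalizer fusion system of W(S) in F equals the centre of F. (For p = 2 no functor satisfies the local condition, so p is taken odd.) -/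
theorem result {p : ℕ} [Fact p.Prime] (hp : p ≠ 2) (W : ∀ (Q : Type u) [Group Q], Subgroup Q) (hW1 : ∀ (Q : Type u) [Group Q] [Finite Q], IsPGroup p Q → Nontrivial Q → W Q ≠ ⊥) (hW2 : ∀ (Q R : Type u) [Group Q] [Group R] [Finite Q], IsPGroup p Q → ∀ φ : Q ≃* R, (W Q).map φ.toMonoidHom = W R) (hWZ : ∀ (Q : Type u) [Group Q] [Finite Q], IsPGroup p Q → Subgroup.center Q ≤ W Q) (hC : ∀ (G : Type u) [Group G] [Finite G] (P : Sylow p G), Cfsg.pCore p G ⊓ Subgroup.center G = Cfsg.pCore p G ⊓ (Subgroup.center ↥(Subgroup.normalizer (((W ↥(P : Subgroup G)).map (P : Subgroup G).subtype : Subgroup G) : Set G))).map (Subgroup.normalizer (((W ↥(P : Subgroup G)).map (P : Subgroup G).subtype : Subgroup G) : Set G)).subtype) {Ω : Type u} [Group Ω] {S : Subgroup Ω} [Finite S] (hS : IsPGroup p S) (F : Cfsg.FusionSystem S) (hF : F.IsSaturated p) (N : Cfsg.FusionSystem (Cfsg.FusionSystem.normalizerIn S ((W ↥S).map S.subtype))) (hN : F.IsNormalizerSystem ((W ↥S).map S.subtype) N) : N.center = F.center := by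
  let W' : ZJF.PFun.{u} p := ⟨W, hW1, hW2⟩
  refine le_antisymm (fun z hz => ?_) (ZJF.center_le_center_normalizer hS hF
    (Fus.isFullyNormalized_of_normal (W'.w_le S) (W'.le_normalizer hS)) hN)
  obtain ⟨hzS, hzc⟩ := ZJF.central_of_mem_center_normalizer (W'.normalizerIn_w hS) hz
  refine ZJF.center_le_center_of hS hF hN hz (ZJF.center_eq_of_local (W := W') hWZ
    (Φ := fun _ => True) (fun _ _ _ _ _ _ _ _ _ => trivial) (fun _ _ _ _ _ _ _ _ _ _ _ => trivial)
    ?_ hS hF trivial hzS hzc)
  intro Ω _ S _ F hS hF _ G _ _ ι hG P z hz hzP hN g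
  have hzN : z ∈ Subgroup.normalizer (W'.w (P : Subgroup G) : Set G) :=
    W'.le_normalizer P.isPGroup' (Fit.pCore_le_sylow P hz)
  have h1 : z ∈ Cfsg.pCore p G ⊓ Subgroup.center G := by
    rw [hC G P]
    exact ⟨hz, ⟨z, hzN⟩, Subgroup.mem_center_iff.2 fun g =>
      Subtype.ext (mul_inv_eq_iff_eq_mul.1 (hN g g.2)), rfl⟩
  rw [Subgroup.mem_center_iff.1 h1.2 g, mul_inv_cancel_right]

end Cfsg.Agent.S5196
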