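import Cfsg.Statements.S5200
import Cfsg.Agent.Lib.Asch.Prod
import Cfsg.Agent.Lib.Asch.Cent2
import Cfsg.Agent.Lib.ZJ.Glaub

set_option autoImplicit false
open Cfsg

namespace Cfsg.Agent.S5200

open Cfsg.FusionSystem Cfsg.Agent.Fus2 Cfsg.Agent.Asch Cfsg.Agent.ZJF

theorem exists_avg {Γ V : Type*} [Group Γ] [Finite Γ] [CommGroup V]
    (ρ : Γ → V →* V) (hρ : ∀ g h v, ρ (g * h) v = ρ g (ρ h v)) (U : Subgroup Γ) (W : Subgroup V)
    {v : V} (hv : ∀ u ∈ U, ρ u v = v) (h : ∀ g, v⁻¹ * ρ g v ∈ W) :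
    ∃ w, (∀ g, ρ g w = w) ∧ (v ^ U.index)⁻¹ * w ∈ W := by
  classical
  have := Fintype.ofFinite (Γ ⧸ U)
  refine ⟨∏ q : Γ ⧸ U, ρ q.out v, fun g => ?_, ?_⟩
  · simp only [map_prod]
    refine Fintype.prod_equiv (MulAction.toPerm g) _ _ fun q => ?_
    obtain ⟨u, hu⟩ := QuotientGroup.mk_out_eq_mul U (g * q.out)
    rw [MulAction.toPerm_apply, ← MulAction.Quotient.mk_smul_out, smul_eq_mul, hu, hρ _ u, hv u u.2,
      hρ]
  · have : (v ^ U.index)⁻¹ * ∏ q : Γ ⧸ U, ρ q.out v = ∏ q : Γ ⧸ U, v⁻¹ * ρ q.out v := by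
      simp [Finset.prod_mul_distrib, Subgroup.index, Nat.card_eq_fintype_card]
    rw [this]
    exact W.prod_mem fun q _ => h _

open scoped IsMulCommutative in
theorem exists_center {Ω : Type*} [Group Ω] {S T : Subgroup Ω} [Finite S] {p : ℕ} [Fact p.Prime]
    (hp : p ≠ 2) (hS : IsPGroup p S) {F : FusionSystem S} (hF : F.IsSaturated p)
    (hT : F.focalSubgroup ≤ T) {x : Ω} (hx : x ∈ ZJ.Zc S) :
    ∃ m : ℕ, m.Coprime p ∧ ∃ y ∈ F.center, (x ^ m)⁻¹ * y ∈ T := by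
  have hJ := ZJ.J_le S
  have hV : ZJ.Zc (ZJ.J S) ≤ S := inf_le_left.trans hJ
  have := finite_of_le hJ
  have := finite_of_le hV
  have := ZJ.isMulCommutative_Zc (ZJ.J S)
  have hZ : ZJ.Zc S ≤ ZJ.Zc (ZJ.J S) := ZJ.Zc_le_ZJ S
  let ρ : F.autGroup (ZJ.J S) → ZJ.Zc (ZJ.J S) →* ZJ.Zc (ZJ.J S) := fun α =>
    MonoidHom.mk' (fun v => ⟨afn α.1 v, afn_mem_Zc α.1 v.2⟩) fun v w =>
      Subtype.ext ((homOn_afn α.1).map_mul v.2.1 w.2.1)
  have hs := Fus.sat_sylow hS hF (Fus.isFullyNormalized_of_normal hJ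
    (Subgroup.le_normalizer.trans (ZJ.normalizer_le_normalizer_J S)))
  obtain ⟨w, h1, h2⟩ := exists_avg ρ (fun g h v => Subtype.ext (afn_mul g.1 h.1 v))
    ((autInducedBy S (ZJ.J S)).subgroupOf _) (T.subgroupOf _) (v := ⟨x, hZ hx⟩)
    (fun u hu => Subtype.ext (by
      obtain ⟨s, hs, e⟩ := mem_autInducedBy_iff.1 hu
      exact (e x (hZ hx).1).trans (by rw [(mem_Zc.1 hx).2 s hs, mul_inv_cancel_right])))
    fun g => hT (mem_foc (Fus.M_afn hJ g.2) (hZ hx).1)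
  refine ⟨_, ((Nat.Prime.coprime_iff_not_dvd Fact.out).2 hs.not_dvd_relIndex).symm, w,
    (mem_center_iff_aut hS hF (Or.inl hp) (mem_Zc.2 ⟨hV w.2, fun s hs => ?_⟩)).2
      fun α hα => congrArg Subtype.val (h1 ⟨α, hα⟩), h2⟩
  have hn := ZJ.normalizer_le_normalizer_J S (Subgroup.le_normalizer hs)
  have := congrArg Subtype.val (h1 ⟨_, Fus.autInducedBy_le_autGroup hJ
    (Fus.conjAut_mem_autInducedBy hs hn)⟩)
  exact mul_inv_eq_iff_eq_mul.1 ((afn_conjAut hn w.2.1).symm.trans this)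

/-- Let F be a saturated fusion system over a finite p-group S and E a normal subsystem of F over T whose centralizer in S lies in T: every subgroup Y of C_S(T) such that E is contained in the centralizer fusion system of Y in F satisfies Y ≤ T. Then T·C_S(T)/T is abelian (the commutator subgroup of T·C_S(T) lies in T), and if p is odd then C_S(T) ≤ T. -/
theorem result {Ω : Type*} [Group Ω] {S : Subgroup Ω} [Finite S] (p : ℕ) [Fact p.Prime] (hS : IsPGroup p S) (F : Cfsg.FusionSystem S) (hF : F.IsSaturated p) {T : Subgroup Ω} (E : Cfsg.FusionSystem T) (hE : E.IsNormalIn F p) (hCE : ∀ Y : Subgroup Ω, Y ≤ Cfsg.FusionSystem.centralizerIn S T → (∀ C : Cfsg.FusionSystem (Cfsg.FusionSystem.centralizerIn S Y), F.IsCentralizerSystem Y C → E.IsSubsystemOf C) → Y ≤ T) : ⁅T ⊔ Cfsg.FusionSystem.centralizerIn S T, T ⊔ Cfsg.FusionSystem.centralizerIn S T⁆ ≤ T ∧ (p ≠ 2 → Cfsg.FusionSystem.centralizerIn S T ≤ T)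 := by
  have h := Asch.isNormalIn_iff.1 hE
  have hC : ∀ Y, Cent E F Y → Y ≤ T := fun Y hY => hCE Y hY.le fun C hC => (cent_iff_sub hC).1 hY
  have hn : ∀ s ∈ S, ∀ x ∈ T, s * x * s⁻¹ ∈ T := fun s hs x hx => sc_conj_mem h.sc hs hx
  have hcomm : ∀ X : Subgroup Ω, X ≤ S → ⁅X, X⁆ ≤ T → ⁅T ⊔ X, T ⊔ X⁆ ≤ T := fun X hX hc => by
    have hm := fun {x} => mem_sup_iff_of_le_normalizer (x := x) (hX.trans (sc_le_normalizer h.sc))
    rw [sup_comm, Subgroup.commutator_le]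
    intro a ha b hb
    obtain ⟨c, hc', t, ht, rfl⟩ := hm.1 ha
    obtain ⟨d, hd, u, hu, rfl⟩ := hm.1 hb
    have h1 := T.mul_mem (T.mul_mem (hn c (hX hc') t ht) (hn _ (S.mul_mem (hX hc') (hX hd)) _
      (T.mul_mem hu (T.inv_mem ht)))) (T.mul_mem (hc (Subgroup.commutator_mem_commutator hc' hd))
        (hn _ (hX hd) _ (T.inv_mem hu)))
    simpa [commutatorElement_def, mul_assoc] using h1
  refine ⟨hcomm _ inf_le_left ((commutator_le_foc (centralizerSystem F h.le)).trans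
    ((h.foc_le_cenE hS (isCentralizerSystem_centralizerSystem F h.le)).trans
      (hC _ (h.cent_cenE hS)))), fun hp x hx => ?_⟩
  have hX : Subgroup.zpowers x ≤ S := Subgroup.zpowers_le.2 hx.1
  have hR : T ⊔ Subgroup.zpowers x ≤ S := sup_le h.le hX
  have := finite_of_le hR
  have hRp := Fus.isPGroup_of_le hS hR
  obtain ⟨D, ⟨hD, hDF, hi⟩, -⟩ := h.exists_prod hS hR le_sup_left
  obtain ⟨m, hm, y, hy, h1⟩ := exists_center hp hRp hD (T := T) (x := x) (by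
    rw [foc_eq_hyp_sup hRp hD]
    exact sup_le hi.2.1 (hcomm _ hX (by
      rw [Subgroup.commutator_self_eq_bot_iff.2 inferInstance]; exact bot_le)))
    (mem_Zc.2 ⟨Subgroup.mem_sup_right (Subgroup.mem_zpowers x), fun s hs =>
      (sup_le (fun t ht => Subgroup.mem_centralizer_singleton_iff.2 (hx.2 t ht))
        (Subgroup.zpowers_le.2 (Subgroup.mem_centralizer_singleton_iff.2 rfl)) :
        _ ≤ Subgroup.centralizer {x}) hs x rfl |>.symm⟩)
  have hZ := isCentral_center D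
  have h2 : y ∈ T := hC D.center (fun P f hf => by
    obtain ⟨g, g1, g2, g3⟩ := (isCentral_iff.1 hZ).2 P f (Fus.M_of_le hi.1 hf)
    exact ⟨fun s hs => ⟨h.le (hf.le hs), fun z hz =>
      (isCentral_comm hZ hz (Subgroup.mem_sup_left (hf.le hs))).symm⟩,
      g, Fus.M_of_le hDF g1, g2, g3⟩) hy
  obtain ⟨k, hk⟩ := hS ⟨x, hx.1⟩
  refine mem_of_pow_mem_of_coprime (congrArg Subtype.val hk) hm ?_
  simpa using T.inv_mem (T.mul_mem h1 (T.inv_mem h2))

end Cfsg.Agent.S5200
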