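import Cfsg.Statements.S5201
import Cfsg.Agent.Lib.Fus.Envelope
import Cfsg.Agent.Lib.Asch.Cent2

set_option autoImplicit false
open Cfsg

namespace Cfsg.Agent.S5201

open Cfsg.Agent.Fus Cfsg.FusionSystem

open Cfsg.Agent.Fus2 Cfsg.Agent.Asch

/-- A reduction to normal subsystems. Let F be a saturated fusion system over a finite p-group S and E a normal subsystem of F over T whose centralizer in S lies in T (every subgroup Y of C_S(T) with E contained in the centralizer fusion system of Y in F satisfies Y ≤ T), and suppose Aut_F(T)/Aut_E(T) is p-solvable. Then F and E have the same residual limit: if F∞ is the residual limit of F (reached by alternately passing to the p-residual and the p'-residual subsystem until nothing changes) and E∞ that of E, then F∞ and E∞ have the same maps. -/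
theorem result {Ω : Type*} [Group Ω] {S : Subgroup Ω} [Finite S] (p : ℕ) [Fact p.Prime] (hS : IsPGroup p S) (F : Cfsg.FusionSystem S) (hF : F.IsSaturated p) {T : Subgroup Ω} (E : Cfsg.FusionSystem T) (hE : E.IsNormalIn F p) (hCE : ∀ Y : Subgroup Ω, Y ≤ Cfsg.FusionSystem.centralizerIn S T → (∀ C : Cfsg.FusionSystem (Cfsg.FusionSystem.centralizerIn S Y), F.IsCentralizerSystem Y C → E.IsSubsystemOf C) → Y ≤ T) [hn : ((E.autGroup T).subgroupOf (F.autGroup T)).Normal] (hsolv : Cfsg.IsPSolvable p (↥(F.autGroup T) ⧸ (E.autGroup T).subgroupOf (F.autGroup T))) {U V : Subgroup Ω} (Finf : Cfsg.FusionSystem U) (hFinf : Finf.IsResidualLimitOf F p) (Einf : Cfsg.FusionSystem V) (hEinf : Einf.IsResidualLimitOf E p) : ∀ P : Subgroup Ω, Finf.Hom P = Einf.Hom P := by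
  have h := Asch.isNormalIn_iff.1 hE
  have hC : cenE p E F ≤ T := hCE _ cenE_le fun C hC => (cent_iff_sub hC).1 (h.cent_cenE hS)
  obtain ⟨U, F₀, rfl, h1, h2, h3, -, h5⟩ := env_of_pChain
    (pChain_of_isPSolvable (autGroup_mono hE.1.2.2.1 T) hsolv) hS hE le_rfl
  have hU := h1.1.2.2.2.1.1
  have := Fus.finite_of_le hU
  have hUp := isPGroup_of_le hS hU
  have hI := isInvariantIn_of_le hUp h1.1.1 hE.1.2.2 h2 h1.1.2.2.1
  have hW := Asch.isWeaklyNormalIn_iff.1 ⟨hE.1.1, h1.1.1, hI⟩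
  have hfull : ∀ P f, P ≤ T → M F₀ P f → M E P f := fun P f hP hf =>
    (IsInvariantIn_frattini hI).M_of_top h3.le hP hf
  have hfoc : F₀.focalSubgroup ≤ T := foc_le_iff.2 (hW.fr_induction hUp
    (C := fun P f => ∀ x ∈ P, x⁻¹ * f x ∈ T)
    ⟨fun P Q f _ h hQ x hx => h x (hQ hx), fun P f g h e x hx => e x hx ▸ h x hx,
      fun P Q f g _ _ h h' e x hx => by simpa [mul_assoc] using T.mul_mem (h x hx) (h' _ (e x hx)),
      fun P f g hf h _ e y hy => by
        obtain ⟨x, hx, rfl⟩ := hf.homOn.mem_img.1 hy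
        simpa [e x hx] using T.inv_mem (h x hx)⟩
    (fun P f hf hTP x hx => by
      obtain ⟨b, hb, e, hc⟩ := h.ext f (hfull _ _ le_rfl (hf.mono hTP))
      obtain ⟨g, hg, -, e1, e2, e3⟩ := hb.inv' (hb.img_eq_self (M.maps_sup_centralizerIn hb
        fun x hx => hb.mem_of_sc h.sc (Subgroup.mem_sup_left hx) hx))
      have hf' := M_of_le h1.1.2.2.1 hf
      obtain ⟨c, hc', u, hu, rfl⟩ := mem_sup_centralizerIn_iff.1 (hf.le hx)
      have hcP : c ∈ P := (P.mul_mem_cancel_right (hTP hu)).1 hx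
      have k1 := hC (h.mem_cenE_of_fix hS (hf'.comp hg fun x hx => hf.mem hx) hTP
        (fun x hx => by rw [← e x hx, e1 x (Subgroup.mem_sup_left hx)]) hcP hc')
      have k2 := hb.mem_of_sc h.sc (Subgroup.mem_sup_left k1) k1
      rw [hb.map_mul (Subgroup.inv_mem _ (Subgroup.mem_sup_right hc')) (e2 _ (hf.mem hcP)),
        e3 _ (hf.mem hcP), hb.map_inv (Subgroup.mem_sup_right hc')] at k2
      rw [hf.map_mul hcP (hTP hu)]
      simpa [mul_assoc] using T.mul_mem (T.mul_mem (T.inv_mem hu) (T.mul_mem (hc c hc') k2))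
        (hf'.mem_of_sc h.sc (hTP hu) hu))
    fun R g _ _ _ _ _ ht => ht.2)
  exact fun P => ((limit_sub_and_same hS hF hE.1.1 hE.1.2.2 (fun V X h6 h7 => h6.sub_of_pPower hUp
    (h5 V X h6 h7) (Biset.hasPPowerIndexIn_iff.2 ⟨h2, (hyp_le_foc _ _).trans hfoc,
      fun P hP α hα _ => (hfull _ _ hP (M_afn (hP.trans le_sup_left) hα)).mem_autGroup
        fun _ _ => rfl⟩)) hFinf).2 Einf hEinf P).symm

end Cfsg.Agent.S5201
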