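import Cfsg.Statements.S5210
import Cfsg.Agent.Lib.U4.Q3
import Cfsg.Agent.Lib.U4.Q2
import Cfsg.Agent.Lib.U4.Syl

set_option autoImplicit false
open Cfsg

namespace Cfsg.Agent.S5210

/-- Let p be a prime, K a finite field with q² elements where q = pⁿ (n ≥ 1), and S a finite p-group isomorphic to a Sylow p-subgroup of the projective special unitary group PSU₄(q) realised over K. Then every saturated fusion system F over S with no nontrivial normal subgroup (O_p(F) = 1) is realizable: it is the fusion system of a finite group on a Sylow p-subgroup. -/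
theorem result {Ω : Type*} [Group Ω] {S : Subgroup Ω} [Finite S] (p : ℕ) [Fact p.Prime] (hS : IsPGroup p S) (F : Cfsg.FusionSystem S) (hF : F.IsSaturated p) {K : Type*} [Field K] [Fintype K] [CharP K p] (n : ℕ) (hn : 1 ≤ n) (hK : Fintype.card K = (p ^ n) ^ 2) (T : Sylow p (Cfsg.PSU 4 K (p ^ n))) (e : ↥S ≃* ↥(T : Subgroup (Cfsg.PSU 4 K (p ^ n)))) (hcore : F.core = ⊥) : F.IsRealizable p := by
  exact U4.s5210_of U4.nrm (U4.mv U4.ess) (U4.l1 U4.ext) (U4.l2 U4.ext)
    (U4.std U4.model (U4.alp U4.ess U4.ext) (U4.cmp U4.ext)) U4.q2 U4.q3 U4.syl p hS F hF n hK T e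
    hcore

end Cfsg.Agent.S5210
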