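import Cfsg.Statements.S5212
import Cfsg.Agent.Lib.Ess.Small

set_option autoImplicit false
open Cfsg

namespace Cfsg.Agent.S5212

/-- Let S be a finite metacyclic 2-group that is not homocyclic abelian (a direct product of cyclic groups of one common order), not dihedral, not semidihedral and not generalized quaternion. Then every saturated fusion system over S is the inner fusion system of S. -/
theorem result {Ω : Type*} [Group Ω] {S : Subgroup Ω} [Finite S] (hS : IsPGroup 2 S) (F : Cfsg.FusionSystem S) (hF : F.IsSaturated 2) (hm : Cfsg.IsMetacyclic ↥S) (hh : ¬ ∃ n k : ℕ, Nonempty (↥S ≃* Multiplicative (Fin k → ZMod (2 ^ n)))) (hd : ¬ ∃ m : ℕ, Nonempty (↥S ≃* DihedralGroup m)) (hq : ¬ ∃ m : ℕ, Nonempty (↥S ≃* QuaternionGroup m)) (hsd : ¬ Cfsg.IsQuasiDihedral ↥S) : ∀ P : Subgroup Ω, F.Hom P = (Cfsg.innerFusionSystem S).Hom P := by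
  have hn : F.IsNormal S := by
    rcases Ess.isNormal_or_dqs hS hF (Fus2.sc_top F) hm with h | ⟨m, -, h⟩ | ⟨m, -, h⟩ | h
    exacts [h, absurd ⟨m, h⟩ hd, absurd ⟨m, h⟩ hq, absurd h hsd]
  have hA : IsPGroup 2 (F.autGroup S) := by
    refine (Ess.isPGroup_mulAut_of_not_irr hS (Ess.index_frattini_le_of_metacyclic hS hm)
      fun h => ?_).to_le le_top
    by_cases hc : ∀ x y : S, Commute x y
    · obtain ⟨k, -, e⟩ := h.exists_homocyclic hS hc
      exact hh ⟨_, _, e⟩
    · exact hq ⟨2, (h.q8_of_metacyclic hS hm hc).2⟩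
  rw [Fus.le_inner_of_no_essential hS hF (Fus.autGroup_top_eq_Inn_of_isPGroup hS hF hA).le
    ((Fus.isNormal_top_iff hS hF).1 hn)]
  exact fun _ => rfl

end Cfsg.Agent.S5212
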