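import Cfsg.Statements.S5215
import Cfsg.Agent.Lib.Rank2.Final

set_option autoImplicit false
open Cfsg

namespace Cfsg.Agent.S5215

open Cfsg.Agent.TwoGrp Cfsg.Agent.Tr

/-- Let S be a finite 2-group of 2-rank 2 (an elementary abelian subgroup of order 4, none of order 8) and F a simple saturated fusion system over S. Then S is dihedral, semidihedral or wreathed, and F is the fusion system of the projective special linear group PSL₂(q) for some odd prime power q ≡ ±1 (mod 8) or of PSL₃(q) for some odd prime power q: it is realized by an injective homomorphism of S into that group whose image is a Sylow 2-subgroup. -/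
theorem result {Ω : Type*} [Group Ω] {S : Subgroup Ω} [Finite S] (hS : IsPGroup 2 S) (F : Cfsg.FusionSystem S) (hF : F.IsSaturated 2) (hr : Cfsg.PRankAtLeast 2 2 ↥S ∧ ¬ Cfsg.PRankAtLeast 2 3 ↥S) (hsimple : F.IsSimple 2) : ((∃ m : ℕ, Nonempty (↥S ≃* DihedralGroup m)) ∨ Cfsg.IsQuasiDihedral ↥S ∨ Cfsg.IsWreathed ↥S) ∧ ∃ (K : Type) (_ : Field K) (_ : Fintype K) (q : ℕ), Fintype.card K = q ∧ Odd q ∧ (((q % 8 = 1 ∨ q % 8 = 7) ∧ ∃ ι : ↥S →* Matrix.ProjectiveSpecialLinearGroup (Fin 2) K, F.IsRealizedBy ι ∧ ∃ T : Sylow 2 (Matrix.ProjectiveSpecialLinearGroup (Fin 2) K), (T : Subgroup (Matrix.ProjectiveSpecialLinearGroup (Fin 2) K)) = ι.range) ∨ (∃ ι : ↥S →* Matrix.ProjectiveSpecialLinearGroup (Fin 3) K, F.IsRealizedBy ι ∧ ∃ T : Sylow 2 (Matrix.ProjectiveSpecialLinearGroup (Fin 3) K), (T : Subgroup (Matrix.ProjectiveSpecialLinearGroup (Fin 3) K)) = ι.range)) := by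
  have h2 : 2 < Nat.card S := lt_of_lt_of_le (by norm_num) (four_le_card hr.1)
  have hZ := center_eq_bot_of_simple hS hsimple h2
  rcases rank_two_cases hS hF hr hZ with h | ⟨n, hn, e, ⟨D⟩⟩ | h | h
  · exact absurd (eq_bot_of_simple hS hsimple h2 h) hsimple.2.1
  · obtain ⟨p, _, hp, h⟩ := realizedIn_psl2 hF D hn (DihF.conj_of_simple D hn hsimple)
    exact ⟨Or.inl ⟨_, e⟩, ZMod p, inferInstance, inferInstance, p, ZMod.card p,
      Nat.odd_iff.2 (by omega), Or.inl ⟨Or.inl hp, h⟩⟩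
  · obtain ⟨n, ⟨D⟩⟩ := exists_QD h
    obtain ⟨p, _, hp, h'⟩ := realizedIn_psl3_qd hF D (QDF.conj_of_center D hF hZ)
      (QDF.conj_of_simple D hsimple)
    exact ⟨Or.inr (Or.inl h), ZMod p, inferInstance, inferInstance, p, ZMod.card p, hp, Or.inr h'⟩
  · obtain ⟨n, ⟨D⟩⟩ := exists_Wr h
    obtain ⟨p, _, hp, h'⟩ := realizedIn_psl3_wr hF D (WrF.conj_of_center D hF hZ) (by
      by_contra h₂
      have h3 := eq_bot_of_simple hS hsimple h2 (WrF.isNormal_U D hF h₂)
      have h4 : D.r (hf n) 0 ∈ D.U := D.mem_U.2 ⟨_, _, rfl⟩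
      rw [h3, Subgroup.mem_bot, D.r_eq_one_iff] at h4
      exact D.h0 h4.1)
    exact ⟨Or.inr (Or.inr h), ZMod p, inferInstance, inferInstance, p, ZMod.card p, hp, Or.inr h'⟩

end Cfsg.Agent.S5215
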