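import Cfsg.Statements.S5217
import Cfsg.Agent.Lib.Bic.Fwd
import Cfsg.Agent.Lib.Bic.Bwd
import Cfsg.Agent.Lib.Fus2.Iso

set_option autoImplicit false
open Cfsg

namespace Cfsg.Agent.S5217

open Cfsg.Agent.Fus2 in
theorem inner_aux {Ω Ω' : Type*} [Group Ω] [Group Ω'] {S : Subgroup Ω} {S' : Subgroup Ω'}
    {a : Ω → Ω'} {b : Ω' → Ω} (h : GIso S S' a b) (P : Subgroup Ω) (f : Ω → Ω)
    (hf : M (innerFusionSystem S) P f) :
    ∃ g, M (innerFusionSystem S') (img P a) g ∧ ∀ x ∈ P, g (a x) = a (f x) := by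
  obtain ⟨hP, g, hg, e⟩ := M_inner_iff.1 hf
  refine ⟨fun y => a g * y * (a g)⁻¹, M_inner_iff.2 ⟨h.img_le hP, a g, h.mem g hg,
    fun _ _ => rfl⟩, fun x hx => ?_⟩
  rw [e x hx, h.hom _ (S.mul_mem hg (hP hx)) _ (S.inv_mem hg), h.hom _ hg _ (hP hx),
    h.hom.map_inv hg]

open Cfsg.Agent.Fus2 in
theorem transfer {Ω Ω' : Type*} [Group Ω] [Group Ω'] {S : Subgroup Ω} {S' : Subgroup Ω'}
    [Finite S] (hS : IsPGroup 2 S) {a : Ω → Ω'} {b : Ω' → Ω} (h : GIso S S' a b) :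
    (∃ F : FusionSystem S, F.IsSaturated 2 ∧ F ≠ innerFusionSystem S) →
      ∃ F : FusionSystem S', F.IsSaturated 2 ∧ F ≠ innerFusionSystem S' := by
  rintro ⟨F, hF, hne⟩
  obtain ⟨F', hF'⟩ := h.exists_isoM F
  refine ⟨F', hF'.saturated hS hF, fun e => hne ?_⟩
  subst e
  exact hF'.symm.unique (isoM_of_exists h.symm (inner_aux h.symm) (inner_aux h))

/-- Let S be a finite bicyclic 2-group (S = ⟨x⟩⟨y⟩) that is not metacyclic. Then S supports a saturated fusion system other than its inner fusion system if and only if the commutator subgroup of S is cyclic. -/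
theorem result {Ω : Type*} [Group Ω] {S : Subgroup Ω} [Finite S] (hS : IsPGroup 2 S) (hb : ∃ x y : ↥S, ∀ g : ↥S, ∃ i j : ℤ, g = x ^ i * y ^ j) (hm : ¬ Cfsg.IsMetacyclic ↥S) : (∃ F : Cfsg.FusionSystem S, F.IsSaturated 2 ∧ ¬ ∀ P : Subgroup Ω, F.Hom P = (Cfsg.innerFusionSystem S).Hom P) ↔ IsCyclic ↥(commutator ↥S) := by
  obtain ⟨x₀, y₀, hb⟩ := hb
  obtain ⟨x, y, h⟩ := Bic.exists_bic hS hm hb
  obtain ⟨b, hi⟩ : ∃ b, Fus2.GIso (⊤ : Subgroup S) S Subtype.val b :=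
    Fus2.exists_gIso (fun _ _ _ _ => rfl) (fun _ _ _ _ e => Subtype.ext e) (by
      rw [Fus2.img]
      simp)
  have hT : IsPGroup 2 (⊤ : Subgroup S) := hS.to_subgroup ⊤
  have := hi.finite
  constructor
  · rintro ⟨F, hF, hne⟩
    by_contra hn
    obtain ⟨F', hF', hne'⟩ := transfer hS hi.symm ⟨F, hF, fun e => hne fun P => e ▸ rfl⟩
    exact hne' (h.eq_inner hn hF')
  · intro hc
    obtain ⟨F, hF, hne⟩ := transfer hT hi (h.exists_ne_inner hc)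
    exact ⟨F, hF, fun e => hne (Fus.fs_ext e)⟩

end Cfsg.Agent.S5217
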