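import Cfsg.Statements.S5220
import Cfsg.Agent.Lib.ZJ.GenFoc

set_option autoImplicit false
open Cfsg

namespace Cfsg.Agent.S5220

/-- Let F be a saturated fusion system over a nontrivial finite p-group S, let J(S) be the subgroup generated by the abelian subgroups of S of largest order, and let V be the subgroup generated by the p-th powers of the elements of Z(S). Then F is generated by the centralizer fusion system of V and the normalizer fusion system of J(S): every fusion system over S containing the maps of both contains every map of F. -/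
theorem result {Ω : Type*} [Group Ω] {S : Subgroup Ω} [Finite S] (p : ℕ) [Fact p.Prime] (hS : IsPGroup p S) (F : Cfsg.FusionSystem S) (hF : F.IsSaturated p) (hS1 : S ≠ ⊥) (C : Cfsg.FusionSystem (Cfsg.FusionSystem.centralizerIn S (Cfsg.powerClosure p 1 (S ⊓ Subgroup.centralizer (S : Set Ω))))) (hC : F.IsCentralizerSystem (Cfsg.powerClosure p 1 (S ⊓ Subgroup.centralizer (S : Set Ω))) C) (N : Cfsg.FusionSystem (Cfsg.FusionSystem.normalizerIn S (Cfsg.thompsonSubgroupAOf S))) (hN : F.IsNormalizerSystem (Cfsg.thompsonSubgroupAOf S) N) (E : Cfsg.FusionSystem S) (hCE : C.IsSubsystemOf E) (hNE : N.IsSubsystemOf E) : F.IsSubsystemOf E := by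
  refine Fus2.isSubsystemOf_iff.2 (ZJF.le_of_agemo_J _ F E rfl hS hF le_rfl ?_ ?_)
  · intro P f hf h1 h2
    refine Fus2.isSubsystemOf_iff.1 hCE P f ((Fus2.M_centralizer_iff hC).2 ⟨fun x hx =>
      ⟨hf.le hx, fun y hy => ((ZJF.powerClosure_le _ hy).2 x (hf.le hx)).symm⟩, f,
      (sup_eq_left.2 h1).symm ▸ hf, fun _ _ => rfl, h2⟩)
  · exact (ZJF.good_iff_isNK (Fus2.isNormalizerSystem_iff.1 hN)).2 (Fus2.isSubsystemOf_iff.1 hNE)

end Cfsg.Agent.S5220
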