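import Cfsg.Statements.S5222
import Cfsg.Agent.Lib.ZJ.Tate2

set_option autoImplicit false
open Cfsg

namespace Cfsg.Agent.S5222

/-- Let F be a saturated fusion system over a finite p-group S whose normalizer fusion system of S is the inner fusion system of S (Aut_F(S) is a p-group). Then for every subgroup Q of S with [S, S] ≤ Q ≤ Φ(S), the normalizer fusion system of Q in F is the inner fusion system of N_S(Q) = S. -/
theorem result {Ω : Type*} [Group Ω] {S : Subgroup Ω} [Finite S] (p : ℕ) [Fact p.Prime] (hS : IsPGroup p S) (F : Cfsg.FusionSystem S) (hF : F.IsSaturated p) (hN : ∀ N : Cfsg.FusionSystem (Cfsg.FusionSystem.normalizerIn S S), F.IsNormalizerSystem S N → ∀ P : Subgroup Ω, N.Hom P = (Cfsg.innerFusionSystem (Cfsg.FusionSystem.normalizerIn S S)).Hom P) (Q : Subgroup Ω) (h1 : (commutator ↥S).map S.subtype ≤ Q) (h2 : Q ≤ (frattini ↥S).map S.subtype) : ∀ N : Cfsg.FusionSystem (Cfsg.FusionSystem.normalizerIn S Q), F.IsNormalizerSystem Q N → ∀ P : Subgroup Ω, N.Hom P = (Cfsg.innerFusionSystem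 (Cfsg.FusionSystem.normalizerIn S Q)).Hom P := by
  have hQS : Q ≤ S := h2.trans (Subgroup.map_subtype_le _)
  rw [Subgroup.map_subtype_commutator] at h1
  have hn : S ≤ Subgroup.normalizer (Q : Set Ω) :=
    Subgroup.le_normalizer_iff_commutator_le_left.2
      ((Subgroup.commutator_mono hQS le_rfl).trans h1)
  have hT : S = Cfsg.FusionSystem.normalizerIn S Q := (inf_eq_left.2 hn).symm
  obtain ⟨D, hD⟩ := ZJF.exists_normSys F hQS hT
  have hfn : F.IsFullyNormalized Q := Fus.isFullyNormalized_of_normal hQS hn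
  have hDs := ZJF.IsNK.sat_top hS hF hD hfn
  have hg := ZJF.good_inner_of_hom le_rfl hN
  have hI : ZJF.Inner D := ZJF.inner_of_sc hS hDs
    (Fus2.sc_of_isNormal (ZJF.IsNK.isNormal_top hD hQS)) h1 h2 fun f hf => by
      have hf' := Fus2.isSubsystemOf_iff.1 hD.isSubsystemOf _ _ hf
      exact hg S f hf' le_rfl Subgroup.le_normalizer fun x hx => hf'.mem hx
  exact ZJF.hom_eq_of_good ((ZJF.good_iff_isNK hD).2 hI)

end Cfsg.Agent.S5222
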