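import Cfsg.Statements.S5223
import Cfsg.Agent.Lib.Fus.Normal

set_option autoImplicit false
open Cfsg

namespace Cfsg.Agent.S5223

open Cfsg.Agent.Fus Cfsg.FusionSystem

open Cfsg.Agent.Fus2

/-- Let F be a saturated fusion system over a finite p-group S. Suppose there are subgroups Q₀ = S, Q₁, …, Qₙ = 1 (not required to be nested) such that for each i < n the focal subgroup of Qᵢ (generated by the elements x⁻¹φ(x), x ∈ Qᵢ, φ a map of F defined on the cyclic group generated by x) lies in Qᵢ₊₁. Then F is the inner fusion system of S. -/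
theorem result {Ω : Type*} [Group Ω] {S : Subgroup Ω} [Finite S] (p : ℕ) [Fact p.Prime] (hS : IsPGroup p S) (F : Cfsg.FusionSystem S) (hF : F.IsSaturated p) (n : ℕ) (Q : Fin (n + 1) → Subgroup Ω) (hQ0 : Q 0 = S) (hQn : Q (Fin.last n) = ⊥) (hstep : ∀ i : Fin n, Subgroup.closure {y : Ω | ∃ x ∈ Q i.castSucc, ∃ φ ∈ F.Hom (Subgroup.zpowers x), y = x⁻¹ * φ ⟨x, Subgroup.mem_zpowers x⟩} ≤ Q i.succ) : ∀ P : Subgroup Ω, F.Hom P = (Cfsg.innerFusionSystem S).Hom P := by
  intro P₀
  rw [eq_inner_of_isPGroup hS hF fun P hP α => ?_]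
  have := Fus.finite_of_le hP
  have hα := M_afn hP α.2
  let C : ℕ → Subgroup P := fun j => (⨅ i : Fin (n + 1), ⨅ _ : (i : ℕ) + j ≤ n, Q i).subgroupOf P
  have hC : ∀ j (x : P), x ∈ C j ↔ ∀ i : Fin (n + 1), (i : ℕ) + j ≤ n → (x : Ω) ∈ Q i := by
    intro j x
    simp [C, Subgroup.mem_subgroupOf, Subgroup.mem_iInf]
  obtain ⟨k, hk⟩ := exists_pow_eq_one_of_chain (isPGroup_of_le hS hP) (α := (α : MulAut P)) C n
    (fun j _ x hx => (hC _ x).2 fun i hi => (hC _ x).1 hx i (by omega))
    (eq_top_iff.2 fun x _ => (hC _ x).2 fun i hi => by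
      obtain rfl : i = 0 := Fin.ext (by rw [Fin.val_zero]; omega)
      rw [hQ0]
      exact hP x.2)
    (fun j _ x hx => (hC _ _).2 fun i hi => by
      induction i using Fin.cases with
      | zero => rw [hQ0]; exact hP (Subtype.prop _)
      | succ i =>
        refine hstep i (Subgroup.subset_closure ⟨x, (hC _ x).1 hx _ (by simp at hi ⊢; omega), _,
          (hα.mono (Subgroup.zpowers_le.2 x.2)).toHom_mem, ?_⟩)
        show _ = (x : Ω)⁻¹ * afn (α : MulAut P) x
        rw [afn_coe]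
        rfl)
    ⟨0, fun x hx => by
      have := (hC _ x).1 hx (Fin.last n) (by simp)
      rw [hQn, Subgroup.mem_bot] at this
      obtain rfl : x = 1 := Subtype.ext this
      simp⟩
  exact ⟨k, Subtype.ext hk⟩

end Cfsg.Agent.S5223
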