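import Cfsg.Statements.S5225
import Cfsg.Agent.Lib.Ess.Yoshida

set_option autoImplicit false
open Cfsg

namespace Cfsg.Agent.S5225

/-- Yoshida's Theorem for fusion systems. Let F be a saturated fusion system over a finite p-group S and N the normalizer fusion system of S in F. If the focal subgroups of F and N differ (N does not control transfer in F), then S has a quotient isomorphic to the wreath product C_p ≀ C_p (realised as a Sylow p-subgroup of the symmetric group of degree p²). -/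
theorem result {Ω : Type*} [Group Ω] {S : Subgroup Ω} [Finite S] (p : ℕ) [Fact p.Prime] (hS : IsPGroup p S) (F : Cfsg.FusionSystem S) (hF : F.IsSaturated p) (N : Cfsg.FusionSystem (Cfsg.FusionSystem.normalizerIn S S)) (hN : F.IsNormalizerSystem S N) (hne : N.focalSubgroup ≠ F.focalSubgroup) : ∃ (W : Sylow p (Equiv.Perm (Fin (p ^ 2)))) (f : ↥S →* ↥(W : Subgroup (Equiv.Perm (Fin (p ^ 2))))), Function.Surjective f := by
  have h₁ : ∀ f, Fus2.M F S f → ∀ x ∈ S, x⁻¹ * f x ∈ N.focalSubgroup := fun f hf x hx =>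
    Fus2.mem_foc (Fus2.M_normalizer_of hN hf le_rfl (Fus.le_normalizerIn le_rfl)
      (hf.img_eq_self fun x hx => hf.mem hx)) hx
  refine Ess.yoshida hS hF h₁ (Fus2.foc_le_iff.2 fun P f hf x hx => ?_) fun e =>
    hne (le_antisymm (Fus2.foc_mono (Fus2.normalizer_isSubsystemOf hN)) e)
  obtain ⟨hP, g, hg, e, -⟩ := (Fus2.M_normalizer_iff hN).1 hf
  obtain ⟨α, hα, e'⟩ := (hg.mono le_sup_right).exists_aut' fun x hx => hg.mem (Subgroup.mem_sup_right hx)
  rw [← e x hx, ← e' x (hP hx).1]
  exact Ess.autGroup_top_le hS hF (K := Fus2.trivMod S ((frattini S).map S.subtype ⊔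
    F.hyperfocalSubgroup p ⊓ N.focalSubgroup)) (fun β hβ y hy => by
    obtain ⟨s, hs, h₂⟩ := Fus.mem_Inn_iff.1 hβ
    rw [Fus2.afn_apply β hy, h₂, Ess.inv_mul_conj_eq]
    exact Subgroup.mem_sup_left (ZJF.commutator_le_map_frattini hS
      (Subgroup.commutator_mem_commutator (inv_mem hy) hs)))
    (fun β hβ hc y hy => Subgroup.mem_sup_right (Subgroup.mem_inf.2
      ⟨Fus2.mem_hyp_of_coprime le_rfl hβ hc hy, h₁ _ (Fus.M_afn le_rfl hβ) y hy⟩)) hα x (hP hx).1

end Cfsg.Agent.S5225
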