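import Cfsg.Statements.S5226
import Cfsg.Agent.Lib.Fus.Normal

set_option autoImplicit false
open Cfsg

namespace Cfsg.Agent.S5226

open Cfsg.Agent.Fus Cfsg.FusionSystem

/-- Let F be a saturated fusion system over a finite p-group S and Q a subgroup of S. Then Q is normal in F (F equals the normalizer system of Q) if and only if Q is strongly closed in F and admits a central series 1 = Q₀ ≤ Q₁ ≤ ⋯ ≤ Qₙ = Q ([Qᵢ₊₁, Q] ≤ Qᵢ) all of whose proper terms are weakly closed in F. -/
theorem result {Ω : Type*} [Group Ω] {S : Subgroup Ω} [Finite S] (p : ℕ) [Fact p.Prime] (hS : IsPGroup p S) (F : Cfsg.FusionSystem S) (hF : F.IsSaturated p) (Q : Subgroup Ω) : F.IsNormal Q ↔ F.StronglyClosed Q ∧ ∃ (n : ℕ) (C : Fin (n + 1) → Subgroup Ω), C 0 = ⊥ ∧ C (Fin.last n) = Q ∧ Monotone C ∧ (∀ i : Fin n, ⁅C i.succ, Q⁆ ≤ C i.castSucc) ∧ ∀ i : Fin n, F.WeaklyClosed (C i.castSucc) := by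
  constructor
  · intro hQ
    have := finite_of_le hQ.1
    obtain ⟨n, hn⟩ := exists_ucs_eq (isPGroup_of_le hS hQ.1)
    exact ⟨Fus2.sc_of_isNormal hQ, n, fun i => ucs Q i, ucs_zero, hn, fun i j h => ucs_mono h,
      fun i => ucs_commutator _, fun i => Fus2.sc_weaklyClosed
        (Fus2.sc_of_isNormal (Fus2.isNormal_of_char hQ (ucs_le _) (ucs_characteristic _)))⟩
  · rintro ⟨hQ, n, C, h0, hn, hmono, h, hw⟩
    refine isNormal_of_series hS hF hQ
      (fun i => if hi : i < n + 1 then C ⟨i, hi⟩ else Q) n (by simpa using h0)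
      (by simp only [Nat.lt_succ_self, dif_pos]; exact hn) (fun i hi => ?_) (fun i hi => ?_) fun i hi => ?_
    · simp only [Nat.succ_lt_succ hi, hi.trans (Nat.lt_succ_self n), dif_pos]
      exact hmono (Nat.le_succ i)
    · simp only [Nat.succ_lt_succ hi, hi.trans (Nat.lt_succ_self n), dif_pos]
      exact h ⟨i, hi⟩
    · simp only [hi.trans (Nat.lt_succ_self n), dif_pos]
      exact hw ⟨i, hi⟩

end Cfsg.Agent.S5226
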