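import Cfsg.Statements.S5227
import Cfsg.Agent.Lib.C1.EssA
import Cfsg.Agent.Lib.C1.EssB
import Cfsg.Agent.Lib.C1.Nrm
import Cfsg.Agent.Lib.C1.L4
import Cfsg.Agent.Lib.C1.Jne
import Cfsg.Agent.Lib.C1.E3
import Cfsg.Agent.Lib.C1.Sp
import Cfsg.Agent.Lib.C1.Leech
import Cfsg.Agent.Lib.C1.Final
-- import your own Cfsg.Agent.* helpers here

set_option autoImplicit false
open Cfsg

namespace Cfsg.Agent.S5227

/-- Let S be a finite 3-group isomorphic to a Sylow 3-subgroup of the Conway group Co₁ and F a saturated fusion system over S with no nontrivial normal subgroup (O₃(F) = 1). Then F is realizable: it is the fusion system of a finite group on a Sylow 3-subgroup. -/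
theorem result {Ω : Type*} [Group Ω] {S : Subgroup Ω} [Finite S] (hS : IsPGroup 3 S) (F : Cfsg.FusionSystem S) (hF : F.IsSaturated 3) [Fact (Nat.Prime 3)] (T : Sylow 3 Cfsg.Spor.Co1) (e : ↥S ≃* ↥(T : Subgroup Cfsg.Spor.Co1)) (hcore : F.core = ⊥) : F.IsRealizable 3 := by
  exact C1.s5227_of C1.essA C1.essB C1.nrm C1.l1 C1.l2 C1.l4 C1.l12 C1.jne C1.e3 C1.syl C1.sp
    C1.leech hS F hF T e hcore

end Cfsg.Agent.S5227
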