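import Cfsg.Statements.S5233
import Cfsg.Agent.Lib.Ess.GenEx

set_option autoImplicit false
open Cfsg

namespace Cfsg.Agent.S5233

/-- Let F be a saturated fusion system over a finite p-group S and P a subgroup of S strongly closed in F that is generalized extraspecial (its Frattini subgroup equals its commutator subgroup and has order p) and not isomorphic to E × A with A elementary abelian and E dihedral of order 8 (p = 2) or extraspecial of order p³ and exponent p (p odd). Then P is normal in F. -/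
theorem result {Ω : Type*} [Group Ω] {S : Subgroup Ω} [Finite S] (p : ℕ) [Fact p.Prime] (hS : IsPGroup p S) (F : Cfsg.FusionSystem S) (hF : F.IsSaturated p) (P : Subgroup Ω) (hP : F.StronglyClosed P) (hge : frattini ↥P = commutator ↥P ∧ Nat.card ↥(commutator ↥P) = p) (h2 : p = 2 → ¬ ∃ (A : Type) (_ : CommGroup A), (∀ a : A, a ^ 2 = 1) ∧ Nonempty (↥P ≃* DihedralGroup 4 × A)) (hodd : p ≠ 2 → ¬ ∃ (E : Type) (_ : Group E) (A : Type) (_ : CommGroup A), Cfsg.IsExtraspecial p E ∧ Nat.card E = p ^ 3 ∧ Monoid.exponent E = p ∧ (∀ a : A, a ^ p = 1) ∧ Nonempty (↥P ≃* E × A)) : F.IsNormal P := by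
  obtain h | ⟨K, A, _, _, hK, hn, h₁, h₂, hA, ⟨e⟩⟩ :=
    Ess.isNormal_or_prod_of_genEx hS hF hP hge.1 hge.2
  · exact h
  by_cases hp : p = 2
  · obtain ⟨e'⟩ := h₂ hp
    exact absurd ⟨A, inferInstance, hp ▸ hA, ⟨e.trans (MulEquiv.prodCongr e' (MulEquiv.refl _))⟩⟩
      (h2 hp)
  · obtain ⟨E, _, _, hE, hc, ⟨e'⟩⟩ := Ess.exists_shrink_extraspecial hK hn
    have : Nontrivial E := Finite.one_lt_card_iff_nontrivial.1
      (hc ▸ Nat.one_lt_pow (by norm_num) (Fact.out : p.Prime).one_lt)
    refine absurd ⟨E, inferInstance, A, inferInstance, hE, hc,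
      (Monoid.exponent_eq_prime_iff Fact.out).2 fun g hg => orderOf_eq_prime ?_ hg, hA,
      ⟨e.trans (MulEquiv.prodCongr e' (MulEquiv.refl _))⟩⟩ (hodd hp)
    rw [← e'.apply_symm_apply g, ← map_pow, h₁ hp, map_one]

end Cfsg.Agent.S5233
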