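import Cfsg.Statements.S5236
import Cfsg.Agent.Lib.Fus.BGH

set_option autoImplicit false
open Cfsg

namespace Cfsg.Agent.S5236

open Cfsg.Agent.Fus Cfsg.FusionSystem

open Cfsg.Agent.Fus2

theorem omegaOne_le {Ω : Type*} [Group Ω] (p : ℕ) (P : Subgroup Ω) : omegaOne p P ≤ P :=
  (Subgroup.closure_le _).2 fun _ hx => hx.1

theorem afn_mem_omegaOne {Ω : Type*} [Group Ω] {p : ℕ} {P : Subgroup Ω} (α : MulAut P) {x : Ω}
    (hx : x ∈ omegaOne p P) : afn α x ∈ omegaOne p P := by
  induction hx using Subgroup.closure_induction with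
  | mem y hy => exact Subgroup.subset_closure ⟨afn_mem α hy.1, by
      rw [← (homOn_afn α).map_pow hy.1, hy.2, (homOn_afn α).map_one]⟩
  | one => rw [(homOn_afn α).map_one]; exact Subgroup.one_mem _
  | mul y z hy hz ihy ihz =>
    rw [(homOn_afn α).map_mul (omegaOne_le p P hy) (omegaOne_le p P hz)]
    exact Subgroup.mul_mem _ ihy ihz
  | inv y hy ih => rw [(homOn_afn α).map_inv (omegaOne_le p P hy)]; exact Subgroup.inv_mem _ ih

/-- Let p be an odd prime, F a saturated fusion system over a finite p-group S and P a subgroup of S strongly closed in F. Then P is normal in F if and only if Ω₁(P) (the subgroup generated by the elements of order p of P) has a chain of subgroups 1 = Q₀ ≤ Q₁ ≤ ⋯ ≤ Qₙ = Ω₁(P), each strongly closed in F, with [Qᵢ₊₁, P] ≤ Qᵢ for all i. -/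
theorem result {Ω : Type*} [Group Ω] {S : Subgroup Ω} [Finite S] (p : ℕ) [Fact p.Prime] (hS : IsPGroup p S) (F : Cfsg.FusionSystem S) (hF : F.IsSaturated p) (hp : p ≠ 2) (P : Subgroup Ω) (hP : F.StronglyClosed P) : F.IsNormal P ↔ ∃ (n : ℕ) (Q : Fin (n + 1) → Subgroup Ω), Q 0 = ⊥ ∧ Q (Fin.last n) = Cfsg.omegaOne p P ∧ Monotone Q ∧ (∀ i : Fin (n + 1), F.StronglyClosed (Q i)) ∧ ∀ i : Fin n, ⁅Q i.succ, P⁆ ≤ Q i.castSucc := by
  have := Fus.finite_of_le hP.1
  constructor
  · intro hN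
    obtain ⟨n, hn⟩ := exists_ucs_eq (isPGroup_of_le hS hP.1)
    refine ⟨n, fun i => omegaOne p P ⊓ ucs P i, by simp [ucs_zero], ?_,
      fun i j hij => inf_le_inf_left _ (ucs_mono hij), fun i => ?_, fun i => le_inf ?_ ?_⟩
    · simp only [Fin.val_last, hn]
      exact inf_eq_left.2 (omegaOne_le p P)
    · refine stronglyClosed_iff_isConjElt.2 ⟨(inf_le_right.trans (ucs_le _)).trans hP.1,
        fun x hx y hxy => ?_⟩
      obtain ⟨f, hf, rfl⟩ := isConjElt_iff.1 hxy
      have hxP := omegaOne_le p P hx.1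
      obtain ⟨α, -, e⟩ := exists_aut_of_isNormal hN (Subgroup.zpowers_le.2 hxP) hf
      rw [← e x (Subgroup.mem_zpowers x)]
      exact ⟨afn_mem_omegaOne α hx.1, mem_of_char (ucs_characteristic _) α hxP hx.2⟩
    · refine Subgroup.commutator_le.2 fun x hx g hg => ?_
      have h1 := afn_mem_omegaOne (conjAut P g (Subgroup.le_normalizer hg)) (Subgroup.inv_mem _ hx.1)
      rw [afn_conjAut _ (P.inv_mem (omegaOne_le p P hx.1))] at h1
      have := Subgroup.mul_mem _ hx.1 h1
      simpa [commutatorElement_def, mul_assoc] using this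
    · exact (Subgroup.commutator_mono inf_le_right le_rfl).trans (ucs_commutator _)
  · rintro ⟨n, Q, h0, hn, hmono, hsc, hcomm⟩
    refine (isNormal_iff_sc_le_cr hS hF).2 ⟨hP, fun R hc hr => ?_⟩
    refine le_of_conjAut_mem_autCore hS hc hr hP.1 (hc.1.trans (sc_le_normalizer hP))
      fun g hg hN => ?_
    have hinv : ∀ β ∈ F.autGroup R, ∀ x ∈ R, x ∈ R ⊓ P → afn β x ∈ R ⊓ P := fun β hβ x hx hx' =>
      ⟨afn_mem β hx, afn_mem_of_sc hc.1 hβ hP hx hx'.2⟩
    refine mem_autCore_of_small hS hc.1 hinv (L := trivMod R (R ⊓ P))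
      (fun β hβ γ hγ => conj_mem_trivMod (hinv β hβ) inf_le_left hγ)
      (fun β _ hβ => ⟨0, by simpa using hβ⟩) (fun i => Q ⟨min i n, by omega⟩) n
      (fun i hi => hmono (Fin.mk_le_mk.2 (by omega))) (by simpa using h0)
      (fun x _ hx hq => ?_) (fun β hβ i _ x hx _ _ hi => afn_mem_of_sc hc.1 hβ (hsc _) hx hi)
      (conjAut_mem_autGroup hc.1 (hP.1 hg) hN) (fun x hx => ?_) fun i hi x hx _ _ hi' => ?_
    · rw [smallExp_of_ne hp] at hq
      have : (⟨min n n, by omega⟩ : Fin (n + 1)) = Fin.last n := Fin.ext (by simp)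
      rw [this, hn]
      exact Subgroup.subset_closure ⟨hx.2, hq⟩
    · refine ⟨R.mul_mem (R.inv_mem hx) (afn_mem _ hx), ?_⟩
      rw [afn_conjAut hN hx]
      have := P.mul_mem (sc_conj_mem hP (S.inv_mem (hc.1 hx)) hg) (P.inv_mem hg)
      simpa [mul_assoc] using this
    · rw [afn_conjAut hN hx]
      have e1 : (⟨min (i + 1) n, by omega⟩ : Fin (n + 1)) = (⟨i, hi⟩ : Fin n).succ :=
        Fin.ext (by simp; omega)
      have e2 : (⟨min i n, by omega⟩ : Fin (n + 1)) = (⟨i, hi⟩ : Fin n).castSucc :=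
        Fin.ext (by simp; omega)
      rw [e1] at hi'
      rw [e2]
      have := hcomm ⟨i, hi⟩ (Subgroup.commutator_mem_commutator (Subgroup.inv_mem _ hi') hg)
      simpa [commutatorElement_def, mul_assoc] using this

end Cfsg.Agent.S5236
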