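import Cfsg.Statements.S5237
import Cfsg.Agent.Lib.ST4.Nqs
import Cfsg.Agent.Lib.ST4.Int
import Cfsg.Agent.Lib.ST4.B1
import Cfsg.Agent.Lib.ST4.Base
import Cfsg.Agent.Lib.ST4.Final

set_option autoImplicit false
open Cfsg

namespace Cfsg.Agent.S5237

/-- Let S be a nontrivial finite 2-group (p = 2). Then S has a nontrivial characteristic subgroup W that is normal in every saturated fusion system over S that is S₄-free (the symmetric group of degree 4 is not involved in any model of the normalizer system of a fully normalized centric subgroup). -/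
theorem result {Ω : Type*} [Group Ω] {S : Subgroup Ω} [Finite S] (hS : IsPGroup 2 S) (hS1 : S ≠ ⊥) : ∃ W : Subgroup Ω, W ≤ S ∧ W ≠ ⊥ ∧ (W.subgroupOf S).Characteristic ∧ ∀ F : Cfsg.FusionSystem S, F.IsSaturated 2 → F.IsSectionFree 2 (Equiv.Perm (Fin 4)) → F.IsNormal W := by
  exact ST4.s5237_of (ST4.inh (ST4.tl (ST4.int ST4.base))) (ST4.nqs (ST4.tl (ST4.int ST4.base)))
    (ST4.b1 (ST4.int ST4.base)) hS hS1

end Cfsg.Agent.S5237
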