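import Cfsg.Statements.S5243
import Cfsg.Agent.Lib.Fus.PChar

set_option autoImplicit false
open Cfsg

namespace Cfsg.Agent.S5243

open Cfsg.Agent.Fus Cfsg.FusionSystem

open Cfsg.Agent.Fus2

/-- Let F be a saturated fusion system over a finite p-group S, E a normal subsystem of F over T ≤ S, and χ a surjective homomorphism from Aut_F(T) onto a nontrivial finite group Δ of order prime to p whose kernel contains Aut_E(T). Then there is a proper normal subsystem F₀ of F over S containing E such that Aut_{F₀}(S) consists of those α ∈ Aut_F(S) whose restriction to T is an element of Aut_F(T) in the kernel of χ; moreover every p'-residual subsystem O^{p'}(F) of F is contained in F₀. -/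
theorem result {Ω : Type*} [Group Ω] {S : Subgroup Ω} [Finite S] (p : ℕ) [Fact p.Prime] (hS : IsPGroup p S) (F : Cfsg.FusionSystem S) (hF : F.IsSaturated p) {T : Subgroup Ω} (hTS : T ≤ S) (E : Cfsg.FusionSystem T) (hE : E.IsNormalIn F p) {Δ : Type*} [Group Δ] [Finite Δ] [Nontrivial Δ] (hΔ : (Nat.card Δ).Coprime p) (χ : ↥(F.autGroup T) →* Δ) (hχ : Function.Surjective χ) (hker : (E.autGroup T).subgroupOf (F.autGroup T) ≤ χ.ker) : ∃ F₀ : Cfsg.FusionSystem S, F₀.IsNormalIn F p ∧ ¬ (∀ P : Subgroup Ω, F₀.Hom P = F.Hom P) ∧ E.IsSubsystemOf F₀ ∧ (∀ α : MulAut ↥S, α ∈ F₀.autGroup S ↔ α ∈ F.autGroup S ∧ ∃ β : ↥(F.autGroup T), χ β = 1 ∧ ∀ t : ↥T, (((β : MulAut ↥T) t : ↥T) : Ω) = ((α ⟨(t : Ω), hTS t.2⟩ : ↥S) : Ω)) ∧ ∀ R : Cfsg.FusionSystem S, F.IsPPrimeResidual p R → R.IsSubsystemOf F₀ := by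
  have hmem : ∀ {α : MulAut T}, α ∈ χ.ker.map (F.autGroup T).subtype ↔
      ∃ h : α ∈ F.autGroup T, χ ⟨α, h⟩ = 1 :=
    ⟨fun ⟨β, hβ, e⟩ => e ▸ ⟨β.2, hβ⟩, fun ⟨h, e⟩ => ⟨⟨_, h⟩, e, rfl⟩⟩
  obtain ⟨F₀, h1, h2, h3, h4⟩ := exists_primeToP_of_subgroup hS hE
    (Y := χ.ker.map (F.autGroup T).subtype) (Subgroup.map_subtype_le _)
    (fun α hα => hmem.2 ⟨autGroup_mono hE.1.2.2.1 T hα, hker hα⟩)
    (fun z hz y hy => by
      obtain ⟨hy, e⟩ := hmem.1 hy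
      exact ⟨⟨z, hz⟩ * ⟨y, hy⟩ * ⟨z, hz⟩⁻¹, χ.normal_ker.conj_mem _ e _, rfl⟩)
    fun α hα k hk => hmem.2 ⟨hα, by
      have e : χ ⟨α, hα⟩ ^ p ^ k = 1 := by
        rw [← map_pow, show (⟨α, hα⟩ : F.autGroup T) ^ p ^ k = 1 from Subtype.ext hk, map_one]
      exact orderOf_eq_one_iff.1 (Nat.eq_one_of_dvd_coprimes (hΔ.pow_right k)
        (orderOf_dvd_natCard _) (orderOf_dvd_of_pow_eq_one e))⟩
  refine ⟨F₀, h1, fun h => ?_, h3, fun α => ?_, fun R hR => hR.2.2 F₀ h1.1.1 h2⟩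
  · obtain ⟨d, hd⟩ := exists_ne (1 : Δ)
    obtain ⟨β, rfl⟩ := hχ d
    obtain ⟨-, γ, hγ, e⟩ := (h4 T _ le_rfl).1 ((Hom_eq_iff.1 (h T) _).2 (M_afn hTS β.2))
    obtain rfl := aut_ext e
    exact hd (hmem.1 hγ).2
  · rw [Fus2.mem_autGroup_iff le_rfl, Fus2.mem_autGroup_iff le_rfl, h4 S _ hTS]
    refine and_congr_right fun _ => ⟨fun ⟨β, hβ, e⟩ => ?_, fun ⟨β, hβ, e⟩ => ?_⟩
    · obtain ⟨hβ, e'⟩ := hmem.1 hβ
      exact ⟨⟨β, hβ⟩, e', fun t => by rw [← afn_coe, e t t.2, afn_apply _ (hTS t.2)]⟩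
    · exact ⟨β, hmem.2 ⟨β.2, hβ⟩, fun x hx => by
        rw [afn_apply _ hx, afn_apply _ (hTS hx)]; exact e ⟨x, hx⟩⟩

end Cfsg.Agent.S5243
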