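import Cfsg.Statements.S5248
import Cfsg.Agent.Lib.Fus.QuatReal

set_option autoImplicit false
open Cfsg

namespace Cfsg.Agent.S5248

open Cfsg.Agent.Fus Cfsg.FusionSystem

open Cfsg.Agent.TwoGrp Cfsg.Agent.QtF

/-- Let S be a finite 2-group that is dihedral of order at least 8, generalized quaternion of order at least 8, semidihedral, or wreathed, and let F be a saturated fusion system over S. Then F has at most two F-conjugacy classes of F-essential subgroups (among any three essential subgroups two are joined by a map of F), and F is realizable: it is the fusion system of a finite group on a Sylow 2-subgroup. -/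
theorem result {Ω : Type*} [Group Ω] {S : Subgroup Ω} [Finite S] (hS : IsPGroup 2 S) (F : Cfsg.FusionSystem S) (hF : F.IsSaturated 2) (hshape : ((∃ m : ℕ, 4 ≤ m ∧ Nonempty (↥S ≃* DihedralGroup m)) ∨ (∃ m : ℕ, 2 ≤ m ∧ Nonempty (↥S ≃* QuaternionGroup m)) ∨ Cfsg.IsQuasiDihedral ↥S ∨ Cfsg.IsWreathed ↥S)) : (∀ E₁ E₂ E₃ : Subgroup Ω, F.IsEssential 2 E₁ → F.IsEssential 2 E₂ → F.IsEssential 2 E₃ → (∃ φ ∈ F.Hom E₁, φ.range = E₂) ∨ (∃ φ ∈ F.Hom E₁, φ.range = E₃) ∨ (∃ φ ∈ F.Hom E₂, φ.range = E₃)) ∧ F.IsRealizable 2 := by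
  rcases hshape with ⟨m, hm, ⟨e⟩⟩ | ⟨m, hm, ⟨e⟩⟩ | h | h
  · obtain ⟨n, rfl, ⟨D⟩⟩ := exists_Dih hS (by omega) e
    exact main_dih hF D ((Nat.pow_le_pow_iff_right one_lt_two).1 hm)
  · obtain ⟨n, ⟨D⟩⟩ := exists_Qt hS hm e
    exact main_qt hF D
  · obtain ⟨n, ⟨D⟩⟩ := exists_QD h
    exact main_qd hF D
  · obtain ⟨n, ⟨D⟩⟩ := exists_Wr h
    exact main_wr hF D

end Cfsg.Agent.S5248
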