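import Cfsg.Statements.S5249
import Cfsg.Agent.Lib.ZJ.PStab

set_option autoImplicit false
open Cfsg

namespace Cfsg.Agent.S5249

/-- Let p be an odd prime, G a finite group in which Qd(p) (the natural semidirect product of an elementary abelian group of order p² by SL₂(p)) is not involved, and P a Sylow p-subgroup of G. Then the fusion system of G on P is a solvable fusion system. -/
theorem result {G : Type*} [Group G] [Finite G] {p : ℕ} [Fact p.Prime] (hp : p ≠ 2) (hqd : ¬ Cfsg.Involves ↥(Cfsg.qd p) G) (P : Sylow p G) : (Cfsg.groupFusionSystem (P : Subgroup G)).IsSolvableSystem := by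
  intro R hR hne _ E hE h0
  obtain ⟨q, ζ, hQ⟩ := ZJF.exists_qData p
  have hF := Fus.group_isSaturated P
  have hθ := Fus2.surjM_of_factor P.isPGroup' hF hE hR
  have hS := hθ.isPGroup P.isPGroup'
  have h1 := ZJF.isNormal_ZJ_of_not_qf hp hS (hθ.saturated P.isPGroup' hF)
    fun h => hqd ((hQ.qf_group_iff P).1 (h.of_quot hθ))
  exact ZJ.ZJ_ne_bot hS (ZJF.ne_bot_of_surjM hθ (by rwa [Fus2.factor_ker hE]))
    (le_bot_iff.1 (h0 ▸ Fus2.le_core h1))

end Cfsg.Agent.S5249
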