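import Cfsg.Statements.S5278
import Cfsg.Agent.Lib.ZJ.WkCl

set_option autoImplicit false
open Cfsg

namespace Cfsg.Agent.S5278

/-- Let p be an odd prime, F a saturated fusion system over a finite p-group S, and T a subgroup of Z(S) such that the normalizer fusion system of J(S) in F is contained in the normalizer fusion system of T, J(S) being the subgroup generated by the abelian subgroups of S of largest order. Then either T is weakly closed in F, or Aut_F(T) has a nontrivial cyclic subgroup X of order prime to p that permutes transitively the non-identity elements of the commutator [T, X] (the subgroup of T generated by the elements ψ(t)·t⁻¹ with ψ in X and t in T). -/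
theorem result {Ω : Type*} [Group Ω] {S : Subgroup Ω} [Finite S] (p : ℕ) [Fact p.Prime] (hS : IsPGroup p ↥S) (F : Cfsg.FusionSystem S) (hF : F.IsSaturated p) (hp : p ≠ 2) (T : Subgroup Ω) (hT : T ≤ S ⊓ Subgroup.centralizer (S : Set Ω)) (hJT : ∀ NJ : Cfsg.FusionSystem (Cfsg.FusionSystem.normalizerIn S (Cfsg.thompsonSubgroupAOf S)), F.IsNormalizerSystem (Cfsg.thompsonSubgroupAOf S) NJ → ∀ NT : Cfsg.FusionSystem (Cfsg.FusionSystem.normalizerIn S T), F.IsNormalizerSystem T NT → NJ.IsSubsystemOf NT) : F.WeaklyClosed T ∨ ∃ X : Subgroup (MulAut ↥T), X ≤ F.autGroup T ∧ X ≠ ⊥ ∧ IsCyclic ↥X ∧ (Nat.card ↥X).Coprime p ∧ ∀ a b : ↥T, a ∈ Subgroup.closure {y : ↥T | ∃ ψ ∈ X, ∃ t : ↥T, y = ψ t * t⁻¹} → b ∈ Subgroup.closure {y : ↥T | ∃ ψ ∈ X, ∃ t : ↥T, y = ψ t * t⁻¹} → a ≠ 1 → b ≠ 1 → ∃ ψ ∈ X, ψ a = b := by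
  have hTS : T ≤ S := hT.trans inf_le_left
  have hT' : T ≤ ZJ.Zc S := hT
  by_cases h : ∃ α ∈ F.autGroup T, ZJ.Sing α
  · obtain ⟨α, hα, h⟩ := h
    have := Fus2.finite_of_le hTS
    have : IsMulCommutative T := ZJ.isMulCommutative_iff.2 fun a ha b hb => (hT hb).2 a (hTS ha)
    have hX := Subgroup.zpowers_le_of_mem hα
    have hc := (ZJF.card_autGroup_coprime hS hF hT').coprime_dvd_left (Subgroup.card_dvd_of_le hX)
    exact Or.inr ⟨_, hX, fun e => h.1 (Subgroup.zpowers_eq_bot.1 e), inferInstance, hc,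
      fun a b => h.trans_comm (Fus.isPGroup_of_le hS hTS) hc⟩
  refine Or.inl (Fus2.weaklyClosed_iff.2 ⟨hTS, ZJF.img_eq_of_not_sing hp _ F rfl hS
    hF hT' (fun f hf hf' => ?_) fun α hα h' => h ⟨α, hα, h'⟩⟩)
  have h1 := Fus2.isNormalizerSystem_normalizerSystem F (ZJ.J_le S)
  have h2 := Fus2.isNormalizerSystem_normalizerSystem F hTS
  obtain ⟨-, g, -, e, hi⟩ := (Fus2.M_normalizer_iff h2).1 (Fus2.isSubsystemOf_iff.1 (hJT _ h1 _ h2) _ f
    ((Fus2.M_normalizer_iff h1).2 ⟨Fus.le_normalizerIn (ZJ.J_le S), f, by rwa [sup_idem],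
      fun _ _ => rfl, hf.img_eq_self hf'⟩))
  exact (Fus2.img_congr fun x hx => (e x (ZJ.Zc_le_J S (hT' hx))).symm).trans hi

end Cfsg.Agent.S5278
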