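import Cfsg.Statements.S5282
import Cfsg.Agent.Lib.BS.Bender
import Cfsg.Agent.Lib.ST.Struct

set_option autoImplicit false
open Cfsg

namespace Cfsg.Agent.S5282

/-- Let p be a prime and F a saturated fusion system over a finite p-group S that is Qd(p)-free: the semidirect product of an elementary abelian group of order p² by SL₂(p) acting naturally (the symmetric group of degree 4 when p = 2) is not involved in any model of the normalizer system of a fully normalized F-centric subgroup. Then F is realizable — it is the fusion system of some finite group on a Sylow p-subgroup — and F is a solvable fusion system. -/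
theorem result {Ω : Type*} [Group Ω] {S : Subgroup Ω} [Finite S] (p : ℕ) [Fact p.Prime] (hS : IsPGroup p ↥S) (F : Cfsg.FusionSystem S) (hF : F.IsSaturated p) (hfree : F.IsSectionFree p ↥(Cfsg.qd p)) : F.IsRealizable p ∧ F.IsSolvableSystem := by
  exact ST.Fu.s5282_of ST.grpStmt (ST.strStmt BS.bender) p hS F hF hfree

end Cfsg.Agent.S5282
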