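import Cfsg.Statements.S5284
import Cfsg.Agent.Lib.Fus2.Super

set_option autoImplicit false
open Cfsg

namespace Cfsg.Agent.S5284

open Fus2 Relation

theorem add_step {p : ℕ} [hp : Fact p.Prime] {ι : Type} (k : ι → ℕ) (hk : Function.Injective k)
    (j : ℕ) : ∃ g₀ : ∀ i, ZMod (p ^ k i), p ^ (j + 1) • g₀ = 0 ∧ ∀ y : ∀ i, ZMod (p ^ k i),
      p ^ (j + 1) • y = 0 → ∃ (m : ℕ) (z : ∀ i, ZMod (p ^ k i)),
        p ^ j • y = p ^ (j + 1) • z + m • p ^ j • g₀ := by
  classical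
  have key : ∀ i, k i ≠ j + 1 → ∀ y : ZMod (p ^ k i), p ^ (j + 1) • y = 0 →
      ∃ z : ZMod (p ^ k i), p ^ j • y = p ^ (j + 1) • z := by
    intro i hi y hy
    have : NeZero (p ^ k i) := ⟨pow_ne_zero _ hp.out.ne_zero⟩
    rcases lt_or_gt_of_ne hi with h | h
    · refine ⟨0, ?_⟩
      rw [smul_zero, nsmul_eq_mul, (ZMod.natCast_eq_zero_iff _ _).2 (pow_dvd_pow p (by omega)),
        zero_mul]
    · rw [← ZMod.natCast_zmod_val y, nsmul_eq_mul, ← Nat.cast_mul, ZMod.natCast_eq_zero_iff] at hy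
      have h1 : p ^ (j + 1) * p ∣ p ^ (j + 1) * y.val := by
        rw [← pow_succ]; exact (pow_dvd_pow p (by omega)).trans hy
      obtain ⟨z, hz⟩ := Nat.dvd_of_mul_dvd_mul_left (pow_pos hp.out.pos _) h1
      refine ⟨z, ?_⟩
      rw [← ZMod.natCast_zmod_val y, hz, nsmul_eq_mul, nsmul_eq_mul]
      push_cast; ring
  by_cases h : ∃ i, k i = j + 1
  · obtain ⟨i₀, hi₀⟩ := h
    have : NeZero (p ^ k i₀) := ⟨pow_ne_zero _ hp.out.ne_zero⟩
    refine ⟨Pi.single i₀ 1, ?_, fun y hy => ?_⟩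
    · rw [← Pi.single_smul, nsmul_eq_mul, ← hi₀, ZMod.natCast_self, zero_mul, Pi.single_zero]
    · have h1 : ∀ i, ∃ z : ZMod (p ^ k i), p ^ j • y i =
          p ^ (j + 1) • z + (y i₀).val • p ^ j • (Pi.single i₀ 1 : ∀ i, ZMod (p ^ k i)) i := by
        intro i
        by_cases e : i = i₀
        · subst e
          refine ⟨0, ?_⟩
          rw [smul_zero, zero_add, Pi.single_eq_same, smul_comm, nsmul_eq_mul (y i).val,
            ZMod.natCast_zmod_val, mul_one]
        · obtain ⟨z, hz⟩ := key i (fun e' => e (hk (e'.trans hi₀.symm))) (y i) (congrFun hy i)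
          exact ⟨z, by rw [hz, Pi.single_eq_of_ne e, smul_zero, smul_zero, add_zero]⟩
      choose z hz using h1
      exact ⟨_, z, funext hz⟩
  · refine ⟨0, smul_zero _, fun y hy => ?_⟩
    choose z hz using fun i => key i (fun e => h ⟨i, e⟩) (y i) (congrFun hy i)
    exact ⟨0, z, by rw [zero_smul, add_zero]; exact funext hz⟩

theorem mul_step {p : ℕ} [Fact p.Prime] {ι : Type} {k : ι → ℕ} (hk : Function.Injective k)
    {G : Type*} [Group G] (e : G ≃* ∀ i, Multiplicative (ZMod (p ^ k i))) (j : ℕ) :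
    ∃ g₀ : G, g₀ ^ p ^ (j + 1) = 1 ∧ ∀ y : G, y ^ p ^ (j + 1) = 1 → ∃ (m : ℕ) (z : G),
      y ^ p ^ j = z ^ p ^ (j + 1) * (g₀ ^ p ^ j) ^ m := by
  obtain ⟨g₀, h1, h2⟩ := add_step (p := p) k hk j
  refine ⟨e.symm fun i => Multiplicative.ofAdd (g₀ i), e.injective ?_, fun y hy => ?_⟩
  · rw [map_pow, map_one, e.apply_symm_apply]
    exact h1
  · obtain ⟨m, z, hz⟩ := h2 (fun i => (e y i).toAdd) (by
      have := congrArg e hy
      rw [map_pow, map_one] at this
      exact this)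
    refine ⟨m, e.symm fun i => Multiplicative.ofAdd (z i), e.injective ?_⟩
    simp only [map_pow, map_mul, e.apply_symm_apply]
    exact hz

theorem exists_split {ι : Type} (M : ι → Type) [∀ i, CommGroup (M i)] {i j : ι} (hij : i ≠ j) :
    Nonempty ((∀ k, M k) ≃* (M i × M j) × ∀ k : {k // k ≠ i ∧ k ≠ j}, M k) := by
  classical
  let φ : (∀ k, M k) →* (M i × M j) × ∀ k : {k // k ≠ i ∧ k ≠ j}, M k :=
    { toFun := fun f => ((f i, f j), fun k => f k)
      map_one' := rfl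
      map_mul' := fun _ _ => rfl }
  refine ⟨MulEquiv.ofBijective φ ⟨fun f g h => funext fun k => ?_, fun ⟨⟨a, b⟩, h⟩ => ?_⟩⟩
  · by_cases h1 : k = i
    · exact h1 ▸ congrArg (fun x => x.1.1) h
    by_cases h2 : k = j
    · exact h2 ▸ congrArg (fun x => x.1.2) h
    exact congrArg (fun x => x.2 ⟨k, h1, h2⟩) h
  · refine ⟨Function.update (Function.update
      (fun k => if hk : k ≠ i ∧ k ≠ j then h ⟨k, hk⟩ else 1) i a) j b, ?_⟩
    refine Prod.ext (Prod.ext ?_ ?_) (funext fun k => ?_)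
    · simp [φ, hij]
    · simp [φ]
    · simp [φ, k.2.1, k.2.2]

theorem good {Ω : Type*} [Group Ω] {S : Subgroup Ω} [Finite S] {p : ℕ} [hp : Fact p.Prime]
    (hS : IsPGroup p S) (hab : ∀ x ∈ S, ∀ y ∈ S, x * y = y * x) {ι : Type} {k : ι → ℕ}
    (hk : Function.Injective k) (e : S ≃* ∀ i, Multiplicative (ZMod (p ^ k i)))
    (H : Subgroup (MulAut S)) (hH : (Nat.card H).Coprime p) :
    IsMulCommutative H ∧ ∀ h ∈ H, h ^ (p - 1) = 1 := by
  let F := autSystem S ⊤ le_top
  let C : ℕ → Subgroup Ω := fun j =>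
    { carrier := {x | x ^ p = 1 ∧ ∃ y ∈ S, y ^ p ^ j = x}
      one_mem' := ⟨one_pow _, 1, S.one_mem, one_pow _⟩
      mul_mem' := by
        rintro _ _ ⟨h1, y, hy, rfl⟩ ⟨h2, z, hz, rfl⟩
        refine ⟨?_, y * z, S.mul_mem hy hz, Commute.mul_pow (hab y hy z hz) _⟩
        rw [Commute.mul_pow (hab _ (S.pow_mem hy _) _ (S.pow_mem hz _)), h1, h2, one_mul]
      inv_mem' := by
        rintro _ ⟨h1, y, hy, rfl⟩
        exact ⟨by rw [inv_pow, h1, inv_one], y⁻¹, S.inv_mem hy, inv_pow _ _⟩ }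
  have hC : ∀ j, F.StronglyClosed (C j) := fun j => by
    refine stronglyClosed_iff.2 ⟨?_, fun P f hf x hx hxC => ?_⟩
    · rintro _ ⟨-, y, hy, rfl⟩
      exact S.pow_mem hy _
    · obtain ⟨-, α, -, e⟩ := M_autSystem_iff.1 hf
      obtain ⟨h1, y, hy, rfl⟩ := hxC
      rw [e _ hx]
      exact ⟨by rw [← (homOn_afn α).map_pow (S.pow_mem hy _), h1, (homOn_afn α).map_one],
        afn α y, afn_mem α hy, ((homOn_afn α).map_pow hy _).symm⟩
  have hstep : ∀ j, PStep F p (C (j + 1)) (C j) := fun j => by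
    obtain ⟨g, h1, h2⟩ := mul_step hk e j
    have h1' : ((g : Ω) ^ p ^ j) ^ p = 1 := by
      rw [← pow_mul, ← pow_succ]; exact congrArg Subtype.val h1
    have hle : C (j + 1) ≤ C j := by
      rintro _ ⟨h3, y, hy, rfl⟩
      exact ⟨h3, y ^ p, S.pow_mem hy _, by rw [← pow_mul, ← pow_succ']⟩
    refine ⟨hC j, hle, (g : Ω) ^ p ^ j, S.pow_mem g.2 _, h1'.symm ▸ Subgroup.one_mem _,
      le_antisymm ?_ (sup_le hle (Subgroup.zpowers_le.2 ⟨h1', g, g.2, rfl⟩))⟩
    rintro _ ⟨h3, y, hy, rfl⟩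
    obtain ⟨m, z, hz⟩ := h2 ⟨y, hy⟩ (Subtype.ext (by rw [← pow_mul, ← pow_succ] at h3; exact h3))
    have hz' : y ^ p ^ j = (z : Ω) ^ p ^ (j + 1) * ((g : Ω) ^ p ^ j) ^ m := congrArg Subtype.val hz
    rw [hz']
    refine Subgroup.mul_mem_sup ⟨?_, z, z.2, rfl⟩ (Subgroup.npow_mem_zpowers _ m)
    rwa [hz', Commute.mul_pow (hab _ (S.pow_mem z.2 _) _ (S.pow_mem (S.pow_mem g.2 _) _)),
      pow_right_comm _ m, h1', one_pow, mul_one] at h3
  obtain ⟨N, hN⟩ := hS.exists_card_dvd_pow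
  have hN' : ∀ y : S, y ^ p ^ N = 1 := fun y =>
    orderOf_dvd_iff_pow_eq_one.1 ((orderOf_dvd_natCard _).trans hN)
  have hser : ReflTransGen (PStep F p) ⊥ (C 0) := by
    have h1 : ∀ j, ReflTransGen (PStep F p) (C j) (C 0) := fun j => by
      induction j with
      | zero => exact .refl
      | succ j ih => exact ih.head (hstep j)
    have h2 : C N = ⊥ := eq_bot_iff.2 (by
      rintro _ ⟨-, y, hy, rfl⟩
      exact congrArg Subtype.val (hN' ⟨y, hy⟩))
    exact h2 ▸ h1 N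
  have hc : ∀ x y : S, x * y = y * x := fun x y => Subtype.ext (hab x x.2 y y.2)
  have key : ∀ γ ∈ H, (∀ A B, F.StronglyClosed A → PStep F p A B → ∀ y ∈ B, y⁻¹ * afn γ y ∈ A) →
      γ = 1 := fun γ hγ h => by
    obtain ⟨l, hl⟩ := (exists_pow_fix_of_pSeries hS hser h).2
    let D : ℕ → Subgroup S := fun i =>
      { carrier := {x | x ^ p ^ (i + 1) = 1}
        one_mem' := one_pow _
        mul_mem' := fun {a b} ha hb => by
          show (a * b) ^ _ = 1
          rw [Commute.mul_pow (hc a b), ha, hb, one_mul]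
        inv_mem' := fun {a} ha => by
          show a⁻¹ ^ _ = 1
          rw [inv_pow, ha, inv_one] }
    have hl' : ∀ x : S, x ^ p = 1 → (γ ^ p ^ l) x = x := fun x hx =>
      hl x ⟨congrArg Subtype.val hx, x, x.2, by rw [pow_zero, pow_one]; rfl⟩
    obtain ⟨m, hm⟩ := Fus.exists_pow_eq_one_of_chain hS (α := γ ^ p ^ l) D N
      (fun i _ x hx => by
        show x ^ _ = 1
        rw [pow_succ, pow_mul, hx, one_pow])
      (eq_top_iff.2 fun x _ => by
        show x ^ _ = 1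
        rw [pow_succ, pow_mul, hN', one_pow])
      (fun i _ x hx => by
        show (x⁻¹ * _) ^ _ = 1
        rw [Commute.mul_pow (hc _ _), ← map_pow, hl' _ (by rw [← pow_mul, ← pow_succ]; exact hx),
          inv_pow, inv_mul_cancel])
      ⟨0, fun x hx => by
        rw [pow_zero, pow_one]
        exact hl' x (by rw [← pow_one p]; exact hx)⟩
    rw [← pow_mul, ← pow_add] at hm
    exact eq_one_of_coprime_of_pow hH hγ hm
  have htop : ∀ α : MulAut S, α ∈ F.autGroup S := fun α =>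
    autGroup_autSystem.ge (Subgroup.mem_top α)
  refine ⟨⟨⟨fun α β => Subtype.ext ?_⟩⟩, fun α hα => ?_⟩
  · exact (inv_mul_eq_one.1 (key _ (H.mul_mem (H.inv_mem (H.mul_mem β.2 α.2)) (H.mul_mem α.2 β.2))
      fun A B hA hB => hB.triv_comm hA (htop _) (htop _))).symm
  · have := key _ (H.mul_mem (H.inv_mem hα) (H.pow_mem hα _))
      fun A B hA hB => hB.triv_pow hA (htop α) 1
    rwa [pow_one, ← Nat.sub_add_cancel hp.out.pos, pow_succ', inv_mul_cancel_left] at this

theorem bad₀ {p : ℕ} [hp : Fact p.Prime] {M : Type} [CommGroup M] [Finite M] [Nontrivial M]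
    (hM : IsPGroup p M) : ∃ K : Subgroup (MulAut (M × M)), (Nat.card K).Coprime p ∧
      ¬ (IsMulCommutative K ∧ ∀ h ∈ K, h ^ (p - 1) = 1) := by
  obtain ⟨x, hx⟩ := exists_ne (1 : M)
  rcases hp.out.eq_two_or_odd' with rfl | hodd
  · let a : MulAut (M × M) :=
      { toFun := fun v => (v.2⁻¹, v.1 * v.2⁻¹)
        invFun := fun v => (v.2 * v.1⁻¹, v.1⁻¹)
        left_inv := fun v => by simp
        right_inv := fun v => by simp
        map_mul' := fun v w => by simp [mul_comm, mul_left_comm, mul_assoc] }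
    have h3 : a ^ 3 = 1 := MulEquiv.ext fun v => by simp [a, pow_succ]
    refine ⟨Subgroup.zpowers a, ?_, fun h => hx ?_⟩
    · rw [Nat.card_zpowers]
      exact Nat.Coprime.coprime_dvd_left (orderOf_dvd_of_pow_eq_one h3) (by norm_num)
    · have := MulEquiv.congr_fun (h.2 a (Subgroup.mem_zpowers a)) (x, 1)
      simpa [a] using congrArg Prod.snd this
  · let r : MulAut (M × M) :=
      { toFun := fun v => (v.2⁻¹, v.1)
        invFun := fun v => (v.2, v.1⁻¹)
        left_inv := fun v => by simp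
        right_inv := fun v => by simp
        map_mul' := fun v w => by simp [mul_comm] }
    let s : MulAut (M × M) := MulEquiv.prodComm
    have hr : r ^ 2 ^ 2 = 1 := MulEquiv.ext fun v => by simp [r, pow_succ]
    have hs : s ^ 2 ^ 1 = 1 := MulEquiv.ext fun v => by simp [s, pow_succ]
    have hsr : s * r * s⁻¹ = r⁻¹ := MulEquiv.ext fun v => rfl
    have hK : IsPGroup 2 (Subgroup.zpowers r ⊔ Subgroup.zpowers s : Subgroup _) := by
      refine IsPGroup.to_sup_of_normal_left' (Fus.isPGroup_zpowers_of_pow hr)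
        (Fus.isPGroup_zpowers_of_pow hs)
        (Subgroup.zpowers_le.2 (Fus.mem_normalizer_of_conj_mem ?_))
      rintro _ ⟨n, rfl⟩
      simp only
      rw [← conj_zpow, hsr]
      exact Subgroup.zpow_mem _ (Subgroup.inv_mem _ (Subgroup.mem_zpowers r)) n
    refine ⟨_, Fit.coprime_card_of_isPGroup hK (Nat.coprime_two_right.2 hodd), fun h => hx ?_⟩
    have h1 := congrArg Subtype.val (h.1.is_comm.comm
      ⟨r, Subgroup.mem_sup_left (Subgroup.mem_zpowers r)⟩
      ⟨s, Subgroup.mem_sup_right (Subgroup.mem_zpowers s)⟩)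
    have h2 : x = x⁻¹ := congrArg Prod.snd (MulEquiv.congr_fun h1 (1, x))
    obtain ⟨k, hk⟩ := hM x
    exact orderOf_eq_one_iff.1 (Nat.eq_one_of_dvd_coprimes
      ((Nat.coprime_two_right.2 hodd).pow_left k) (orderOf_dvd_of_pow_eq_one hk)
      (orderOf_dvd_of_pow_eq_one (by rw [pow_two]; exact mul_eq_one_iff_eq_inv.2 h2)))

theorem bad {p : ℕ} [Fact p.Prime] {G : Type*} [Group G] [Finite G] (hG : IsPGroup p G) {M H : Type}
    [CommGroup M] [Nontrivial M] [Group H] (e : G ≃* (M × M) × H) :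
    ∃ K : Subgroup (MulAut G), (Nat.card K).Coprime p ∧
      ¬ (IsMulCommutative K ∧ ∀ h ∈ K, h ^ (p - 1) = 1) := by
  let π : G →* M := (MonoidHom.fst _ _).comp ((MonoidHom.fst _ _).comp e.toMonoidHom)
  have hπ : Function.Surjective π := Prod.fst_surjective.comp (Prod.fst_surjective.comp e.surjective)
  have := Finite.of_surjective π hπ
  obtain ⟨K, h1, h2⟩ := bad₀ (hG.of_surjective π hπ)
  let φ : MulAut (M × M) →* MulAut ((M × M) × H) :=
    { toFun := fun α => MulEquiv.prodCongr α (MulEquiv.refl H)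
      map_one' := rfl
      map_mul' := fun _ _ => rfl }
  have hφ : Function.Injective φ := fun α β h =>
    MulEquiv.ext fun v => congrArg Prod.fst (MulEquiv.congr_fun h (v, 1))
  let Φ := (MulAut.congr e.symm).toMonoidHom.comp φ
  have hΦ : Function.Injective Φ := (MulAut.congr e.symm).injective.comp hφ
  refine ⟨K.map Φ, by rwa [Subgroup.card_map_of_injective hΦ], fun h => h2 ⟨⟨⟨fun α β => ?_⟩⟩,
    fun α hα => hΦ ?_⟩⟩
  · refine Subtype.ext (hΦ ?_)
    rw [Subgroup.coe_mul, Subgroup.coe_mul, map_mul, map_mul]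
    exact congrArg Subtype.val (h.1.is_comm.comm ⟨_, α, α.2, rfl⟩ ⟨_, β, β.2, rfl⟩)
  · rw [map_pow, map_one]
    exact h.2 _ ⟨α, hα, rfl⟩


/-- Let S be a finite abelian p-group. Every saturated fusion system over S is supersoluble (S has a chain of F-strongly closed subgroups from 1 to S with cyclic steps) if and only if the invariants of S are pairwise distinct, that is, S is not isomorphic to a direct product (Z/p^n × Z/p^n) × H with n ≥ 1. -/
theorem result {Ω : Type*} [Group Ω] {S : Subgroup Ω} [Finite S] (p : ℕ) [Fact p.Prime] (hS : IsPGroup p ↥S) (hab : IsMulCommutative ↥S) : (∀ F : Cfsg.FusionSystem S, F.IsSaturated p → (∃ (m : ℕ) (c : Fin (m + 1) → Subgroup Ω), c 0 = ⊥ ∧ c (Fin.last m) = S ∧ (∀ i : Fin (m + 1), F.StronglyClosed (c i)) ∧ ∀ i : Fin m, c i.castSucc ≤ c i.succ ∧ ∃ x ∈ S, c i.succ = c i.castSucc ⊔ Subgroup.zpowers x)) ↔ ¬ ∃ (n : ℕ) (H : Type) (_ : CommGroup H), 0 < n ∧ Nonempty (↥S ≃* (Multiplicative (ZMod (p ^ n))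 × Multiplicative (ZMod (p ^ n))) × H) := by
  simp only [← Fus2.cycSeries_iff_fin]
  rw [Fus2.forall_cycSeries_iff hS]
  have hc : ∀ x ∈ S, ∀ y ∈ S, x * y = y * x := fun x hx y hy =>
    congrArg Subtype.val (hab.is_comm.comm (⟨x, hx⟩ : S) ⟨y, hy⟩)
  constructor
  · rintro ⟨-, h⟩ ⟨n, H, _, hn, ⟨e⟩⟩
    have : Fact (1 < p ^ n) := ⟨Nat.one_lt_pow hn.ne' (Fact.out : p.Prime).one_lt⟩
    obtain ⟨K, h1, h2⟩ := bad hS e
    exact h2 (h K h1)
  · intro h
    refine ⟨fun F hF => Fus.isNormal_top_of_comm hS hF hc, ?_⟩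
    let _ : CommGroup S := { (inferInstance : Group S) with mul_comm := hab.is_comm.comm }
    obtain ⟨ι, _, n, hn, ⟨e⟩⟩ := CommGroup.equiv_prod_multiplicative_zmod_of_finite S
    have h1 : ∀ i, ∃ k, n i = p ^ k := fun i => by
      have : NeZero (n i) := ⟨(zero_lt_one.trans (hn i)).ne'⟩
      obtain ⟨k, hk⟩ := IsPGroup.iff_card.1 (hS.of_surjective
        ((Pi.evalMonoidHom _ i).comp e.toMonoidHom)
        ((Function.surjective_eval i).comp e.surjective))
      exact ⟨k, by simpa using hk⟩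
    choose k hk using h1
    obtain rfl : n = fun i => p ^ k i := funext hk
    refine good hS hc (fun i j hij => ?_) e
    by_contra hne
    obtain ⟨e'⟩ := exists_split (fun i => Multiplicative (ZMod (p ^ k i))) hne
    have key : ∀ (H : Type) [CommGroup H] (a b : ℕ), a = b →
        (S ≃* (Multiplicative (ZMod (p ^ a)) × Multiplicative (ZMod (p ^ b))) × H) →
        Nonempty (S ≃* (Multiplicative (ZMod (p ^ a)) × Multiplicative (ZMod (p ^ a))) × H) := by
      rintro H _ a _ rfl f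
      exact ⟨f⟩
    refine h ⟨k i, _, inferInstance, Nat.pos_of_ne_zero fun e0 => ?_, key _ _ _ hij (e.trans e')⟩
    have := hn i
    simp [e0] at this

end Cfsg.Agent.S5284
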