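import Cfsg.Statements.S5286
import Cfsg.Agent.Lib.Fus.Basic
import Cfsg.Agent.Lib.Fus2.VFree

set_option autoImplicit false
universe u
open Cfsg

namespace Cfsg.Agent.S5286

open Cfsg.Agent.Fus2.VFree

theorem exists_perm {S : Type u} [Group S] [Finite S] {P : Type u} [Group P] (f g : P →* S)
    (hf : Function.Injective f) (hg : Function.Injective g) :
    ∃ σ : Equiv.Perm S, ∀ x s, σ (f x * s) = g x * σ s := by
  obtain ⟨T1, h1, -⟩ := f.range.exists_isComplement_right 1
  obtain ⟨T2, h2, -⟩ := g.range.exists_isComplement_right 1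
  have hc : Nat.card T1 = Nat.card T2 := by
    have a1 := h1.card_mul_card
    have a2 := h2.card_mul_card
    have b1 : Nat.card (f.range : Set S) = Nat.card P :=
      (Nat.card_congr (MonoidHom.ofInjective hf).toEquiv).symm
    have b2 : Nat.card (g.range : Set S) = Nat.card P :=
      (Nat.card_congr (MonoidHom.ofInjective hg).toEquiv).symm
    have hP : Finite P := Finite.of_injective f hf
    rw [b1] at a1; rw [b2, ← a1] at a2
    exact (Nat.eq_of_mul_eq_mul_left Nat.card_pos a2).symm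
  obtain ⟨b⟩ : Nonempty (T1 ≃ T2) := Finite.card_eq.1 hc
  let e : f.range ≃* g.range := (MonoidHom.ofInjective hf).symm.trans (MonoidHom.ofInjective hg)
  refine ⟨h1.equiv.trans ((Equiv.prodCongr e.toEquiv b).trans h2.equiv.symm), fun x s => ?_⟩
  have hx : f x ∈ f.range := ⟨x, rfl⟩
  have he : (e ⟨f x, hx⟩ : S) = g x := by
    have : (MonoidHom.ofInjective hf).symm ⟨f x, hx⟩ = x := by
      rw [MulEquiv.symm_apply_eq]; rfl
    simp only [e, MulEquiv.trans_apply, this]
    rfl
  simp only [Equiv.trans_apply]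
  rw [h1.equiv_mul_left_of_mem hx]
  change ((e (⟨f x, hx⟩ * (h1.equiv s).1) : g.range) : S) * _ = g x * (((e (h1.equiv s).1 : g.range) : S) * _)
  rw [map_mul, Subgroup.coe_mul, he, mul_assoc]
  rfl

variable {Ω : Type u} [Group Ω] {S : Subgroup Ω}

/-- left regular representation -/
def lam (S : Subgroup Ω) : S →* Equiv.Perm S := MulAction.toPermHom S S

theorem lam_inj : Function.Injective (lam S) := MulAction.toPerm_injective

/-- index type of all maps -/
def Idx (F : FusionSystem S) : Type u := Σ P : Subgroup Ω, {φ : P →* Ω // φ ∈ F.Hom P}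

variable {F : FusionSystem S}

/-- edge stabilizer -/
def edgeSub (i : Idx F) : Subgroup (Equiv.Perm S) :=
  ((lam S).comp (Subgroup.inclusion (Fus.le_of_mem i.2.2))).range

theorem exists_sig [Finite S] (i : Idx F) : ∃ σ : Equiv.Perm S, ∀ x : i.1,
    σ * lam S ⟨x, Fus.le_of_mem i.2.2 x.2⟩ = lam S ⟨i.2.1 x, Fus.apply_mem i.2.2 x⟩ * σ := by
  obtain ⟨σ, hσ⟩ := exists_perm (Subgroup.inclusion (Fus.le_of_mem i.2.2))
    (i.2.1.codRestrict S (Fus.apply_mem i.2.2)) (Subgroup.inclusion_injective _)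
    (fun a b h => Fus.injective_of_mem i.2.2 (congrArg Subtype.val h))
  exact ⟨σ, fun x => Equiv.ext fun s => hσ x s⟩

/-- chosen permutation -/
noncomputable def sig [Finite S] (i : Idx F) : Equiv.Perm S := (exists_sig i).choose

theorem sig_spec [Finite S] (i : Idx F) (x : i.1) :
    sig i * lam S ⟨x, Fus.le_of_mem i.2.2 x.2⟩ * (sig i)⁻¹ =
      lam S ⟨i.2.1 x, Fus.apply_mem i.2.2 x⟩ := by
  rw [mul_inv_eq_iff_eq_mul]; exact (exists_sig i).choose_spec x

/-- edges -/
abbrev Edge (F : FusionSystem S) : Type u := Σ i : Idx F, Equiv.Perm S ⧸ edgeSub i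

/-- vertices -/
abbrev Vert (S : Subgroup Ω) : Type u := Equiv.Perm S ⧸ (lam S).range

/-- origin -/
def org (e : Edge F) : Vert S :=
  Quotient.liftOn' e.2 (fun τ => (τ : Vert S)) (by
    intro a b h
    rw [QuotientGroup.leftRel_apply] at h
    obtain ⟨x, hx⟩ := h
    exact QuotientGroup.eq.2 ⟨_, hx⟩)

/-- terminus -/
noncomputable def trm [Finite S] (e : Edge F) : Vert S :=
  Quotient.liftOn' e.2 (fun τ => ((τ * (sig e.1)⁻¹ : Equiv.Perm S) : Vert S)) (by
    intro a b h
    rw [QuotientGroup.leftRel_apply] at h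
    obtain ⟨x, hx⟩ := h
    refine QuotientGroup.eq.2 ⟨⟨e.1.2.1 x, Fus.apply_mem e.1.2.2 x⟩, ?_⟩
    rw [← sig_spec]
    have hx' : lam S ⟨x, Fus.le_of_mem e.1.2.2 x.2⟩ = a⁻¹ * b := hx
    rw [hx']; group)

theorem org_smul (a : Equiv.Perm S) (e : Edge F) : org (a • e) = a • org e := by
  obtain ⟨i, q⟩ := e
  induction q using QuotientGroup.induction_on
  rfl

theorem trm_smul [Finite S] (a : Equiv.Perm S) (e : Edge F) : trm (a • e) = a • trm e := by
  obtain ⟨i, q⟩ := e
  induction q using QuotientGroup.induction_on with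
  | H τ =>
    change ((a * τ * (sig i)⁻¹ : Equiv.Perm S) : Vert S) = ((a * (τ * (sig i)⁻¹) : Equiv.Perm S) : Vert S)
    rw [mul_assoc]

/-- good permutations -/
def Good' (F : FusionSystem S) {P : Subgroup Ω} (ψ : P → Equiv.Perm S) (τ : Equiv.Perm S) : Prop :=
  ∃ χ : P →* Ω, ∃ h : χ ∈ F.Hom P, ∀ x, lam S ⟨χ x, Fus.apply_mem h x⟩ = τ⁻¹ * ψ x * τ

theorem Good'.change {P : Subgroup Ω} {ψ : P → Equiv.Perm S} {τ τ' : Equiv.Perm S}
    (h : Good' F ψ τ) (e : (τ : Vert S) = τ') : Good' F ψ τ' := by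
  obtain ⟨s, hs⟩ := QuotientGroup.eq.1 e
  obtain ⟨χ, hχ, h⟩ := h
  refine ⟨_, Fus.conj_comp_mem hχ (S.inv_mem s.2), fun x => ?_⟩
  have h1 : τ' = τ * lam S s := by rw [hs]; group
  have h2 : (⟨_, Fus.apply_mem (Fus.conj_comp_mem hχ (S.inv_mem s.2)) x⟩ : S) =
      s⁻¹ * ⟨χ x, Fus.apply_mem hχ x⟩ * s := by
    ext; simp
  rw [h2, map_mul, map_mul, h, h1, map_inv]; group

/-- good vertices -/
def Good (F : FusionSystem S) {P : Subgroup Ω} (ψ : P → Equiv.Perm S) (v : Vert S) : Prop :=
  ∃ τ : Equiv.Perm S, (τ : Vert S) = v ∧ Good' F ψ τ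

theorem good_iff {P : Subgroup Ω} {ψ : P → Equiv.Perm S} {τ : Equiv.Perm S} :
    Good F ψ τ ↔ Good' F ψ τ :=
  ⟨fun ⟨_, h1, h2⟩ => h2.change h1, fun h => ⟨τ, rfl, h⟩⟩

theorem good_edge [Finite S] {P : Subgroup Ω} {ψ : P → Equiv.Perm S} (e : Edge F)
    (he : ∀ x, ψ x • e = e) : Good F ψ (org e) ↔ Good F ψ (trm e) := by
  obtain ⟨i, q⟩ := e
  induction q using QuotientGroup.induction_on with
  | H τ =>
    have h1 : ∀ x, ∃ y : i.1, lam S ⟨y, Fus.le_of_mem i.2.2 y.2⟩ = τ⁻¹ * ψ x * τ := by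
      intro x
      have h2 := he x
      rw [Sigma.smul_mk] at h2
      have h3 : ((ψ x * τ : Equiv.Perm S) : Equiv.Perm S ⧸ edgeSub i) = τ :=
        eq_of_heq (Sigma.mk.inj h2).2
      obtain ⟨y, hy⟩ := QuotientGroup.eq.1 h3.symm
      exact ⟨y, by rw [mul_assoc, ← hy]; rfl⟩
    change Good F ψ τ ↔ Good F ψ ((τ * (sig i)⁻¹ : Equiv.Perm S) : Vert S)
    rw [good_iff, good_iff]
    constructor
    · rintro ⟨χ, hχ, h⟩
      have hm : ∀ x, χ x ∈ i.1 := by
        intro x
        obtain ⟨y, hy⟩ := h1 x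
        have := congrArg Subtype.val (lam_inj (hy.trans (h x).symm))
        exact (show (y : Ω) = χ x from this) ▸ y.2
      refine ⟨i.2.1.comp (χ.codRestrict _ hm), F.comp_mem hχ i.2.2 hm, fun x => ?_⟩
      have := sig_spec i ⟨χ x, hm x⟩
      rw [h x] at this
      refine this.symm.trans ?_
      group
    · rintro ⟨χ, hχ, h⟩
      have hm : ∀ x, ∃ y : i.1, lam S ⟨y, Fus.le_of_mem i.2.2 y.2⟩ = τ⁻¹ * ψ x * τ ∧
          i.2.1 y = χ x := by
        intro x
        obtain ⟨y, hy⟩ := h1 x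
        refine ⟨y, hy, ?_⟩
        have h2 := sig_spec i y
        rw [hy] at h2
        have h3 : lam S ⟨i.2.1 y, Fus.apply_mem i.2.2 y⟩ = lam S ⟨χ x, Fus.apply_mem hχ x⟩ := by
          rw [← h2, h x]; group
        exact congrArg Subtype.val (lam_inj h3)
      have hm' : ∀ x, χ x ∈ i.2.1.range := fun x => by
        obtain ⟨y, -, hy⟩ := hm x
        exact ⟨y, hy⟩
      refine ⟨(Fus.invHom i.2.1 (Fus.injective_of_mem i.2.2)).comp (χ.codRestrict _ hm'),
        F.comp_mem hχ (Fus.invHom_mem i.2.2) hm', fun x => ?_⟩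
      obtain ⟨y, hy, hy'⟩ := hm x
      rw [← hy]
      congr 1
      apply Subtype.ext
      change Fus.invHom i.2.1 (Fus.injective_of_mem i.2.2) ⟨χ x, hm' x⟩ = y
      have := Fus.invHom_apply i.2.1 (Fus.injective_of_mem i.2.2) y ⟨y, rfl⟩
      rw [← this]
      congr 1
      exact Subtype.ext hy'.symm


/-- Every fusion system F over a finite p-group S, saturated or not, is realized by a possibly infinite group: there are a group G and an injective homomorphism ι of S into G such that the maps of F are exactly the conjugations by elements of G between subgroups of ι(S), every finite subgroup of G is conjugate to a subgroup of ι(S), and G has a free normal subgroup whose index divides (#S)!. -/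
theorem result {Ω : Type u} [Group Ω] {S : Subgroup Ω} [Finite S] (p : ℕ) [Fact p.Prime] (hS : IsPGroup p ↥S) (F : Cfsg.FusionSystem S) : ∃ (G : Type u) (_ : Group G) (ι : ↥S →* G), F.IsRealizedBy ι ∧ (∀ H : Subgroup G, Finite ↥H → ∃ g : G, ∀ h ∈ H, g * h * g⁻¹ ∈ ι.range) ∧ ∃ N : Subgroup G, N.Normal ∧ IsFreeGroup ↥N ∧ N.index ∣ (Nat.card ↥S).factorial := by
  classical
  let A := Equiv.Perm S
  let v0 : Vert S := ((1 : A) : Vert S)
  let G : Subgroup (W A (Edge F)) := Gr (org_smul (F := F)) trm_smul v0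
  have hι : ∀ s : S, (SemidirectProduct.inr (lam S s) : W A (Edge F)) ∈ G := by
    intro s
    change Path org trm v0 (wd 1) (lam S s • v0)
    rw [wd_eq_nil.2 rfl, path_nil]
    exact QuotientGroup.eq.2 ⟨s, by simp⟩
  let ι : S →* G := (SemidirectProduct.inr.comp (lam S)).codRestrict G hι
  refine ⟨G, inferInstance, ι, ⟨?_, ?_⟩, ?_, ?_⟩
  · intro a b h
    exact lam_inj (SemidirectProduct.inr_injective (congrArg Subtype.val h))
  · intro P hP φ hφ
    constructor
    · intro h
      let i : Idx F := ⟨P, φ, h⟩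
      let e : Edge F := ⟨i, (sig i : A)⟩
      have hg : (⟨FreeGroup.mk [(e, false)], sig i⟩ : W A (Edge F)) ∈ G := by
        change Path org trm v0 (wd (FreeGroup.mk [(e, false)])) (sig i • v0)
        refine path_wd (path_cons.2 ⟨?_, path_nil.2 ?_⟩)
        · change ((sig i * (sig i)⁻¹ : A) : Vert S) = ((1 : A) : Vert S)
          rw [mul_inv_cancel]
        · change ((sig i : A) : Vert S) = ((sig i * 1 : A) : Vert S)
          rw [mul_one]
      refine ⟨⟨_, hg⟩, fun x => ?_⟩
      rw [eq_mul_inv_iff_mul_eq]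
      apply Subtype.ext
      have h1 := sig_spec i x
      apply SemidirectProduct.ext
      · change 1 * phi A (Edge F) (lam S ⟨φ x, hφ x⟩) (FreeGroup.mk [(e, false)]) =
          FreeGroup.mk [(e, false)] * phi A (Edge F) (sig i) 1
        rw [map_one, one_mul, mul_one, phi_mk]
        have : lam S ⟨φ x, hφ x⟩ • e = e := by
          change (⟨i, ((lam S ⟨φ x, hφ x⟩ * sig i : A) : A ⧸ edgeSub i)⟩ : Edge F) = ⟨i, (sig i : A)⟩
          congr 1
          symm
          refine QuotientGroup.eq.2 (show _ ∈ edgeSub i from ⟨x, ?_⟩)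
          change lam S ⟨x, hP x.2⟩ = _
          rw [show lam S ⟨φ x, hφ x⟩ = _ from h1.symm]
          group
        simp only [actW, actL, List.map_cons, List.map_nil, this]
      · change lam S ⟨φ x, hφ x⟩ * sig i = sig i * lam S ⟨x, hP x.2⟩
        rw [show lam S ⟨φ x, hφ x⟩ = _ from h1.symm]
        group
    · rintro ⟨g, hg⟩
      have h1 : ∀ x : P, (SemidirectProduct.inr (lam S ⟨φ x, hφ x⟩) : W A (Edge F)) * g.1 =
          g.1 * SemidirectProduct.inr (lam S ⟨x, hP x.2⟩) := by
        intro x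
        have := hg x
        rw [eq_mul_inv_iff_mul_eq] at this
        exact congrArg Subtype.val this
      have hl : ∀ x : P, phi A (Edge F) (lam S ⟨φ x, hφ x⟩) g.1.left = g.1.left := by
        intro x
        simpa using congrArg SemidirectProduct.left (h1 x)
      have hr : ∀ x : P, lam S ⟨φ x, hφ x⟩ * g.1.right = g.1.right * lam S ⟨x, hP x.2⟩ := by
        intro x
        simpa using congrArg SemidirectProduct.right (h1 x)
      have hpath : Path org trm v0 (wd g.1.left) (g.1.right • v0) := g.2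
      have hgood := good_of_path (Good F (fun x : P => lam S ⟨φ x, hφ x⟩)) hpath
        (fun y hy => good_edge y.1 fun x => fix_letters (hl x) y hy) (by
          refine ⟨g.1.right, ?_, P.subtype, Fus.subtype_mem hP, fun x => ?_⟩
          · change _ = ((g.1.right * 1 : A) : Vert S)
            rw [mul_one]
          · beta_reduce
            rw [mul_assoc, hr x, inv_mul_cancel_left]
            rfl)
      obtain ⟨χ, hχ, h⟩ := good_iff.1 hgood
      refine Fus.mem_of_eq hχ fun x => ?_
      have := h x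
      simp only [inv_one, one_mul, mul_one] at this
      exact (congrArg Subtype.val (lam_inj this)).symm
  · intro H hH
    have hfin : Finite (H.map G.subtype) :=
      Finite.of_equiv _ (H.equivMapOfInjective _ G.subtype_injective).toEquiv
    obtain ⟨c, hc, h⟩ := finite_conj (org_smul (F := F)) trm_smul v0 (by
      intro w
      induction w using QuotientGroup.induction_on with
      | H τ => exact ⟨τ, by change ((τ * 1 : A) : Vert S) = _; rw [mul_one]⟩)
      (H.map G.subtype) (Subgroup.map_subtype_le H)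
    refine ⟨⟨c, hc⟩, fun k hk => ?_⟩
    obtain ⟨h1, h2⟩ := h k ⟨k, hk, rfl⟩
    obtain ⟨s, hs⟩ := QuotientGroup.eq.1 (show ((1 : A) : Vert S) = ((c * k * c⁻¹).right * 1 : A) from h2.symm)
    refine ⟨s, Subtype.ext ?_⟩
    apply SemidirectProduct.ext
    · exact h1.symm
    · change lam S s = (c * k * c⁻¹).right
      rw [hs]; simp
  · obtain ⟨N, h1, h2, h3⟩ := exists_free G
    refine ⟨N, h1, h2, ?_⟩
    rwa [Nat.card_perm] at h3

end Cfsg.Agent.S5286
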