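import Cfsg.Statements.S5287
import Cfsg.Agent.Lib.Ess.MetaSup
import Cfsg.Agent.S5284

set_option autoImplicit false
open Cfsg

namespace Cfsg.Agent.S5287

/-- Let S be a finite metacyclic p-group (an extension of a cyclic group by a cyclic group). Every saturated fusion system over S is supersoluble (S has a chain of F-strongly closed subgroups from 1 to S with cyclic steps) if and only if S is not homocyclic of rank two (isomorphic to Z/p^n × Z/p^n with n ≥ 1) and, when p = 2, S is not dihedral of order at least 4, not quasi-dihedral (semidihedral) and not generalized quaternion of order at least 8. -/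
theorem result {Ω : Type*} [Group Ω] {S : Subgroup Ω} [Finite S] (p : ℕ) [Fact p.Prime] (hS : IsPGroup p ↥S) (hm : Cfsg.IsMetacyclic ↥S) : (∀ F : Cfsg.FusionSystem S, F.IsSaturated p → (∃ (m : ℕ) (c : Fin (m + 1) → Subgroup Ω), c 0 = ⊥ ∧ c (Fin.last m) = S ∧ (∀ i : Fin (m + 1), F.StronglyClosed (c i)) ∧ ∀ i : Fin m, c i.castSucc ≤ c i.succ ∧ ∃ x ∈ S, c i.succ = c i.castSucc ⊔ Subgroup.zpowers x)) ↔ ¬ ((∃ n : ℕ, 0 < n ∧ Nonempty (↥S ≃* Multiplicative (ZMod (p ^ n)) × Multiplicative (ZMod (p ^ n)))) ∨ (p = 2 ∧ ((∃ n : ℕ, 2 ≤ n ∧ Nonempty (↥S ≃* DihedralGroup n)) ∨ Cfsg.IsQuasiDihedral ↥S ∨ (∃ n : ℕ, 2 ≤ n ∧ Nonempty (↥S ≃* QuaternionGroup n))))) := by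
  simp only [← Fus2.cycSeries_iff_fin]
  rw [Fus2.forall_cycSeries_iff hS]
  have hom : (∀ H : Subgroup (MulAut S), (Nat.card H).Coprime p →
      IsMulCommutative H ∧ ∀ h ∈ H, h ^ (p - 1) = 1) → ∀ n : ℕ, 0 < n →
      (S ≃* Multiplicative (ZMod (p ^ n)) × Multiplicative (ZMod (p ^ n))) → False :=
    fun h n hn e => by
      have : Fact (1 < p ^ n) := ⟨Nat.one_lt_pow hn.ne' (Fact.out : p.Prime).one_lt⟩
      obtain ⟨K, h1, h2⟩ := S5284.bad (H := PUnit) hS (e.trans MulEquiv.prodUnique.symm)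
      exact h2 (h K h1)
  constructor
  · rintro ⟨hN, h⟩ (⟨n, hn, ⟨e⟩⟩ | ⟨rfl, ⟨m, hm2, ⟨e⟩⟩ | hq | ⟨m, hm2, ⟨e⟩⟩⟩)
    · exact hom h n hn e
    · obtain ⟨n, rfl, ⟨D⟩⟩ := TwoGrp.exists_Dih hS hm2 e
      by_cases hn : 2 ≤ n
      · exact Ess.false_of_dih hN D hn
      · obtain rfl : n = 1 := by have := D.hn; omega
        obtain ⟨e'⟩ := IsKleinFour.nonempty_mulEquiv (G₁ := DihedralGroup 2)
          (G₂ := Multiplicative (ZMod 2 × ZMod 2))
        exact hom h 1 one_pos (e.trans (e'.trans (MulEquiv.prodMultiplicative _ _)))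
    · obtain ⟨n, ⟨D⟩⟩ := TwoGrp.exists_QD hq
      exact Ess.false_of_qd hN D
    · obtain ⟨n, ⟨D⟩⟩ := QtF.exists_Qt hS hm2 e
      by_cases hn : 3 ≤ n
      · exact Ess.false_of_qt hN D hn
      · obtain rfl : n = 2 := by have := D.hn; omega
        have : NeZero m := ⟨by omega⟩
        have hc := D.card_eq
        rw [Nat.card_congr e.toEquiv, Nat.card_eq_fintype_card, QuaternionGroup.card] at hc
        obtain rfl : m = 2 := by omega
        obtain ⟨a, ha, ha1⟩ := Ess.exists_aut_three e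
        refine ha1 ?_
        have := (h (Subgroup.zpowers a) (by
          rw [Nat.card_zpowers]
          exact Nat.Coprime.coprime_dvd_left (orderOf_dvd_of_pow_eq_one ha) (by norm_num))).2 a
          (Subgroup.mem_zpowers a)
        simpa using this
  · intro h
    refine ⟨fun F hF => ?_, ?_⟩
    · by_cases h2 : p = 2
      · subst h2
        rcases Ess.isNormal_or_dqs hS hF (Fus2.sc_top F) hm with h' | h' | h' | h'
        · exact h'
        · exact absurd (.inr ⟨rfl, .inl h'⟩) h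
        · exact absurd (.inr ⟨rfl, .inr (.inr h')⟩) h
        · exact absurd (.inr ⟨rfl, .inr (.inl h')⟩) h
      · exact Ess.isNormal_of_metacyclic_odd hS hF (Fus2.sc_top F) h2 hm
    · refine (Ess.small_or_irr hS (Ess.index_frattini_le_of_isMetacyclic hS hm)).resolve_left
        fun hi => h ?_
      by_cases hc : ∀ x y : S, Commute x y
      · obtain ⟨k, -, ⟨e⟩⟩ := hi.exists_homocyclic hS hc
        exact .inl ⟨k + 1, k.succ_pos,
          ⟨e.trans ((Ess.finTwoMul _).trans (MulEquiv.prodMultiplicative _ _))⟩⟩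
      · obtain ⟨h2, he⟩ := hi.q8_of_metacyclic hS hm hc
        exact .inr ⟨h2, .inr (.inr ⟨2, le_rfl, he⟩)⟩

end Cfsg.Agent.S5287
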