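import Cfsg.Statements.S5291
import Cfsg.Agent.Lib.Fus.Simple

set_option autoImplicit false
open Cfsg

namespace Cfsg.Agent.S5291

open Cfsg.Agent.Fus Cfsg.FusionSystem

open Cfsg.Agent.Fus2

/-- Let F be a saturated fusion system over a finite p-group S and E a weakly normal subsystem of F over a subgroup T. Suppose a subgroup R of T is normal in E (E = N_E(R)), and let R* be the subgroup of T generated by the images of R under all maps of F with source R. Then R* is normal in F (F = N_F(R*)). -/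
theorem result {Ω : Type*} [Group Ω] {S : Subgroup Ω} [Finite S] (p : ℕ) [Fact p.Prime] (hS : IsPGroup p S)
    (F : Cfsg.FusionSystem S) (hF : F.IsSaturated p)
    {T : Subgroup Ω} (E : Cfsg.FusionSystem T) (hE : E.IsWeaklyNormalIn F p)
    (R : Subgroup Ω) (hR : E.IsNormal R) :
    F.IsNormal (Subgroup.closure {x : Ω | ∃ φ ∈ F.Hom R, ∃ r : R, x = φ r}) := by
  have hT : T ≤ S := hE.2.2.2.1.1
  have := Fus.finite_of_le hT
  have hI := IsInvariantIn_autInv hE.2.2
  have hFr := IsInvariantIn_frattini hE.2.2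
  set R' := Subgroup.closure {x : Ω | ∃ φ ∈ F.Hom R, ∃ r : R, x = φ r} with hR'
  have hmem : ∀ f, M F R f → ∀ x ∈ R, f x ∈ R' := fun f hf x hx =>
    Subgroup.subset_closure ⟨_, hf.toHom_mem, ⟨x, hx⟩, rfl⟩
  have hR'T : R' ≤ T := (Subgroup.closure_le _).2 <| by
    rintro _ ⟨φ, hφ, r, rfl⟩
    exact hE.2.2.2.1.2 R hR.1 φ hφ r
  have hN : E.IsNormal R' := by
    have h1 := sSup_mem_of_sup_closed (S := T) (C := fun Q => E.IsNormal Q ∧ Q ≤ R')
      (fun Q h => h.1.1) ⟨isNormal_bot E, bot_le⟩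
      fun Q Q' h h' => ⟨isNormal_sup h.1 h'.1, sup_le h.2 h'.2⟩
    have h2 : R' ≤ sSup {Q | E.IsNormal Q ∧ Q ≤ R'} := (Subgroup.closure_le _).2 <| by
      rintro _ ⟨φ, hφ, r, rfl⟩
      obtain ⟨α, hα, f₀, hf₀, e⟩ := hFr R _ hR.1 (M_fn hφ)
      have h3 : img R (afn α) ≤ sSup {Q | E.IsNormal Q ∧ Q ≤ R'} :=
        le_sSup ⟨hI.isNormal_img hR hα, img_le_iff.2 (hmem _ ((M_afn hT hα).mono hR.1))⟩
      rw [← fn_coe φ, e r r.2]
      exact h3 (mem_img_of_mem _ (hf₀.mem_of_sc (sc_of_isNormal hR) r.2 r.2))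
    rw [le_antisymm h2 h1.2]
    exact h1.1
  refine isNormal_of_isNormal_sub hS hF hT hFr hN fun α hα x hx => ?_
  have hα' := (homOn_afn α).mono hR'T
  induction hx using Subgroup.closure_induction with
  | mem x hx =>
    obtain ⟨φ, hφ, r, rfl⟩ := hx
    rw [← fn_coe φ]
    exact hmem _ ((M_fn hφ).comp (M_afn hT hα) fun y hy =>
      (M_fn hφ).mem_of_sc hE.2.2.2.1 hy (hR.1 hy)) r r.2
  | one => rw [hα'.map_one]; exact R'.one_mem
  | mul x y hx hy h₁ h₂ => rw [hα'.map_mul hx hy]; exact R'.mul_mem h₁ h₂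
  | inv x hx h => rw [hα'.map_inv hx]; exact R'.inv_mem h

end Cfsg.Agent.S5291
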