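import Cfsg.Statements.S5294
import Cfsg.Agent.Lib.Fus.AutTwo
import Cfsg.Agent.Lib.Fus.Normal

set_option autoImplicit false
universe u
open Cfsg

namespace Cfsg.Agent.S5294

open Cfsg.Agent.Fus Cfsg.FusionSystem

open Cfsg.Agent.Fus2

/-- Let F be a saturated fusion system over a finite p-group S whose centre Z(S) lies in the largest subgroup O_p(F) normal in F. Then the centre Z(F) of F is a direct factor of Z(S): there is a subgroup K of Z(S) with Z(F) ∩ K = 1 and Z(F)K = Z(S). -/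
theorem result {Ω : Type u} [Group Ω] {S : Subgroup Ω} [Finite S] (p : ℕ) [Fact p.Prime] (hS : IsPGroup p S)
    (F : Cfsg.FusionSystem S) (hF : F.IsSaturated p) (hZ : (S ⊓ Subgroup.centralizer (S : Set Ω)) ≤ F.core) :
    ∃ K : Subgroup Ω, K ≤ (S ⊓ Subgroup.centralizer (S : Set Ω)) ∧ F.center ⊓ K = ⊥ ∧ F.center ⊔ K = (S ⊓ Subgroup.centralizer (S : Set Ω)) := by
  have hQ := isNormal_core F
  set Q := F.core
  set V := centralizerIn Q Q with hV
  have hVQ : V ≤ Q := centralizerIn_le Q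
  have hVN : F.IsNormal V := isNormal_of_invariant hQ hVQ fun g hg hi =>
    (hg.mono hVQ).img_eq_self fun x hx => by
      have := hg.mem_centralizerIn le_rfl hx.1 hx.2
      rw [hi] at this
      exact ⟨hi ▸ mem_img_of_mem g hx.1, this.2⟩
  have hVS := hVN.1
  have := Fus.finite_of_le hVS
  let : CommGroup V := { (inferInstance : Group V) with
    mul_comm := fun x y => Subtype.ext (y.2.2 x x.2.1) }
  have hm : ¬ p ∣ (autInducedBy S V).relIndex (F.autGroup V) := (sat_sylow hS hF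
    (isFullyNormalized_of_normal hVS (sc_le_normalizer (sc_of_isNormal hVN)))).not_dvd_relIndex
  have hZV : S ⊓ Subgroup.centralizer (S : Set Ω) ≤ V := fun x hx =>
    ⟨hZ hx, fun y hy => hx.2 y (hQ.1 hy)⟩
  have hZ' : ∀ x : V, (x : Ω) ∈ F.center ↔ ∀ α ∈ F.autGroup V, α x = x := fun x => by
    rw [mem_center_iff hS hF]
    refine ⟨fun h α hα => Subtype.ext ?_, fun h => ⟨hVS x.2, fun y hy => ?_⟩⟩
    · rw [← afn_coe]
      exact h.2 _ (isConjElt_of_M (M_afn hVS hα) x.2)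
    · obtain ⟨f, hf, rfl⟩ := isConjElt_iff.1 hy
      obtain ⟨α, hα, e⟩ := exists_aut_of_isNormal hVN (Subgroup.zpowers_le.2 x.2) hf
      rw [← e _ (Subgroup.mem_zpowers _), afn_coe, h α hα]
  have hc : F.center ≤ S ⊓ Subgroup.centralizer (S : Set Ω) :=
    le_inf (center_le F) (center_le_centralizer F)
  let t := relTrace (F.autGroup V) (autInducedBy S V)
  refine ⟨(S ⊓ Subgroup.centralizer (S : Set Ω)) ⊓ t.ker.map V.subtype, inf_le_left,
    eq_bot_iff.2 ?_, le_antisymm (sup_le hc inf_le_left) fun x hx => ?_⟩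
  · rintro _ ⟨hx, -, y, hy, rfl⟩
    rw [SetLike.mem_coe, MonoidHom.mem_ker, relTrace_of_fixed ((hZ' y).1 hx)] at hy
    obtain ⟨k, hk⟩ := isPGroup_of_le hS hVS y
    have := mem_of_pow_mem_of_not_dvd hk hm (H := ⊥) hy
    rw [Subgroup.mem_bot.1 this]
    exact Subgroup.one_mem _
  · obtain ⟨k, hk⟩ := hS ⟨x, hx.1⟩
    have hk' : x ^ p ^ k = 1 := congrArg Subtype.val hk
    refine mem_of_pow_mem_of_not_dvd hk' hm ?_
    have h2 : ∀ α ∈ F.autGroup V, α (t ⟨x, hZV hx⟩) = t ⟨x, hZV hx⟩ := fun α hα =>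
      apply_relTrace (fun β hβ => by
        obtain ⟨g, hg, e⟩ := Fus.mem_autInducedBy_iff.1 hβ
        exact Subtype.ext (by rw [e, hx.2 g hg, mul_inv_cancel_right])) hα
    have h3 := (hZ' _).2 h2
    have h4 : (t ⟨x, hZV hx⟩ : Ω)⁻¹ * x ^ (autInducedBy S V).relIndex (F.autGroup V) ∈
        (S ⊓ Subgroup.centralizer (S : Set Ω)) ⊓ t.ker.map V.subtype := by
      refine ⟨Subgroup.mul_mem _ (Subgroup.inv_mem _ (hc h3)) (Subgroup.pow_mem _ hx _),
        (t ⟨x, hZV hx⟩)⁻¹ * ⟨x, hZV hx⟩ ^ (autInducedBy S V).relIndex (F.autGroup V), ?_, rfl⟩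
      rw [SetLike.mem_coe, MonoidHom.mem_ker, map_mul, map_inv, map_pow, relTrace_of_fixed h2,
        inv_mul_cancel]
    simpa using Subgroup.mul_mem _ (Subgroup.mem_sup_left h3) (Subgroup.mem_sup_right h4)

end Cfsg.Agent.S5294
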