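import Cfsg.Statements.S5297
import Cfsg.Agent.Lib.Fus.BGH

set_option autoImplicit false
universe u
open Cfsg

namespace Cfsg.Agent.S5297

open Cfsg.Agent.Fus Cfsg.FusionSystem

open Cfsg.Agent.Fus2

/-- Let F be a saturated fusion system over a finite p-group S. If every map of F between cyclic subgroups of the hyperfocal subgroup of F of order p or 4 is a map of the normalizer system of S (it extends to a map of F defined on all of S), then S is normal in F. -/
theorem result {Ω : Type u} [Group Ω] {S : Subgroup Ω} [Finite S] (p : ℕ) [Fact p.Prime] (hS : IsPGroup p S)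
    (F : Cfsg.FusionSystem S) (hF : F.IsSaturated p)
    (h : ∀ A B : Subgroup Ω, A ≤ (F.hyperfocalSubgroup p) → B ≤ (F.hyperfocalSubgroup p) → IsCyclic ↥A → (Nat.card ↥A = p ∨ Nat.card ↥A = 4) → IsCyclic ↥B → (Nat.card ↥B = p ∨ Nat.card ↥B = 4) →
      F.homSet A B ⊆ F.normalizerHom S A) :
    F.IsNormal S := by
  obtain ⟨n, hn⟩ := exists_ucs_eq hS
  refine isNormal_top_of_small hS hF (ucs S) n (fun i _ => ucs_mono (Nat.le_succ i)) ucs_zero
    (fun x hx _ => hn.symm ▸ hyp_le F p hx) (fun i _ x hx hq hi y hxy => ?_)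
    fun i _ x _ _ hi s hs => inv_mul_conj_mem_ucs hi hs
  by_cases h1 : x = 1
  · have := orderOf_eq_of_isConjElt hxy
    rw [h1, orderOf_one, orderOf_eq_one_iff] at this
    exact this ▸ Subgroup.one_mem _
  obtain ⟨φ, hφ, e⟩ := exists_hom_of_isConjElt hS hF (X := fun A => F.normalizerHom S A) h hx hq
    h1 hxy
  obtain ⟨g, hg, eg, -⟩ := ext_norm_iff.1 hφ.2.2.2
  obtain ⟨α, -, eα⟩ := (hg.mono le_sup_right).exists_aut' fun z hz =>
    hg.mem (Subgroup.mem_sup_right hz)
  have hxS := hyp_le F p hx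
  have := mem_of_char (ucs_characteristic i) α hxS hi
  rwa [eα x hxS, eg x (Subgroup.mem_zpowers x), fn_apply _ (Subgroup.mem_zpowers x), e] at this

end Cfsg.Agent.S5297
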