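import Cfsg.Statements.S5298
import Cfsg.Agent.Lib.Fus.BGH

set_option autoImplicit false
universe u
open Cfsg

namespace Cfsg.Agent.S5298

open Cfsg.Agent.Fus Cfsg.FusionSystem

open Cfsg.Agent.Fus2

/-- Let F be a saturated fusion system over a finite p-group S. If every map of F between cyclic subgroups of the hyperfocal subgroup of F of order p or 4 is conjugation by an element of S, then F is the inner fusion system of S. -/
theorem result {Ω : Type u} [Group Ω] {S : Subgroup Ω} [Finite S] (p : ℕ) [Fact p.Prime] (hS : IsPGroup p S)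
    (F : Cfsg.FusionSystem S) (hF : F.IsSaturated p)
    (h : ∀ A B : Subgroup Ω, A ≤ (F.hyperfocalSubgroup p) → B ≤ (F.hyperfocalSubgroup p) → IsCyclic ↥A → (Nat.card ↥A = p ∨ Nat.card ↥A = 4) → IsCyclic ↥B → (Nat.card ↥B = p ∨ Nat.card ↥B = 4) →
      F.homSet A B ⊆ (Cfsg.innerFusionSystem S).Hom A) :
    ∀ P : Subgroup Ω, F.Hom P = (Cfsg.innerFusionSystem S).Hom P := by
  obtain ⟨n, hn⟩ := exists_ucs_eq hS
  have key : ∀ x ∈ F.hyperfocalSubgroup p, x ^ smallExp p = 1 → ∀ y, F.IsConjElt x y →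
      ∃ s ∈ S, y = s * x * s⁻¹ := by
    intro x hx hq y hxy
    by_cases h1 : x = 1
    · have := orderOf_eq_of_isConjElt hxy
      rw [h1, orderOf_one, orderOf_eq_one_iff] at this
      exact ⟨1, S.one_mem, by simp [this, h1]⟩
    obtain ⟨φ, ⟨-, s, hs, hφ⟩, e⟩ := exists_hom_of_isConjElt hS hF
      (X := fun A => (innerFusionSystem S).Hom A) h hx hq h1 hxy
    exact ⟨s, hs, e ▸ hφ _⟩
  intro P
  rw [eq_inner_of_isPGroup hS hF fun Q hQ => ?_]
  refine isPGroup_autCore.to_le (fun α hα => mem_autCore_of_small_hyp hS hF hQ (ucs S) n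
    (fun i _ => ucs_mono (Nat.le_succ i)) ucs_zero (fun x hx _ => hn.symm ▸ hyp_le F p hx)
    (fun i _ x hx hq hi y hxy => ?_) hα fun i _ x hx hx' hq hi => ?_)
  · obtain ⟨s, hs, rfl⟩ := key x hx hq y hxy
    have := mem_of_char (ucs_characteristic i) (conjAut S s (Subgroup.le_normalizer hs))
      (hyp_le F p hx) hi
    rwa [afn_conjAut _ (hyp_le F p hx)] at this
  · obtain ⟨s, hs, e⟩ := key x hx' hq _ (isConjElt_of_M (M_afn hQ hα) hx)
    rw [e]
    exact inv_mul_conj_mem_ucs hi hs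

end Cfsg.Agent.S5298
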