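import Cfsg.Statements.S5300
import Cfsg.Agent.Lib.Fus.BGH

set_option autoImplicit false
universe u
open Cfsg

namespace Cfsg.Agent.S5300

open Cfsg.Agent.Fus Cfsg.FusionSystem

open Cfsg.Agent.Fus2

/-- The central elements of order dividing `p`. -/
def zOne {Ω : Type*} [Group Ω] (S : Subgroup Ω) (p : ℕ) : Subgroup Ω where
  carrier := {x | x ∈ centralizerIn S S ∧ x ^ p = 1}
  one_mem' := ⟨Subgroup.one_mem _, one_pow _⟩
  mul_mem' := by
    rintro a b ⟨ha, ha'⟩ ⟨hb, hb'⟩
    refine ⟨Subgroup.mul_mem _ ha hb, ?_⟩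
    rw [Commute.mul_pow (hb.2 a ha.1), ha', hb', one_mul]
  inv_mem' := by
    rintro a ⟨ha, ha'⟩
    exact ⟨Subgroup.inv_mem _ ha, by rw [inv_pow, ha', inv_one]⟩

theorem central_of_normal {Ω : Type*} [Group Ω] {S : Subgroup Ω} [Finite S] {p : ℕ} [hp : Fact p.Prime]
    (hS : IsPGroup p S) {x : Ω} (hx : x ∈ S) (hxp : x ^ p = 1)
    (h : ∀ s ∈ S, s * x * s⁻¹ ∈ Subgroup.zpowers x) : x ∈ centralizerIn S S := by
  by_cases h1 : x = 1
  · exact h1 ▸ Subgroup.one_mem _
  have := hS.isNilpotent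
  have hn : (Subgroup.zpowers (⟨x, hx⟩ : S)).Normal := by
    refine ⟨?_⟩
    rintro _ ⟨k, rfl⟩ g
    obtain ⟨m, hm⟩ := h g g.2
    refine ⟨m * k, Subtype.ext ?_⟩
    simp only [zpow_mul, ← conj_zpow, SubgroupClass.coe_zpow, Subgroup.coe_mul, Subgroup.coe_inv]
    rw [show x ^ m = g * x * (g : Ω)⁻¹ from hm]
  obtain ⟨y, hy, hy1, hc⟩ := Fit.exists_central_mod (N := ⊥) (M := Subgroup.zpowers (⟨x, hx⟩ : S))
    (fun h => h1 (congrArg Subtype.val (Subgroup.mem_bot.1 (h (Subgroup.mem_zpowers _)))))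
  have hcard : Nat.card (Subgroup.zpowers (⟨x, hx⟩ : S)) = p := by
    rw [Nat.card_zpowers]
    exact orderOf_eq_prime (Subtype.ext hxp) fun h => h1 (congrArg Subtype.val h)
  have hxy : (⟨x, hx⟩ : S) ∈ Subgroup.zpowers y := by
    have h2 : Subgroup.zpowers y = Subgroup.zpowers (⟨x, hx⟩ : S) := by
      refine Subgroup.eq_of_le_of_card_ge (Subgroup.zpowers_le.2 hy) ?_
      have h3 := Subgroup.card_dvd_of_le (Subgroup.zpowers_le.2 hy)
      rw [hcard] at h3 ⊢
      rcases (Nat.dvd_prime hp.out).1 h3 with h4 | h4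
      · rw [Nat.card_zpowers, orderOf_eq_one_iff] at h4
        exact absurd (Subgroup.mem_bot.2 h4) hy1
      · exact h4.ge
    exact h2 ▸ Subgroup.mem_zpowers _
  obtain ⟨k, hk⟩ := hxy
  refine ⟨hx, fun s hs => ?_⟩
  have h2 : Commute (⟨s, hs⟩ : S) y := by
    have := Subgroup.mem_bot.1 (hc ⟨s, hs⟩)
    rwa [mul_inv_eq_one, mul_inv_eq_iff_eq_mul] at this
  have h3 := (h2.zpow_right k).eq
  simp only at hk
  rw [hk] at h3
  exact congrArg Subtype.val h3

/-- Let F be a saturated fusion system over a finite p-group S. If every cyclic subgroup of the focal subgroup of F of order p (of order 2 or 4 when p = 2) is normal in S, then S is normal in F. -/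
theorem result {Ω : Type u} [Group Ω] {S : Subgroup Ω} [Finite S] (p : ℕ) [Fact p.Prime] (hS : IsPGroup p S)
    (F : Cfsg.FusionSystem S) (hF : F.IsSaturated p)
    (hnorm : ∀ x ∈ F.focalSubgroup, (x ^ p = 1 ∨ (p = 2 ∧ x ^ 4 = 1)) → ∀ s ∈ S, s * x * s⁻¹ ∈ Subgroup.zpowers x) :
    F.IsNormal S := by
  have key : ∀ x ∈ F.focalSubgroup, x ^ p = 1 → x ∈ zOne S p := fun x hx hxp =>
    ⟨central_of_normal hS (foc_le F hx) hxp (hnorm x hx (Or.inl hxp)), hxp⟩
  refine isNormal_top_of_small hS hF (fun i => if i = 0 then ⊥ else if i = 1 then zOne S p else ⊤) 2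
    (fun i hi => ?_) rfl (fun x _ _ => trivial) (fun i hi x hx hq hi' y hxy => ?_)
    fun i hi x hx hq hi' s hs => ?_
  · interval_cases i <;> simp
  · have ho := orderOf_eq_of_isConjElt hxy
    interval_cases i
    · have : x = 1 := hi'
      rw [this, orderOf_one, orderOf_eq_one_iff] at ho
      exact ho
    · refine key y (hyp_le_foc F p ((stronglyClosed_iff_isConjElt.1 (sc_hyp hS hF)).2 x hx y hxy)) ?_
      rw [← orderOf_dvd_iff_pow_eq_one, ho, orderOf_dvd_iff_pow_eq_one]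
      exact (show x ∈ zOne S p from hi').2
    · trivial
  · have hxf := hyp_le_foc F p hx
    interval_cases i
    · have : x ∈ zOne S p := hi'
      show _ = 1
      rw [this.1.2 s hs]
      group
    · show _ ∈ zOne S p
      by_cases h2 : p = 2
      · subst h2
        have h3 := hnorm x hxf (Or.inr ⟨rfl, hq⟩) s hs
        have h4 : x ^ 2 ∈ zOne S 2 := key _ (Subgroup.pow_mem _ hxf 2) (by rw [← pow_mul]; exact hq)
        refine key _ (Subgroup.mul_mem _ (Subgroup.inv_mem _ hxf) (Subgroup.zpowers_le.2 hxf h3)) ?_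
        obtain ⟨k, hk⟩ := h3
        have h5 : Commute x⁻¹ (s * x * s⁻¹) := hk ▸ (Commute.refl x).inv_left.zpow_right k
        rw [h5.mul_pow, conj_pow, h4.1.2 s hs]
        group
      · rw [smallExp_of_ne h2] at hq
        rw [(key x hxf hq).1.2 s hs, mul_inv_cancel_right, inv_mul_cancel]
        exact Subgroup.one_mem _

end Cfsg.Agent.S5300
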