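import Cfsg.Statements.S5301
import Cfsg.Agent.Lib.Fus.Normal

set_option autoImplicit false
universe u
open Cfsg

namespace Cfsg.Agent.S5301

open Cfsg.Agent.Fus Cfsg.FusionSystem

/-- Let F be a saturated fusion system over a finite p-group S. If for every subgroup P of S that is fully normalized, centric and radical in F the automorphism group that F induces on P has a normal Sylow p-subgroup, then S is normal in F. -/
theorem result {Ω : Type u} [Group Ω] {S : Subgroup Ω} [Finite S] (p : ℕ) [Fact p.Prime] (hS : IsPGroup p S)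
    (F : Cfsg.FusionSystem S) (hF : F.IsSaturated p)
    (hcl : ∀ P : Subgroup Ω, F.IsFullyNormalized P → F.IsCentric P → F.IsRadical p P →
      ∃ R : Sylow p ↥(F.autGroup P), (R : Subgroup ↥(F.autGroup P)).Normal) :
    F.IsNormal S := by
  refine (isNormal_top_iff hS hF).2 fun E hE => ?_
  obtain ⟨h1, h2, h3⟩ := fcr_of_top_or_essential hS hF (Or.inr hE)
  obtain ⟨R, hR⟩ := hcl E h1 h2 h3
  have hsyl := isSylowIn_map_subtype R
  have hn : F.autGroup E ≤ Subgroup.normalizer
      (((R : Subgroup (F.autGroup E)).map (F.autGroup E).subtype : Subgroup (MulAut E)) :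
        Set (MulAut E)) := by
    intro α hα
    have := Subgroup.le_normalizer_map (F.autGroup E).subtype
      (H := (R : Subgroup (F.autGroup E))) ⟨⟨α, hα⟩, by
        rw [Subgroup.normalizer_eq_top]; trivial, rfl⟩
    exact this
  have h4 := (hsyl.le_of_le_normalizer (autInducedBy_le_autGroup h1.1)
    (isPGroup_autInducedBy hS E) ((autInducedBy_le_autGroup h1.1).trans hn)).trans
      (le_autCore hsyl.le hsyl.isPGroup hn)
  obtain ⟨g, hg, hgN, hgE⟩ := exists_mem_normalizer_not_mem hS (lt_of_isEssential hS hF hE)
  exact hgE (mem_of_conjAut_mem_autCore h2 h3 hg hgN (h4 (conjAut_mem_autInducedBy hg hgN)))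

end Cfsg.Agent.S5301
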