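import Cfsg.Statements.S5310
import Cfsg.Agent.Lib.Fus2.CProd

set_option autoImplicit false
open Cfsg

namespace Cfsg.Agent.S5310

open Cfsg.Agent.Fus2 in
theorem cp_bot {Ω : Type*} [Group Ω] {T : Subgroup Ω} (E : Cfsg.FusionSystem T) :
    CP E (Cfsg.innerFusionSystem ⊥) E := by
  refine ⟨⟨fun x _ y hy => by rw [Subgroup.mem_bot.1 hy, mul_one, one_mul],
    (inf_bot_eq T).symm ▸ isCentral_bot _, (inf_bot_eq T).symm ▸ isCentral_bot _⟩,
    (sup_bot_eq T).symm, fun P f => ⟨fun hf => ⟨P, ⊥, f, le_sup_left, ?_, hf, ?_, fun _ _ => rfl⟩, ?_⟩⟩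
  · rw [sup_bot_eq]; exact hf.homOn
  · exact (M_id _ le_rfl).congr fun x hx => by rw [Subgroup.mem_bot.1 hx, hf.map_one]
  · rintro ⟨A, B, g, h1, -, h3, h4, h5⟩
    exact (h3.mono (h1.trans (sup_le le_rfl (h4.le.trans bot_le)))).congr fun x hx => (h5 x hx).symm


/-- A saturated fusion system F over a finite p-group S is constrained (its largest normal subgroup O_p(F) is centric) if and only if the inner fusion system of O_p(F) is itself a generalized Fitting subsystem of F (that is, F*(F) = O_p(F)). -/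
theorem result {Ω : Type*} [Group Ω] {S : Subgroup Ω} [Finite S] (p : ℕ) [Fact p.Prime] (hS : IsPGroup p S) (F : Cfsg.FusionSystem S) (hF : F.IsSaturated p) :
    F.IsConstrained p ↔ (Cfsg.innerFusionSystem F.core).IsGeneralizedFittingOf F p := by
  have hQ := Fus2.isNormal_core F
  have := Fus2.finite_of_le hQ.1
  rw [Fus2.isConstrained_iff_no_component hS hF]
  constructor
  · intro h
    refine ⟨⊥, Cfsg.innerFusionSystem ⊥, ⟨Fus.inner_isNormalIn hS hF (Fus2.isNormal_bot F),
      fun U C hC => absurd ⟨U, C, hC⟩ h, fun R D _ _ => Fus2.isSubsystemOf_iff.2 fun P f hf => ?_⟩,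
      Fus2.isCentralProductOf_iff.2 (cp_bot _)⟩
    exact (Fus2.M_id D (hf.le.trans bot_le)).congr fun x hx => by
      rw [Subgroup.mem_bot.1 (hf.le hx), hf.map_one]
  · rintro ⟨T, E, hE, hD⟩ ⟨U, C, hC⟩
    have := Fus2.finite_of_le (Fus2.invM_of_isNormalIn hE.1).le
    have hD' := Fus2.isCentralProductOf_iff.1 hD
    have hsub : C.IsSubsystemOf (Cfsg.innerFusionSystem F.core) :=
      Fus2.isSubsystemOf_iff.2 fun P f hf =>
        hD'.sub₂ (Fus2.isSubsystemOf_iff.1 (hE.2.1 U C hC) P f hf)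
    have h1 := Fus2.hyp_mono (p := p) hsub
    rw [Fus2.hyp_inner (hS.to_le hQ.1), hC.2.2.1] at h1
    have := Fus2.finite_of_le (Fus2.le_of_isSubsystemOf hsub)
    exact Fus2.center_ne_of_quasisimple hC.2
      (le_antisymm (Fus2.center_le C) (h1.trans bot_le))

end Cfsg.Agent.S5310
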