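import Cfsg.Statements.S5317
import Cfsg.Agent.Lib.Mat.SL2

set_option autoImplicit false
open Cfsg

namespace Cfsg.Agent.S5317

open Cfsg.Agent.Fus Cfsg.FusionSystem

open Cfsg.Agent.Mat Matrix

/-- Let F be a finite field of odd order q with q² ≡ 1 mod 16 (so that a Sylow 2-subgroup of PSL(2,q), dihedral of order the 2-part of (q²−1)/2, has order at least 8). Then the 2-fusion system of PSL(2,F) on a Sylow 2-subgroup is simple: saturated, over a nontrivial 2-group, with no normal subsystem other than the trivial one and itself. -/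
theorem result {F : Type*} [Field F] [Fintype F] (hodd : Fintype.card F % 2 = 1) (h16 : 16 ∣ Fintype.card F ^ 2 - 1)
    (S : Sylow 2 (Matrix.ProjectiveSpecialLinearGroup (Fin 2) F)) :
    (Cfsg.groupFusionSystem (S : Subgroup (Matrix.ProjectiveSpecialLinearGroup (Fin 2) F))).IsSimple 2 := by
  have h2 := two_ne_zero_of_odd hodd
  obtain ⟨a, b, hab⟩ := exists_quad h2 (one_ne_zero) (one_ne_zero) (-1 : F)
  rw [one_mul, one_mul] at hab
  obtain ⟨s, hs⟩ : IsSquare (2 : F) := FiniteField.isSquare_two_iff.2 (by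
    have h1 : 1 ≤ Fintype.card F ^ 2 := Nat.one_le_pow _ _ Fintype.card_pos
    obtain ⟨c, hc⟩ := h16
    obtain ⟨m, hm⟩ : ∃ m, Fintype.card F = 8 * m + Fintype.card F % 8 :=
      ⟨_, (Nat.div_add_mod _ 8).symm⟩
    constructor <;> intro e <;> rw [e] at hm <;> rw [hm] at hc h1 <;> ring_nf at hc h1 <;> omega)
  obtain ⟨φ, hφ⟩ : ∃ φ : Matrix.SpecialLinearGroup (Fin 2) F →* M2 F, IsSL φ := ⟨_, isSL_coe _ _⟩
  obtain ⟨z, hz⟩ := hφ.surj (-1) (by simp [det_fin_two])
  obtain ⟨i, hi⟩ := hφ.surj _ det_mI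
  obtain ⟨j, hj⟩ := hφ.surj _ (det_mJ hab)
  obtain ⟨w, hw⟩ := hφ.surj !![0, -1; 1, s] (by simp [det_fin_two])
  have hQ := hφ.qpair h2 hab hz hi hj
  have hw4 : w ^ 4 = z := by
    have h1 : φ w * φ w = s • φ w - 1 := by
      rw [cayley, hφ.det, one_smul]
      simp [hw, trace_fin_two]
    refine hφ.inj ?_
    rw [map_pow, hz, show φ w ^ 4 = (φ w * φ w) * (φ w * φ w) by
      simp only [pow_succ, pow_zero, one_mul, mul_assoc],
      h1, sub_mul, mul_sub, smul_mul_smul_comm, h1, ← hs, mul_one, one_mul, two_smul]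
    abel
  obtain ⟨U, hU⟩ := exists_crit_L2 hQ (w := w) (k := 3) (K := Subgroup.center _)
    (hφ.uniq h2 hz) (hφ.isConj h2 hab hz hi hj)
    (by rw [show 2 ^ 3 = 4 * 2 from rfl, pow_mul, hw4, sq, hQ.zz]) (hw4 ▸ hQ.ne)
    (Subgroup.mem_center_iff.2 (hφ.central hz))
    (fun e => hQ.ne_comm (Subgroup.mem_center_iff.1 e j).symm)
  exact hU.isSimple_quotient S

end Cfsg.Agent.S5317
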