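import Cfsg.Statements.S5318
import Cfsg.Agent.Lib.Mat.Three

set_option autoImplicit false
open Cfsg

namespace Cfsg.Agent.S5318

open Cfsg.Agent.Fus Cfsg.FusionSystem

open Cfsg.Agent.Mat Matrix

/-- For a finite field F of odd order, the 2-fusion system of PSL(3,F) on a Sylow 2-subgroup (semidihedral or wreathed according as |F| ≡ 3 or 1 mod 4) is simple. -/
theorem result {F : Type*} [Field F] [Fintype F] (hodd : Fintype.card F % 2 = 1) (S : Sylow 2 (Matrix.ProjectiveSpecialLinearGroup (Fin 3) F)) :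
    (Cfsg.groupFusionSystem (S : Subgroup (Matrix.ProjectiveSpecialLinearGroup (Fin 3) F))).IsSimple 2 := by
  have h2 := two_ne_zero_of_odd hodd
  obtain ⟨a, b, hab⟩ := exists_quad h2 (one_ne_zero) (one_ne_zero) (-1 : F)
  rw [one_mul, one_mul] at hab
  obtain ⟨φ, hφ⟩ : ∃ φ : Matrix.SpecialLinearGroup (Fin 3) F →* M3 F, IsSL φ := ⟨_, isSL_coe _ _⟩
  obtain ⟨U, hU⟩ := hφ.isSU.exists_crit h2 (fun _ _ _ => ⟨1, one_ne_zero, False.elim⟩) hab
    False.elim
  exact hU.isSimple_quotient S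

end Cfsg.Agent.S5318
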