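import Cfsg.Statements.S5319
import Cfsg.Agent.Lib.Mat.Unitary

set_option autoImplicit false
open Cfsg

namespace Cfsg.Agent.S5319

open Cfsg.Agent.Fus Cfsg.FusionSystem

open Cfsg.Agent.Mat Matrix

/-- Let q be an odd prime power and F a field with q² elements. Then the 2-fusion system of PSU(3,q) (realised as the special unitary group of the standard Hermitian form over F modulo its centre) on a Sylow 2-subgroup is simple. -/
theorem result {F : Type*} [Field F] [Fintype F] (q : ℕ) (hq : Fintype.card F = q ^ 2) (hodd : q % 2 = 1) (S : Sylow 2 (Cfsg.PSU 3 F q)) :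
    (Cfsg.groupFusionSystem (S : Subgroup (Cfsg.PSU 3 F q))).IsSimple 2 := by
  have h2 : (2 : F) ≠ 0 := two_ne_zero_of_odd (by rw [hq, Nat.pow_mod, hodd])
  obtain ⟨σ, hσ, hσσ, x, hx⟩ := exists_frob hq
  have hθ : x - σ x ≠ 0 := sub_ne_zero.2 hx.symm
  have hθ' : σ (x - σ x) = -(x - σ x) := by rw [map_sub, hσσ, neg_sub]
  obtain ⟨a, b, ha, hb, hab⟩ := exists_skew_sq_add_sq h2 hθ hθ'
  obtain ⟨φ, hφ⟩ := exists_isSU (n := 3) hσ
  obtain ⟨U, hU⟩ := hφ.exists_crit h2 (fun d hd e => by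
    obtain ⟨l, hl⟩ := exists_norm_eq h2 hθ hθ' (e trivial)
    exact ⟨l, fun e => hd (by rw [← hl, e, zero_mul]), fun _ => hl⟩) hab fun _ => ⟨ha, hb⟩
  exact hU.isSimple_quotient S

end Cfsg.Agent.S5319
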