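import Cfsg.Statements.S5330
import Cfsg.Agent.Lib.Fus.AutTwo
import Cfsg.Agent.Lib.Fus.Normal
import Cfsg.Agent.Lib.Fus2.Hyper

set_option autoImplicit false
open Cfsg

namespace Cfsg.Agent.S5330

open Cfsg.Agent.Fus Cfsg.FusionSystem

open Cfsg.Agent.Fus2

/-- Let F be a saturated fusion system over a finite abelian p-group S. Then S is the internal direct product of the centre of the system and the focal subgroup: Z(F) ∩ foc(F) = 1 and Z(F)·foc(F) = S. -/
theorem result {Ω : Type*} [Group Ω] {S : Subgroup Ω} [Finite S] (p : ℕ) [Fact p.Prime] (hS : IsPGroup p S) (F : Cfsg.FusionSystem S) (hF : F.IsSaturated p) (hab : ∀ x ∈ S, ∀ y ∈ S, x * y = y * x) : F.center ⊓ F.focalSubgroup = ⊥ ∧ F.center ⊔ F.focalSubgroup = S := by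
  let : CommGroup S := { (inferInstance : Group S) with
    mul_comm := fun x y => Subtype.ext (hab x x.2 y y.2) }
  have hN := isNormal_top_of_comm hS hF hab
  have hInn : Inn S = ⊥ := eq_bot_iff.2 fun α hα => by
    obtain ⟨g, hg, e⟩ := Fus2.mem_Inn_iff.1 hα
    exact aut_ext fun x hx => by rw [e x hx, hab g hg x hx, afn_one, mul_inv_cancel_right]
  have hm : ¬ p ∣ (⊥ : Subgroup (MulAut S)).relIndex (F.autGroup S) :=
    hInn ▸ (sat_sylow_top hS hF).not_dvd_relIndex
  have hZ : ∀ x : S, (x : Ω) ∈ F.center ↔ ∀ α ∈ F.autGroup S, α x = x := fun x => by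
    rw [mem_center_iff hS hF]
    refine ⟨fun h α hα => Subtype.ext ?_, fun h => ⟨x.2, fun y hy => ?_⟩⟩
    · rw [← afn_coe]
      exact h.2 _ (isConjElt_of_M (M_afn le_rfl hα) x.2)
    · obtain ⟨f, hf, rfl⟩ := isConjElt_iff.1 hy
      obtain ⟨α, hα, e⟩ := exists_aut_of_isNormal hN hf.le hf
      rw [← e _ (Subgroup.mem_zpowers _), afn_coe, h α hα]
  constructor
  · refine eq_bot_iff.2 fun x hx => ?_
    have hx' := center_le F hx.1
    have h1 : F.focalSubgroup ≤ (relTrace (F.autGroup S) ⊥).ker.map S.subtype :=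
      foc_le_iff.2 fun P f hf y hy => by
        obtain ⟨α, hα, e⟩ := exists_aut_of_isNormal hN hf.le hf
        refine ⟨(⟨y, hf.le hy⟩ : S)⁻¹ * α ⟨y, hf.le hy⟩, ?_, ?_⟩
        · simp [MonoidHom.mem_ker, relTrace_bot_apply hα]
        · rw [← e y hy, afn_apply _ (hf.le hy)]
          rfl
    obtain ⟨y, hy, rfl⟩ := h1 hx.2
    rw [SetLike.mem_coe, MonoidHom.mem_ker, relTrace_of_fixed ((hZ y).1 hx.1)] at hy
    obtain ⟨k, hk⟩ := hS y
    have := mem_of_pow_mem_of_not_dvd hk hm (H := ⊥) hy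
    rw [Subgroup.mem_bot.1 this]
    exact Subgroup.one_mem _
  · refine le_antisymm (sup_le (center_le F) (foc_le F)) fun x hx => ?_
    obtain ⟨k, hk⟩ := hS ⟨x, hx⟩
    refine mem_of_pow_mem_of_not_dvd (congrArg Subtype.val hk) hm ?_
    have h1 := relTrace_mem (A := F.autGroup S) (U := ⊥) (X := F.focalSubgroup.subgroupOf S)
      (fun α hα y => by
        have := mem_foc (M_afn le_rfl hα) y.2
        rwa [afn_coe] at this) ⟨x, hx⟩
    have h2 := (hZ _).2 fun α hα => apply_relTrace (A := F.autGroup S) (U := ⊥) (x := ⟨x, hx⟩)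
      (fun β hβ => by rw [Subgroup.mem_bot.1 hβ]; rfl) hα
    have := Subgroup.mul_mem _ (Subgroup.mem_sup_left h2)
      (Subgroup.mem_sup_right (Subgroup.inv_mem F.focalSubgroup h1))
    simpa using this

end Cfsg.Agent.S5330
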