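import Cfsg.Statements.S5331
import Cfsg.Agent.Lib.Fus.Normal

set_option autoImplicit false
open Cfsg

namespace Cfsg.Agent.S5331

open Cfsg.Agent.Fus Cfsg.FusionSystem

section Aux

variable {G : Type*} [CommGroup G]

/-- Involutions that are `2^j`-th powers. -/
def dPow (G : Type*) [CommGroup G] (j : ℕ) : Subgroup G where
  carrier := {x | x ^ 2 = 1 ∧ ∃ y, y ^ 2 ^ j = x}
  one_mem' := ⟨one_pow _, 1, one_pow _⟩
  mul_mem' := by
    rintro a b ⟨ha, y, rfl⟩ ⟨hb, z, rfl⟩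
    exact ⟨by rw [mul_pow, ha, hb, one_mul], y * z, mul_pow _ _ _⟩
  inv_mem' := by
    rintro a ⟨ha, y, rfl⟩
    exact ⟨by rw [inv_pow, ha, inv_one], y⁻¹, inv_pow _ _⟩

/-- Elements killed by `2^j`. -/
def omPow (G : Type*) [CommGroup G] (j : ℕ) : Subgroup G where
  carrier := {x | x ^ 2 ^ j = 1}
  one_mem' := one_pow _
  mul_mem' := by
    intro a b ha hb
    show (a * b) ^ 2 ^ j = 1
    rw [mul_pow, ha, hb, one_mul]
  inv_mem' := by
    intro a ha
    show a⁻¹ ^ 2 ^ j = 1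
    rw [inv_pow, ha, inv_one]

theorem dPow_apply (α : MulAut G) {j : ℕ} {x : G} (hx : x ∈ dPow G j) : α x ∈ dPow G j := by
  obtain ⟨h, y, rfl⟩ := hx
  exact ⟨by rw [← map_pow, h, map_one], α y, (map_pow α _ _).symm⟩

theorem dPow_succ_le (j : ℕ) : dPow G (j + 1) ≤ dPow G j := by
  rintro x ⟨h, y, rfl⟩
  exact ⟨h, y ^ 2, by rw [← pow_mul, pow_succ']⟩

theorem isPGroup_mulAut [Finite G] (hG : IsPGroup 2 G)
    (h : ∀ j x y, x ∈ dPow G j → y ∈ dPow G j → x ∉ dPow G (j + 1) → y ∉ dPow G (j + 1) →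
      x⁻¹ * y ∈ dPow G (j + 1)) : IsPGroup 2 (MulAut G) := by
  intro α
  obtain ⟨N, hN⟩ := isPGroup_iff_card_dvd_pow.1 hG
  have hN' : ∀ x : G, x ^ 2 ^ N = 1 := fun x =>
    orderOf_dvd_iff_pow_eq_one.1 ((orderOf_dvd_natCard _).trans hN)
  have htriv : ∀ j, TrivOn α (dPow G j) (dPow G (j + 1)) := by
    intro j x hx
    by_cases hx' : x ∈ dPow G (j + 1)
    · exact Subgroup.mul_mem _ (Subgroup.inv_mem _ hx') (dPow_apply α hx')
    · refine h j _ _ hx (dPow_apply α hx) hx' fun h' => hx' ?_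
      simpa using dPow_apply α⁻¹ h'
  have h1 : ∀ i ≤ N, ∃ k : ℕ, ∀ x ∈ dPow G (N - i), (α ^ 2 ^ k) x = x := by
    intro i
    induction i with
    | zero =>
      intro _
      refine ⟨0, ?_⟩
      rintro x ⟨-, y, rfl⟩
      rw [Nat.sub_zero, hN', map_one]
    | succ i ih =>
      intro hi
      have e : N - i = N - (i + 1) + 1 := by omega
      refine TrivOn.exists_pow_fix hG (dPow_succ_le _) (htriv _) ?_
      rw [← e]
      exact ih (by omega)
  obtain ⟨k, hk⟩ := h1 N le_rfl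
  have hk' : ∀ x : G, x ^ 2 = 1 → (α ^ 2 ^ k) x = x := fun x hx =>
    hk x ⟨hx, x, by simp⟩
  obtain ⟨m, hm⟩ := exists_pow_eq_one_of_chain hG (α := α ^ 2 ^ k) (omPow G) N
    (fun i _ x hx => by
      show x ^ 2 ^ (i + 1) = 1
      have : x ^ 2 ^ i = 1 := hx
      rw [pow_succ, pow_mul, this, one_pow])
    (eq_top_iff.2 fun x _ => hN' x)
    (fun i _ x hx => by
      show (x⁻¹ * (α ^ 2 ^ k) x) ^ 2 ^ i = 1
      have : x ^ 2 ^ (i + 1) = 1 := hx
      rw [pow_succ, pow_mul] at this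
      rw [mul_pow, ← map_pow, hk' _ this, inv_pow, inv_mul_cancel])
    ⟨0, fun x hx => by
      have : x ^ 2 ^ 0 = 1 := hx
      rw [pow_zero, pow_one] at this
      rw [this, map_one]⟩
  exact ⟨k + m, by rw [pow_add, pow_mul, hm]⟩

theorem zmod_two_nsmul {a : ℕ} (ha : 1 ≤ a) (z : ZMod (2 ^ a)) (hz : 2 • z = 0) :
    z = 0 ∨ z = ((2 ^ (a - 1) : ℕ) : ZMod (2 ^ a)) := by
  obtain ⟨b, rfl⟩ : ∃ b, a = b + 1 := ⟨a - 1, by omega⟩
  have hz' : ((2 * z.val : ℕ) : ZMod (2 ^ (b + 1))) = 0 := by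
    rw [Nat.cast_mul, ZMod.natCast_zmod_val, ← nsmul_eq_mul, hz]
  rw [ZMod.natCast_eq_zero_iff] at hz'
  have hz'' : 2 * 2 ^ b ∣ 2 * z.val := by rw [← pow_succ']; exact hz'
  obtain ⟨c, hc⟩ := Nat.dvd_of_mul_dvd_mul_left two_pos hz''
  have hlt : z.val < 2 ^ b * 2 := by rw [← pow_succ]; exact ZMod.val_lt z
  have hc2 : c < 2 := by
    rw [hc] at hlt
    exact Nat.lt_of_mul_lt_mul_left hlt
  rw [← ZMod.natCast_zmod_val z, hc]
  interval_cases c <;> simp

theorem mem_dPow_iff {n : ℕ} {a : Fin n → ℕ} (ha1 : ∀ i, 1 ≤ a i) {j : ℕ}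
    {x : Multiplicative ((i : Fin n) → ZMod (2 ^ a i))} :
    x ∈ dPow _ j ↔ ∀ i, x.toAdd i = 0 ∨
      (x.toAdd i = ((2 ^ (a i - 1) : ℕ) : ZMod (2 ^ a i)) ∧ j < a i) := by
  constructor
  · rintro ⟨h2, y, rfl⟩ i
    have h3 : 2 • (y ^ 2 ^ j).toAdd i = 0 := by
      have := congrFun (congrArg Multiplicative.toAdd h2) i
      rwa [toAdd_pow, Pi.smul_apply, toAdd_one, Pi.zero_apply] at this
    by_cases hj : j < a i
    · exact (zmod_two_nsmul (ha1 i) _ h3).imp id fun h => ⟨h, hj⟩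
    · left
      have : ((2 ^ j : ℕ) : ZMod (2 ^ a i)) = 0 :=
        (ZMod.natCast_eq_zero_iff _ _).2 (pow_dvd_pow 2 (by omega))
      rw [toAdd_pow, Pi.smul_apply, nsmul_eq_mul, this, zero_mul]
  · intro h
    classical
    refine ⟨?_, Multiplicative.ofAdd fun i =>
      if x.toAdd i = 0 then 0 else ((2 ^ (a i - 1 - j) : ℕ) : ZMod (2 ^ a i)), ?_⟩
    · apply Multiplicative.toAdd.injective
      funext i
      rw [toAdd_pow, Pi.smul_apply, toAdd_one, Pi.zero_apply]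
      rcases h i with h | ⟨h, -⟩
      · rw [h, smul_zero]
      · rw [h, nsmul_eq_mul, ← Nat.cast_mul, ← pow_succ', Nat.sub_add_cancel (ha1 i),
          ZMod.natCast_self]
    · apply Multiplicative.toAdd.injective
      funext i
      rw [toAdd_pow, Pi.smul_apply, toAdd_ofAdd]
      split_ifs with h0
      · rw [h0, smul_zero]
      · obtain ⟨h1, h2⟩ := (h i).resolve_left h0
        rw [h1, nsmul_eq_mul, ← Nat.cast_mul, ← pow_add]
        congr 2
        omega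

theorem isPGroup_mulAut_pi {n : ℕ} {a : Fin n → ℕ} (ha : StrictMono a) (ha1 : ∀ i, 1 ≤ a i)
    (hG : IsPGroup 2 (Multiplicative ((i : Fin n) → ZMod (2 ^ a i)))) :
    IsPGroup 2 (MulAut (Multiplicative ((i : Fin n) → ZMod (2 ^ a i)))) := by
  refine isPGroup_mulAut hG fun j x y hx hy hx' hy' => ?_
  have key : ∀ {x : Multiplicative ((i : Fin n) → ZMod (2 ^ a i))}, x ∈ dPow _ j →
      x ∉ dPow _ (j + 1) → ∀ i, a i = j + 1 →
        x.toAdd i = ((2 ^ (a i - 1) : ℕ) : ZMod (2 ^ a i)) := by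
    intro x hx hx' i hi
    rw [mem_dPow_iff ha1] at hx hx'
    push Not at hx'
    obtain ⟨i', h1, h2⟩ := hx'
    obtain ⟨h3, h4⟩ := (hx i').resolve_left h1
    have h5 := h2 h3
    have : i' = i := ha.injective (by omega)
    subst this
    exact h3
  have hxy := Subgroup.mul_mem _ (Subgroup.inv_mem _ hx) hy
  rw [mem_dPow_iff ha1] at hxy ⊢
  intro i
  by_cases hi : a i = j + 1
  · left
    rw [toAdd_mul, toAdd_inv, Pi.add_apply, Pi.neg_apply, key hx hx' i hi, key hy hy' i hi,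
      neg_add_cancel]
  · exact (hxy i).imp id fun h => ⟨h.1, by omega⟩

end Aux

/-- Let S be a finite abelian 2-group that is a direct product of cyclic groups of pairwise distinct orders 2^{a_1} < 2^{a_2} < ⋯ < 2^{a_n} (all a_i ≥ 1). Then every saturated fusion system over S is the inner one: its maps are exactly the conjugations by elements of S. -/
theorem result {Ω : Type*} [Group Ω] {S : Subgroup Ω} [Finite S] (n : ℕ) (a : Fin n → ℕ) (ha : StrictMono a) (ha1 : ∀ i, 1 ≤ a i) (e : ↥S ≃* Multiplicative ((i : Fin n) → ZMod (2 ^ a i))) (F : Cfsg.FusionSystem S) (hF : F.IsSaturated 2) (P : Subgroup Ω) : F.Hom P = (Cfsg.innerFusionSystem S).Hom P := by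
  have hG : IsPGroup 2 (Multiplicative ((i : Fin n) → ZMod (2 ^ a i))) := by
    refine IsPGroup.of_card (n := ∑ i, a i) ?_
    rw [Nat.card_eq_fintype_card, Fintype.card_multiplicative, Fintype.card_pi,
      ← Finset.prod_pow_eq_pow_sum]
    simp
  have hS : IsPGroup 2 S := hG.of_equiv e.symm
  have hA : IsPGroup 2 (MulAut S) := (isPGroup_mulAut_pi ha ha1 hG).of_equiv (MulAut.congr e.symm)
  have hab : ∀ x ∈ S, ∀ y ∈ S, x * y = y * x := fun x hx y hy => by
    have : (⟨x, hx⟩ : S) * ⟨y, hy⟩ = ⟨y, hy⟩ * ⟨x, hx⟩ := e.injective (by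
      rw [map_mul, map_mul, mul_comm])
    exact congrArg Subtype.val this
  have hN := (isNormal_top_iff hS hF).1 (isNormal_top_of_comm hS hF hab)
  rw [le_inner_of_no_essential hS hF
    (autGroup_top_eq_Inn_of_isPGroup hS hF (hA.to_subgroup _)).le hN]

end Cfsg.Agent.S5331
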